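import Mathlib
import Cfsg.Prelude.Def_LieTypeDatum

/-!
# The group theory of the `p'`-core criterion
-/

set_option autoImplicit false

namespace Cfsg.Agent.Lib.AutPOm

variable {K : Type*} [Group K]

/-- The fixed points of an automorphism. -/
abbrev fixP (x : MulAut K) : Subgroup K := MonoidHom.eqLocus x.toMonoidHom (MonoidHom.id K)

lemma mem_fixP {x : MulAut K} {k : K} : k ∈ fixP x ↔ x k = k := Iff.rfl

lemma conj_conj_aut (φ : MulAut K) (a : K) : φ * MulAut.conj a * φ⁻¹ = MulAut.conj (φ a) := by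
  ext y
  simp [MulAut.mul_apply, MulAut.inv_def]

lemma eq_one_of_conj_eq_one (hcent : Subgroup.center K = ⊥) {k : K} (hk : MulAut.conj k = 1) : k = 1 := by
  have h7 : k ∈ Subgroup.center K := by
    rw [Subgroup.mem_center_iff]
    intro g
    have h8 := congrArg (fun φ : MulAut K => φ g) hk
    have h9 : k * g * k⁻¹ = g := h8
    exact (mul_inv_eq_iff_eq_mul.mp h9).symm
  rw [hcent] at h7
  exact h7

/-- The criterion in terms of a subgroup of the fixed points. -/
theorem bal_abstract [Finite K] (hcent : Subgroup.center K = ⊥) (x : MulAut K) {p : ℕ} [hp : Fact p.Prime]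
    (A : Subgroup (MulAut K)) (hinn : ∀ k : K, MulAut.conj k ∈ A) (E : Subgroup K) (hEL : E ≤ fixP x)
    (hEnorm : ∀ k ∈ fixP x, ∀ e ∈ E, k * e * k⁻¹ ∈ E)
    (hEs : ∀ M : Subgroup K, (∀ t ∈ E, ∀ a ∈ M, t * a * t⁻¹ ∈ M) → (∀ a ∈ M, a ∈ E → a = 1) ∨ E ≤ M)
    (hEp : p ∣ Nat.card (fixP x) → ∃ e ∈ E, orderOf e = p) (hEne : E ≠ ⊥)
    (hcl : ∀ β : MulAut K, (∀ e ∈ E, β e = e) → β ^ p = 1) :
    (∃ N : Subgroup ↥(A ⊓ Subgroup.centralizer {x}), N.Normal ∧ (Nat.card N).Coprime p ∧ N ≠ ⊥) ↔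
      Nat.Coprime p (Nat.card (fixP x)) := by
  classical
  set L := fixP x with hL
  have hmemC : ∀ k : L, MulAut.conj k.1 ∈ A ⊓ Subgroup.centralizer {x} := by
    intro k
    refine ⟨hinn _, ?_⟩
    change MulAut.conj k.1 ∈ Subgroup.centralizer {x}
    rw [Subgroup.mem_centralizer_singleton_iff]
    have h1 := conj_conj_aut x k.1
    have h2 : x k.1 = k.1 := k.2
    rw [h2] at h1
    calc MulAut.conj k.1 * x = (x * MulAut.conj k.1 * x⁻¹) * x := by rw [h1]
      _ = x * MulAut.conj k.1 := by group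
  let cL : L →* ↥(A ⊓ Subgroup.centralizer {x}) :=
    { toFun := fun k => ⟨MulAut.conj k.1, hmemC k⟩
      map_one' := by
        apply Subtype.ext
        exact map_one _
      map_mul' := fun a b => by
        apply Subtype.ext
        exact map_mul _ _ _ }
  have hcL : ∀ k : L, (cL k).1 = MulAut.conj k.1 := fun _ => rfl
  have hcLinj : Function.Injective cL := by
    rw [injective_iff_map_eq_one]
    intro k hk
    apply Subtype.ext
    apply eq_one_of_conj_eq_one hcent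
    have := congrArg Subtype.val hk
    exact this
  have hact : ∀ (a : ↥(A ⊓ Subgroup.centralizer {x})) (k : L), a.1 k.1 ∈ L := by
    intro a k
    have h1 : a.1 ∈ Subgroup.centralizer {x} := a.2.2
    rw [Subgroup.mem_centralizer_singleton_iff] at h1
    have h2 := congrArg (fun φ : MulAut K => φ k.1) h1
    have h3 : x k.1 = k.1 := k.2
    change a.1 (x k.1) = x (a.1 k.1) at h2
    rw [h3] at h2
    exact h2.symm
  have hconjL : ∀ (a : ↥(A ⊓ Subgroup.centralizer {x})) (k : L),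
      a * cL k * a⁻¹ = cL ⟨a.1 k.1, hact a k⟩ := by
    intro a k
    apply Subtype.ext
    exact conj_conj_aut a.1 k.1
  constructor
  · rintro ⟨N, hN, hcop, hne⟩
    rw [Nat.Prime.coprime_iff_not_dvd hp.out]
    intro hdvd
    apply hne
    -- the part of `N` in the fixed points
    let M : Subgroup K := (N.comap cL).map L.subtype
    have hMc : Nat.card M ∣ Nat.card N := by
      have h1 : Nat.card M = Nat.card (N.comap cL) := Subgroup.card_map_of_injective L.subtype_injective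
      rw [h1]
      apply Subgroup.card_dvd_of_injective (cL.subgroupComap N)
      intro a b hab
      apply Subtype.ext
      apply hcLinj
      exact congrArg Subtype.val hab
    have hMcop : (Nat.card M).Coprime p := Nat.Coprime.coprime_dvd_left hMc hcop
    have hcE : (∀ e ∈ M, orderOf e ∣ p → e = 1) := by
      intro e he hd
      have h1 : orderOf (⟨e, he⟩ : M) ∣ Nat.card M := orderOf_dvd_natCard _
      rw [Subgroup.orderOf_mk] at h1
      have h2 : orderOf e ∣ Nat.gcd (Nat.card M) p := Nat.dvd_gcd h1 hd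
      rw [hMcop, Nat.dvd_one, orderOf_eq_one_iff] at h2
      exact h2
    have hML : ∀ a ∈ M, a ∈ L := by
      rintro _ ⟨a, -, rfl⟩
      exact a.2
    have hMnorm : ∀ k ∈ L, ∀ a ∈ M, k * a * k⁻¹ ∈ M := by
      rintro k hk _ ⟨a, ha, rfl⟩
      refine ⟨⟨k, hk⟩ * a * ⟨k, hk⟩⁻¹, ?_, rfl⟩
      change cL _ ∈ N
      rw [map_mul, map_mul, map_inv]
      exact hN.conj_mem _ ha _
    obtain ⟨e, heE, heo⟩ := hEp hdvd
    have he1 : e ∉ M := by
      intro h
      have h1 := hcE e h (by rw [heo])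
      rw [h1, orderOf_one] at heo
      exact hp.out.one_lt.ne heo
    have hME : ∀ a ∈ M, a ∈ E → a = 1 := by
      rcases hEs M (fun t ht a ha => hMnorm t (hEL ht) a ha) with h | h
      · exact h
      · exact absurd (h heE) he1
    have hMb : M = ⊥ := by
      rw [eq_bot_iff]
      intro a ha
      have hfixE : ∀ t ∈ E, (MulAut.conj a) t = t := by
        intro t ht
        have h3 : a * t * a⁻¹ * t⁻¹ ∈ M := by
          have h4 : t * a⁻¹ * t⁻¹ ∈ M := hMnorm t (hEL ht) _ (inv_mem ha)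
          have h5 := mul_mem ha h4
          have e : a * t * a⁻¹ * t⁻¹ = a * (t * a⁻¹ * t⁻¹) := by group
          rw [e]
          exact h5
        have h4 : a * t * a⁻¹ * t⁻¹ ∈ E := mul_mem (hEnorm a (hML a ha) t ht) (inv_mem ht)
        have h5 := hME _ h3 h4
        rw [MulAut.conj_apply]
        exact mul_inv_eq_one.mp h5
      have h4 := hcl _ hfixE
      have h5 : MulAut.conj (a ^ p) = 1 := by
        rw [map_pow]
        exact h4
      have h6 : a ^ p = 1 := eq_one_of_conj_eq_one hcent h5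
      exact hcE a ha (orderOf_dvd_of_pow_eq_one h6)
    rw [eq_bot_iff]
    intro n hn
    have hfix : ∀ k : L, n.1 k.1 = k.1 := by
      intro k
      have h1 : cL ⟨n.1 k.1, hact n k⟩ * (cL k)⁻¹ ∈ N := by
        rw [← hconjL]
        have h2 : n * cL k * n⁻¹ * (cL k)⁻¹ = n * (cL k * n⁻¹ * (cL k)⁻¹) := by group
        rw [h2]
        exact mul_mem hn (hN.conj_mem _ (inv_mem hn) _)
      rw [← map_inv, ← map_mul] at h1
      have h3 : (⟨n.1 k.1, hact n k⟩ * k⁻¹ : L).1 ∈ M := ⟨_, h1, rfl⟩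
      rw [hMb] at h3
      have h4 : n.1 k.1 * k.1⁻¹ = 1 := h3
      exact mul_inv_eq_one.mp h4
    have h3 := hcl n.1 (fun e he => hfix ⟨e, hEL he⟩)
    have h4 : n ^ p = 1 := by
      apply Subtype.ext
      rw [Subgroup.coe_pow, h3]
      rfl
    have h5 : orderOf (⟨n, hn⟩ : N) ∣ Nat.card N := orderOf_dvd_natCard _
    rw [Subgroup.orderOf_mk] at h5
    have h6 : orderOf n ∣ Nat.gcd (Nat.card N) p := Nat.dvd_gcd h5 (orderOf_dvd_of_pow_eq_one h4)
    rw [hcop, Nat.dvd_one, orderOf_eq_one_iff] at h6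
    rw [h6]
    exact one_mem _
  · intro hcop
    refine ⟨cL.range, ?_, ?_, ?_⟩
    · constructor
      rintro _ ⟨k, rfl⟩ a
      exact ⟨⟨a.1 k.1, hact a k⟩, (hconjL a k).symm⟩
    · apply Nat.Coprime.coprime_dvd_left (Subgroup.card_range_dvd cL) hcop.symm
    · intro h0
      apply hEne
      rw [eq_bot_iff]
      intro e he
      have h1 : cL ⟨e, hEL he⟩ ∈ cL.range := ⟨_, rfl⟩
      rw [h0, Subgroup.mem_bot] at h1
      have h2 : (⟨e, hEL he⟩ : L) = 1 := hcLinj (by rw [h1, map_one])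
      exact congrArg Subtype.val h2

lemma core_ne_bot_iff' {G : Type*} [Group G] (p : ℕ) :
    Cfsg.pPrimeCore p G ≠ ⊥ ↔ ∃ N : Subgroup G, N.Normal ∧ (Nat.card N).Coprime p ∧ N ≠ ⊥ := by
  rw [Cfsg.pPrimeCore, Ne, sSup_eq_bot]
  push Not
  constructor
  · rintro ⟨N, ⟨h1, h2⟩, h3⟩
    exact ⟨N, h1, h2, h3⟩
  · rintro ⟨N, h1, h2, h3⟩
    exact ⟨N, ⟨h1, h2⟩, h3⟩

lemma exists_normal_congr' {G H : Type*} [Group G] [Group H] (e : G ≃* H) {p : ℕ}
    (h : ∃ N : Subgroup G, N.Normal ∧ (Nat.card N).Coprime p ∧ N ≠ ⊥) :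
    ∃ N : Subgroup H, N.Normal ∧ (Nat.card N).Coprime p ∧ N ≠ ⊥ := by
  obtain ⟨N, h1, h2, h3⟩ := h
  refine ⟨N.map e.toMonoidHom, h1.map _ e.surjective, ?_, ?_⟩
  · rw [Subgroup.card_map_of_injective (f := e.toMonoidHom) e.injective]
    exact h2
  · intro h0
    exact h3 ((Subgroup.map_eq_bot_iff_of_injective N (f := e.toMonoidHom) e.injective).mp h0)

/-- Conjugation transports the centraliser. -/
lemma centr_transport' {X : Type*} [Group X] (A : Subgroup X) (U x₀ : X) :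
    Nonempty (↥(A ⊓ Subgroup.centralizer {U * x₀ * U⁻¹}) ≃*
      ↥((A.map (MulAut.conj U⁻¹).toMonoidHom) ⊓ Subgroup.centralizer {x₀})) := by
  have h : (A ⊓ Subgroup.centralizer {U * x₀ * U⁻¹}).map (MulAut.conj U⁻¹).toMonoidHom =
      (A.map (MulAut.conj U⁻¹).toMonoidHom) ⊓ Subgroup.centralizer {x₀} := by
    ext y
    constructor
    · rintro ⟨z, ⟨hz1, hz2⟩, rfl⟩
      refine ⟨⟨z, hz1, rfl⟩, ?_⟩
      have hz2' : z ∈ Subgroup.centralizer {U * x₀ * U⁻¹} := hz2
      rw [Subgroup.mem_centralizer_singleton_iff] at hz2'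
      change (MulAut.conj U⁻¹) z ∈ Subgroup.centralizer {x₀}
      rw [Subgroup.mem_centralizer_singleton_iff, MulAut.conj_apply]
      calc U⁻¹ * z * U⁻¹⁻¹ * x₀ = U⁻¹ * (z * (U * x₀ * U⁻¹)) * U := by group
        _ = U⁻¹ * ((U * x₀ * U⁻¹) * z) * U := by rw [hz2']
        _ = _ := by group
    · rintro ⟨⟨z, hz1, rfl⟩, hy2⟩
      refine ⟨z, ⟨hz1, ?_⟩, rfl⟩
      have hy2' : (MulAut.conj U⁻¹) z ∈ Subgroup.centralizer {x₀} := hy2
      rw [Subgroup.mem_centralizer_singleton_iff, MulAut.conj_apply] at hy2'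
      change z ∈ Subgroup.centralizer {U * x₀ * U⁻¹}
      rw [Subgroup.mem_centralizer_singleton_iff]
      calc z * (U * x₀ * U⁻¹) = U * ((U⁻¹ * z * U⁻¹⁻¹) * x₀) * U⁻¹ := by group
        _ = U * (x₀ * (U⁻¹ * z * U⁻¹⁻¹)) * U⁻¹ := by rw [hy2']
        _ = _ := by group
  exact ⟨((MulAut.conj U⁻¹).subgroupMap _).trans (MulEquiv.subgroupCongr h)⟩

/-- Transport of the criterion along a conjugation in the automorphism group. -/
theorem bal_transfer {p : ℕ} (A : Subgroup (MulAut K)) (hinn : ∀ k : K, MulAut.conj k ∈ A) (U φ : MulAut K)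
    (h : ∀ A' : Subgroup (MulAut K), (∀ k : K, MulAut.conj k ∈ A') →
      ((∃ N : Subgroup ↥(A' ⊓ Subgroup.centralizer {φ}), N.Normal ∧ (Nat.card N).Coprime p ∧ N ≠ ⊥) ↔
        Nat.Coprime p (Nat.card (fixP φ)))) :
    Cfsg.pPrimeCore p ↥(A ⊓ Subgroup.centralizer {U * φ * U⁻¹}) ≠ ⊥ ↔
      Nat.Coprime p (Nat.card (fixP (U * φ * U⁻¹))) := by
  have hcard : Nat.card (fixP (U * φ * U⁻¹)) = Nat.card (fixP φ) := by
    symm
    apply Nat.card_congr
    refine ⟨fun k => ⟨U k.1, ?_⟩, fun k => ⟨U⁻¹ k.1, ?_⟩, fun k => ?_, fun k => ?_⟩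
    · have h4 : φ k.1 = k.1 := k.2
      change (U * φ * U⁻¹ : MulAut K) (U k.1) = U k.1
      change U (φ (U⁻¹ (U k.1))) = U k.1
      have h5 : U⁻¹ (U k.1) = k.1 := U.symm_apply_apply _
      rw [h5, h4]
    · have h4 : (U * φ * U⁻¹ : MulAut K) k.1 = k.1 := k.2
      change φ (U⁻¹ k.1) = U⁻¹ k.1
      have h5 : U (φ (U⁻¹ k.1)) = k.1 := h4
      conv_rhs => rw [← h5]
      exact (U.symm_apply_apply _).symm
    · apply Subtype.ext
      exact U.symm_apply_apply _
    · apply Subtype.ext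
      exact U.apply_symm_apply _
  rw [hcard]
  have hinn₀ : ∀ k : K, MulAut.conj k ∈ A.map (MulAut.conj U⁻¹).toMonoidHom := by
    intro k
    refine ⟨MulAut.conj (U k), hinn _, ?_⟩
    change U⁻¹ * MulAut.conj (U k) * U⁻¹⁻¹ = _
    rw [inv_inv, ← conj_conj_aut]
    group
  obtain ⟨e⟩ := centr_transport' A U φ
  rw [core_ne_bot_iff']
  constructor
  · intro h'
    exact (h _ hinn₀).mp (exists_normal_congr' e h')
  · intro h'
    exact exists_normal_congr' e.symm ((h _ hinn₀).mpr h')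

end Cfsg.Agent.Lib.AutPOm
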