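import Cfsg.Agent.Lib.AutPOm.Embed

/-!
# The `p'`-core criterion for a standard field automorphism of `PΩ`
-/

set_option autoImplicit false
set_option linter.unusedSectionVars false
set_option linter.unusedSimpArgs false
set_option linter.unusedVariables false

namespace Cfsg.Agent.Lib.AutPOm

open Module QuadraticMap Cfsg.Agent.Lib.OrthoBasic Cfsg.Agent.Lib.OrthoSiegel Cfsg.Agent.Lib.OrthoGen
  Cfsg.Agent.Lib.OrthoFinal Cfsg.Agent.Lib.PgoPsi Cfsg.Agent.Lib.PgoGroup Cfsg.Agent.Lib.GammaCount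
  Cfsg.Agent.Lib.Hilbert90 Cfsg.Agent.Lib.QuadFF Cfsg.Agent.Lib.QuadClass Cfsg.Agent.Lib.OrthoCount
  Cfsg.Agent.Lib.OrthoChar Cfsg.Agent.Lib.OrthoIndex Cfsg.Agent.Lib.OrthoSimple
open Cfsg Matrix

variable {ι : Type} [Fintype ι] [DecidableEq ι] {F₀ F : Type*} [Field F₀] [Field F]

section invol

variable {f : (ι → F) → F} {q : QuadraticForm F (ι → F)} [Fintype F]

/-- Elements of the Siegel group come from `Ω`. -/
lemma exists_omega_of_E (S : Sys f q) {t : OG q} (ht : t ∈ siegelE q) :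
    ∃ s : Omega F f, isoOG f q S.hf (s : isometryGroup F f) = t := by
  obtain ⟨fr⟩ := S.fr
  have hE := omega_eq_E S.hQ S.hgen fr
  obtain ⟨a, rfl⟩ := (isoOG f q S.hf).surjective t
  exact ⟨⟨a, (mem_omega_iff f q S.hf hE a).2 ht⟩, rfl⟩

/-- There is an involution in `PΩ`. -/
lemma exists_invol (S : Sys f q) : ∃ x : POmega F f, orderOf x = 2 := by
  obtain ⟨fr⟩ := S.fr
  have hQ₁ : q (fr.e₁ - fr.f₁) = -1 := by
    rw [Q_sub, fr.h₁.Qe, fr.h₁.Qf, fr.h₁.B]
    ring
  have hQ₂ : q (fr.e₂ - fr.f₂) = -1 := by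
    rw [Q_sub, fr.h₂.Qe, fr.h₂.Qf, fr.h₂.B]
    ring
  have hx₁ : q (fr.e₁ - fr.f₁) ≠ 0 := by
    rw [hQ₁]
    exact neg_ne_zero.2 one_ne_zero
  have hx₂ : q (fr.e₂ - fr.f₂) ≠ 0 := by
    rw [hQ₂]
    exact neg_ne_zero.2 one_ne_zero
  set r₁ := refl S.hQ hx₁ with hr₁
  set r₂ := refl S.hQ hx₂ with hr₂
  have hinv₂ : r₂⁻¹ = r₂ := inv_eq_of_mul_eq_one_left (refl_sq S.hQ hx₂)
  have ht : r₁ * r₂ ∈ siegelE q := by
    have := refl_mul_inv_mem S.hQ fr (refl_isRefl S.hQ hx₁) (refl_isRefl S.hQ hx₂) (d := 1) one_ne_zero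
      (by rw [hQ₁, hQ₂]; ring)
    rwa [← hr₁, ← hr₂, hinv₂] at this
  have h12 : QuadraticMap.polar q (fr.e₁ - fr.f₁) (fr.e₂ - fr.f₂) = 0 := by
    rw [polar_sub_left, polar_sub_right, polar_sub_right, fr.e₁e₂, fr.e₁f₂, fr.f₁e₂, fr.f₁f₂]
    ring
  have h21 : QuadraticMap.polar q (fr.e₂ - fr.f₂) (fr.e₁ - fr.f₁) = 0 := by
    rw [polar_comm]
    exact h12
  have hcomm : r₁ * r₂ = r₂ * r₁ := by
    apply OG_ext
    intro v
    rw [Subgroup.coe_mul, LinearEquiv.mul_apply, Subgroup.coe_mul, LinearEquiv.mul_apply, hr₁, hr₂, refl_apply, refl_apply,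
      refl_apply, refl_apply, reflLin_apply, reflLin_apply, reflLin_apply, reflLin_apply, polar_sub_left, polar_sub_left,
      polar_smul_l, polar_smul_l, h12, h21]
    simp only [mul_zero, sub_zero]
    module
  have ht1 : (r₁ * r₂) * (r₁ * r₂) = 1 := by
    calc (r₁ * r₂) * (r₁ * r₂) = r₁ * (r₂ * r₁) * r₂ := by group
      _ = r₁ * (r₁ * r₂) * r₂ := by rw [hcomm]
      _ = (r₁ * r₁) * (r₂ * r₂) := by group
      _ = 1 := by rw [hr₁, hr₂, refl_sq, refl_sq, one_mul]
  have hte : (((r₁ * r₂ : OG q)) : (ι → F) ≃ₗ[F] (ι → F)) fr.e₁ = fr.f₁ := by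
    have h1 : (r₂ : (ι → F) ≃ₗ[F] (ι → F)) fr.e₁ = fr.e₁ := by
      rw [hr₂, refl_apply]
      apply reflLin_of_orth
      rw [polar_sub_right, fr.e₁e₂, fr.e₁f₂]
      ring
    have h2 : (r₁ : (ι → F) ≃ₗ[F] (ι → F)) fr.e₁ = fr.f₁ := by
      rw [hr₁, refl_apply]
      apply reflLin_map
      · rw [fr.h₁.Qe, fr.h₁.Qf]
      · exact hx₁
    rw [Subgroup.coe_mul, LinearEquiv.mul_apply, h1, h2]
  obtain ⟨s, hs⟩ := exists_omega_of_E S ht
  refine ⟨(s : POmega F f), ?_⟩
  apply orderOf_eq_prime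
  · rw [pow_two, ← QuotientGroup.mk_mul]
    have : s * s = 1 := by
      apply Subtype.ext
      apply (isoOG f q S.hf).injective
      rw [Subgroup.coe_mul, map_mul, hs, ht1]
      simp
    rw [this]
    rfl
  · intro h1
    have h2 : s ∈ Subgroup.center (Omega F f) := (QuotientGroup.eq_one_iff s).1 h1
    obtain ⟨c, hc⟩ := (mem_center_omega_iff S s).1 h2
    have h3 : ((r₁ * r₂ : OG q) : (ι → F) ≃ₗ[F] (ι → F)) fr.e₁ = (c : F) • fr.e₁ := by
      rw [← hs, isoOG_apply, hc, sc_mulVec]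
    rw [hte] at h3
    have h4 := fr.h₁.B
    rw [h3, polar_smul_r, polar_self_zero fr.h₁.Qe, mul_zero] at h4
    exact zero_ne_one h4

lemma center_POmega_bot (S : Sys f q) (hK : IsSimpleGroup (POmega F f)) : Subgroup.center (POmega F f) = ⊥ := by
  rcases (inferInstance : (Subgroup.center (POmega F f)).Normal).eq_bot_or_eq_top with h | h
  · exact h
  · exfalso
    obtain ⟨fr⟩ := S.fr
    have h0 : commutator (POmega F f) = ⊥ := (commutator_eq_bot_iff_center_eq_top _).2 h
    obtain ⟨x, hx⟩ := exists_invol S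
    apply (by decide : (2 : ℕ) ≠ 1)
    rw [← hx, orderOf_eq_one_iff]
    obtain ⟨s, rfl⟩ := QuotientGroup.mk_surjective x
    have h1 : ((QuotientGroup.mk' _ : Omega F f →* POmega F f) s) ∈ (commutator (Omega F f)).map (QuotientGroup.mk' _) :=
      ⟨s, omega_perfect f S.hf S.hQ S.hgen fr s, rfl⟩
    rw [commutator_def, Subgroup.map_commutator, Subgroup.map_top_of_surjective _ (QuotientGroup.mk'_surjective _)] at h1
    rw [commutator_def] at h0
    rw [h0] at h1
    exact h1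

end invol

section scalars

variable {j : F₀ →+* F} {σ : F ≃+* F} {f₀ : (ι → F₀) → F₀} {f : (ι → F) → F}
  {q₀ : QuadraticForm F₀ (ι → F₀)} {q : QuadraticForm F (ι → F)} [Fintype F₀] [Fintype F]
  (B : BC j σ f₀ f q₀ q)

include B

/-- Vectors fixed by the rational Siegel transformations at a rational singular vector. -/
lemma eq_smul_of_fixed_rat {e₀ : ι → F₀} (he : q₀ e₀ = 0) (he0 : e₀ ≠ 0) {x : ι → F}
    (hx : ∀ y₀, QuadraticMap.polar q₀ e₀ y₀ = 0 → siegelLin q (mapV j e₀) (mapV j y₀) x = x) :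
    ∃ c : F, x = c • mapV j e₀ := by
  obtain ⟨fr₀⟩ := B.S₀.fr
  have hQ₀ := B.S₀.hQ
  have hQ := B.S.hQ
  have hC := B.comp
  obtain ⟨g₀, hg⟩ := exists_partner hQ₀ he he0
  obtain ⟨τ₀, hτ1, hτ2⟩ := exists_OG_map_hypPair hQ₀ fr₀.h₁ hg
  set y₀ := (τ₀ : (ι → F₀) ≃ₗ[F₀] (ι → F₀)) fr₀.e₂ with hy₀
  have hy₀e : QuadraticMap.polar q₀ e₀ y₀ = 0 := by
    rw [hy₀, ← hτ1, OG_polar]
    exact fr₀.e₁e₂
  have hy₀g : QuadraticMap.polar q₀ g₀ y₀ = 0 := by
    rw [hy₀, ← hτ2, OG_polar]
    exact fr₀.f₁e₂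
  have hy₀0 : y₀ ≠ 0 := by
    rw [hy₀]
    intro h
    exact fr₀.h₂.ne_zero_left (by simpa using h)
  set e := mapV j e₀ with he'
  set g := mapV j g₀ with hg'
  have hge : QuadraticMap.polar q g e = 1 := by
    rw [hC.polar, polar_comm, hg.B, map_one]
  have hkey : ∀ y, QuadraticMap.polar q₀ e₀ y = 0 →
      QuadraticMap.polar q x e • mapV j y = (QuadraticMap.polar q x (mapV j y) + q (mapV j y) * QuadraticMap.polar q x e) • e := by
    intro y hy
    have h1 := hx y hy
    rw [siegelLin_apply] at h1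
    have h2 : x + QuadraticMap.polar q x e • mapV j y - (QuadraticMap.polar q x (mapV j y) + q (mapV j y) * QuadraticMap.polar q x e) • e - x = 0 := by
      rw [h1, sub_self]
    have h3 : QuadraticMap.polar q x e • mapV j y - (QuadraticMap.polar q x (mapV j y) + q (mapV j y) * QuadraticMap.polar q x e) • e = 0 := by
      rw [← h2]
      abel
    exact sub_eq_zero.1 h3
  have hxe : QuadraticMap.polar q x e = 0 := by
    by_contra hne
    have h1 := hkey y₀ hy₀e
    have h2 : mapV j y₀ = ((QuadraticMap.polar q x e)⁻¹ * (QuadraticMap.polar q x (mapV j y₀) + q (mapV j y₀) * QuadraticMap.polar q x e)) • e := by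
      rw [mul_smul, ← h1, smul_smul, inv_mul_cancel₀ hne, one_smul]
    have h3 : QuadraticMap.polar q g (mapV j y₀) = (QuadraticMap.polar q x e)⁻¹ * (QuadraticMap.polar q x (mapV j y₀) + q (mapV j y₀) * QuadraticMap.polar q x e) := by
      have h5 := congrArg (QuadraticMap.polar q g) h2
      rw [polar_smul_r, hge, mul_one] at h5
      exact h5
    have h4 : QuadraticMap.polar q g (mapV j y₀) = 0 := by
      rw [hC.polar, hy₀g, map_zero]
    rw [h4] at h3
    rw [← h3, zero_smul] at h2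
    apply hy₀0
    apply mapV_injective j
    rw [h2]
    funext i
    simp [mapV]
  have hxy : ∀ y, QuadraticMap.polar q₀ e₀ y = 0 → QuadraticMap.polar q x (mapV j y) = 0 := by
    intro y hy
    have h1 := hkey y hy
    rw [hxe, zero_smul, mul_zero, add_zero] at h1
    rcases smul_eq_zero.1 h1.symm with h2 | h2
    · exact h2
    · exfalso
      apply he0
      apply mapV_injective j
      rw [← he', h2]
      funext i
      simp [mapV]
  refine ⟨QuadraticMap.polar q x g, ?_⟩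
  by_contra hne
  obtain ⟨v, hv⟩ := hQ _ (sub_ne_zero.2 hne)
  apply hv
  have hL := lin_eq_on_map j (polarBilin q (x - QuadraticMap.polar q x g • e)) 0 (fun v₀ => by
    change QuadraticMap.polar q (x - QuadraticMap.polar q x g • e) (mapV j v₀) = 0
    have h1 : QuadraticMap.polar q₀ e₀ (v₀ - QuadraticMap.polar q₀ e₀ v₀ • g₀) = 0 := by
      rw [polar_sub_right, polar_smul_r, hg.B]
      ring
    have h2 := hxy _ h1
    have h3 : mapV j (v₀ - QuadraticMap.polar q₀ e₀ v₀ • g₀) = mapV j v₀ - j (QuadraticMap.polar q₀ e₀ v₀) • g := by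
      funext i
      simp [mapV, hg']
    rw [h3, polar_sub_right, polar_smul_r] at h2
    rw [polar_sub_left, polar_smul_l, he', hC.polar]
    linear_combination h2)
  have := congrFun (congrArg DFunLike.coe hL) v
  exact this

/-- Similarities fixing all rational singular points are scalars. -/
lemma scalar_of_points_rat (z : (ι → F) ≃ₗ[F] (ι → F)) {c : F} (hc : ∀ v, q (z v) = c * q v)
    (hz : ∀ e₀ : ι → F₀, q₀ e₀ = 0 → e₀ ≠ 0 → ∃ l : F, z (mapV j e₀) = l • mapV j e₀) :
    ∃ l : F, ∀ v, z v = l • v := by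
  obtain ⟨fr⟩ := B.S₀.fr
  have hC := B.comp
  have he := fr.h₁.Qe
  have hf := fr.h₁.Qf
  have hef := fr.h₁.B
  have hfe : QuadraticMap.polar q₀ fr.f₁ fr.e₁ = 1 := by
    rw [polar_comm]
    exact hef
  have hf0 : fr.f₁ ≠ 0 := by
    rintro h
    rw [h, polar_zero_right] at hef
    exact zero_ne_one hef
  have hE0 : mapV j fr.e₁ ≠ 0 := by
    intro h
    apply fr.h₁.ne_zero_left
    apply mapV_injective j
    rw [h]
    funext i
    simp [mapV]
  have hP0 : mapV j fr.f₁ ≠ 0 := by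
    intro h
    apply hf0
    apply mapV_injective j
    rw [h]
    funext i
    simp [mapV]
  obtain ⟨l, hl⟩ := hz _ he fr.h₁.ne_zero_left
  obtain ⟨m, hm⟩ := hz _ hf hf0
  have hpol := Cfsg.Agent.Lib.PgoPsi.polar_sim (Q := q) (z : (ι → F) →ₗ[F] (ι → F)) hc
  have hl0 : l ≠ 0 := by
    rintro rfl
    rw [zero_smul] at hl
    exact hE0 (z.map_eq_zero_iff.1 hl)
  have hm0 : m ≠ 0 := by
    rintro rfl
    rw [zero_smul] at hm
    exact hP0 (z.map_eq_zero_iff.1 hm)
  have hEF : QuadraticMap.polar q (mapV j fr.e₁) (mapV j fr.f₁) = 1 := by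
    rw [hC.polar, hef, map_one]
  have hFE : QuadraticMap.polar q (mapV j fr.f₁) (mapV j fr.e₁) = 1 := by
    rw [polar_comm]
    exact hEF
  have hlm : l * m = c := by
    have := hpol (mapV j fr.e₁) (mapV j fr.f₁)
    simp only [LinearEquiv.coe_coe] at this
    rw [hl, hm, polar_smul_l, polar_smul_r, hEF] at this
    linear_combination this
  have hee := polar_self_zero he
  have hff := polar_self_zero hf
  have hU : ∀ u, QuadraticMap.polar q₀ u fr.e₁ = 0 → QuadraticMap.polar q₀ u fr.f₁ = 0 →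
      z (mapV j u) = m • mapV j u + (j (q₀ u) * (l - m)) • mapV j fr.e₁ := by
    intro u h1 h2
    set x := fr.f₁ + u - q₀ u • fr.e₁ with hx
    have hQx : q₀ x = 0 := by
      rw [hx, Q_sub, Q_add, Q_smul, he, polar_smul_r, polar_add_left, hf, hfe, h1]
      rw [polar_comm q₀ fr.f₁ u, h2]
      ring
    have hx0 : x ≠ 0 := by
      intro h
      have : QuadraticMap.polar q₀ x fr.e₁ = 0 := by rw [h, polar_zero_left]
      rw [hx, polar_sub_left, polar_add_left, hfe, h1, polar_smul_l, hee] at this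
      simp at this
    obtain ⟨k, hk⟩ := hz x hQx hx0
    have hcl : k * l = c := by
      have h3 := hpol (mapV j x) (mapV j fr.e₁)
      simp only [LinearEquiv.coe_coe] at h3
      rw [hk, hl, polar_smul_l, polar_smul_r] at h3
      have h4 : QuadraticMap.polar q (mapV j x) (mapV j fr.e₁) = 1 := by
        rw [hC.polar, hx, polar_sub_left, polar_add_left, hfe, h1, polar_smul_l, hee]
        simp
      rw [h4] at h3
      linear_combination h3
    have hcm : k = m := by
      apply mul_left_cancel₀ hl0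
      rw [hlm, mul_comm, hcl]
    have h5 : mapV j u = mapV j x - mapV j fr.f₁ + j (q₀ u) • mapV j fr.e₁ := by
      rw [hx]
      funext i
      simp [mapV]
      ring
    have h6 : z (mapV j u) = k • mapV j x - m • mapV j fr.f₁ + j (q₀ u) • (l • mapV j fr.e₁) := by
      conv_lhs => rw [h5]
      rw [map_add, map_sub, map_smul, hk, hm, hl]
    rw [h6, hcm, h5]
    module
  obtain ⟨u, hu1, hu2, _, _, hu5⟩ := FrameAux.exists_z fr
  have hlm' : l = m := by
    have h1 := hU u hu1 hu2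
    have h2 := hpol (mapV j u) (mapV j fr.f₁)
    simp only [LinearEquiv.coe_coe] at h2
    have h7 : QuadraticMap.polar q (mapV j u) (mapV j fr.f₁) = 0 := by
      rw [hC.polar, hu2, map_zero]
    rw [h1, hm, polar_smul_r, polar_add_left, polar_smul_l, polar_smul_l, h7, hEF] at h2
    have h3 : j (q₀ u) * (l - m) * m = 0 := by linear_combination h2
    have h4 : l - m = 0 := by
      rcases mul_eq_zero.1 h3 with h5 | h5
      · rcases mul_eq_zero.1 h5 with h6 | h6
        · exact absurd h6 ((map_ne_zero j).2 hu5)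
        · exact h6
      · exact absurd h5 hm0
    exact sub_eq_zero.1 h4
  refine ⟨l, ?_⟩
  have hL := lin_eq_on_map j (z : (ι → F) →ₗ[F] (ι → F)) (l • LinearMap.id) (fun v₀ => by
    change z (mapV j v₀) = l • mapV j v₀
    set a := QuadraticMap.polar q₀ v₀ fr.f₁ with ha
    set b := QuadraticMap.polar q₀ v₀ fr.e₁ with hb
    set u := v₀ - a • fr.e₁ - b • fr.f₁ with hu
    have h1 : QuadraticMap.polar q₀ u fr.e₁ = 0 := by
      rw [hu, polar_sub_left, polar_sub_left, polar_smul_l, polar_smul_l, hee, hfe]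
      ring
    have h2 : QuadraticMap.polar q₀ u fr.f₁ = 0 := by
      rw [hu, polar_sub_left, polar_sub_left, polar_smul_l, polar_smul_l, hef, hff]
      ring
    have h3 : mapV j v₀ = mapV j u + j a • mapV j fr.e₁ + j b • mapV j fr.f₁ := by
      rw [hu]
      funext i
      simp [mapV]
      ring
    rw [h3, map_add, map_add, hU u h1 h2, map_smul, map_smul, hl, hm, ← hlm', sub_self, mul_zero,
      zero_smul, add_zero]
    module)
  intro v
  exact congrFun (congrArg DFunLike.coe hL) v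

end scalars

/-! ### Automorphisms centralising the rational part -/

section cent

lemma eq_of_central_twist {A X : Type*} [Group A] [Group X] (hperf : ∀ s : A, s ∈ commutator A) (θ : MulAut X) (w : A →* X)
    (hcen : ∀ a, θ (w a) * (w a)⁻¹ ∈ Subgroup.center X) (a : A) : θ (w a) = w a := by
  let c : A →* Subgroup.center X :=
    { toFun := fun x => ⟨θ (w x) * (w x)⁻¹, hcen x⟩
      map_one' := by ext; simp
      map_mul' := fun x y => by
        apply Subtype.ext
        have hy := Subgroup.mem_center_iff.1 (hcen y) ((w x)⁻¹)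
        simp only [Subgroup.coe_mul, map_mul, _root_.mul_inv_rev]
        calc θ (w x) * θ (w y) * ((w y)⁻¹ * (w x)⁻¹) = θ (w x) * (θ (w y) * (w y)⁻¹ * (w x)⁻¹) := by group
          _ = θ (w x) * ((w x)⁻¹ * (θ (w y) * (w y)⁻¹)) := by rw [hy]
          _ = _ := by group }
  have h4 : commutator A ≤ c.ker := by
    rw [commutator_def, Subgroup.commutator_le]
    intro a _ b _
    rw [MonoidHom.mem_ker, map_commutatorElement, commutatorElement_eq_one_iff_mul_comm]
    apply Subtype.ext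
    exact (Subgroup.mem_center_iff.1 (c b).2 (c a).1)
  have h6 : c a = 1 := h4 (hperf a)
  have h7 : θ (w a) * (w a)⁻¹ = 1 := congrArg Subtype.val h6
  exact mul_inv_eq_one.1 h7

variable {j : F₀ →+* F} {σ : F ≃+* F} {f₀ : (ι → F₀) → F₀} {f : (ι → F) → F}
  {q₀ : QuadraticForm F₀ (ι → F₀)} {q : QuadraticForm F (ι → F)} [Fintype F₀] [Fintype F]
  (B : BC j σ f₀ f q₀ q)

include B

lemma act_fix_rat {G : GL ι F} {τ : F ≃+* F} (h : IsSemisimilarityPair f G τ) (hβ : ∀ x, gs h (fO B x) = fO B x)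
    (s₀ : Omega F₀ f₀) : act G τ (glJ j ((s₀ : isometryGroup F₀ f₀) : GL ι F₀)) = glJ j ((s₀ : isometryGroup F₀ f₀) : GL ι F₀) := by
  obtain ⟨fr₀⟩ := B.S₀.fr
  let θ : MulAut (Omega F f) := restrictAut (commutator (isometryGroup F f)) (resAut f (mkG f h))
  have hθ : ∀ s : Omega F f, (((θ s : Omega F f) : isometryGroup F f) : GL ι F) = act G τ ((s : isometryGroup F f) : GL ι F) :=
    fun s => rfl
  have hgs : ∀ s : Omega F f, gs h (s : POmega F f) = (θ s : POmega F f) := fun s => rfl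
  have hperf := omega_perfect f₀ B.S₀.hf B.S₀.hQ B.S₀.hgen fr₀
  have key := eq_of_central_twist hperf θ (omegaMap B) (fun a => by
    have h1 := hβ (a : POmega F₀ f₀)
    rw [fO_mk, hgs] at h1
    have h2 := QuotientGroup.eq.1 h1.symm
    have e : θ (omegaMap B a) * (omegaMap B a)⁻¹ = omegaMap B a * ((omegaMap B a)⁻¹ * θ (omegaMap B a)) * (omegaMap B a)⁻¹ := by
      group
    rw [e]
    exact (inferInstance : (Subgroup.center (Omega F f)).Normal).conj_mem _ h2 _) s₀
  have h3 := congrArg (fun s : Omega F f => ((s : isometryGroup F f) : GL ι F)) key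
  exact h3

/-- The semilinear map fixes the rational singular points. -/
lemma phi_point_rat {G : GL ι F} {τ : F ≃+* F} (h : IsSemisimilarityPair f G τ) (hβ : ∀ x, gs h (fO B x) = fO B x)
    {e₀ : ι → F₀} (he : q₀ e₀ = 0) (he0 : e₀ ≠ 0) : ∃ c : F, phi G τ (mapV j e₀) = c • mapV j e₀ := by
  apply eq_smul_of_fixed_rat B he he0
  intro y₀ hy₀
  obtain ⟨s₀, hs₀⟩ := exists_omega_of_E B.S₀ (siegel_mem B.S₀.hQ he hy₀)
  have h1 := act_mulVec_phi G τ (glJ j ((s₀ : isometryGroup F₀ f₀) : GL ι F₀)) (mapV j e₀)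
  rw [act_fix_rat B h hβ s₀] at h1
  have hact : ∀ v : ι → F₀, ((s₀ : isometryGroup F₀ f₀) : GL ι F₀).1 *ᵥ v = siegelLin q₀ e₀ y₀ v := by
    intro v
    have := congrArg (fun t : OG q₀ => (t : (ι → F₀) ≃ₗ[F₀] (ι → F₀)) v) hs₀
    simpa only [isoOG_apply, siegel_apply] using this
  have hL := lin_eq_on_map j (Matrix.mulVecLin (glJ j ((s₀ : isometryGroup F₀ f₀) : GL ι F₀)).1)
    (siegelLin q (mapV j e₀) (mapV j y₀)) (fun v => by
      change (glJ j ((s₀ : isometryGroup F₀ f₀) : GL ι F₀)).1 *ᵥ mapV j v = _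
      rw [← mapV_glJ, hact, siegelLin_apply, siegelLin_apply, B.comp.polar, B.comp.polar, B.comp.map]
      funext i
      simp [mapV])
  have hL' : ∀ x, (glJ j ((s₀ : isometryGroup F₀ f₀) : GL ι F₀)).1 *ᵥ x = siegelLin q (mapV j e₀) (mapV j y₀) x :=
    fun x => congrFun (congrArg DFunLike.coe hL) x
  rw [hL', hL', siegelLin_self (by rw [B.comp.map, he, map_zero]) (by rw [B.comp.polar, hy₀, map_zero])] at h1
  exact h1

lemma tau_fix_rat {G : GL ι F} {τ : F ≃+* F} (h : IsSemisimilarityPair f G τ) (hβ : ∀ x, gs h (fO B x) = fO B x)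
    (t : F₀) : τ (j t) = j t := by
  obtain ⟨fr⟩ := B.S₀.fr
  have hC := B.comp
  have he₁ := fr.h₁.Qe
  have he₂ := fr.h₂.Qe
  have he₁0 := fr.h₁.ne_zero_left
  have he₂0 := fr.h₂.ne_zero_left
  obtain ⟨c₁, h1⟩ := phi_point_rat B h hβ he₁ he₁0
  obtain ⟨c₂, h3⟩ := phi_point_rat B h hβ he₂ he₂0
  have hE0 : mapV j fr.e₁ ≠ 0 := by
    intro h
    apply he₁0
    apply mapV_injective j
    rw [h]
    funext i
    simp [mapV]
  have hc₁ : c₁ ≠ 0 := by
    rintro rfl
    rw [zero_smul] at h1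
    apply hE0
    apply phi_injective G τ
    rw [h1]
    have := phi_smul G τ 0 (0 : ι → F)
    simpa using this.symm
  have hp₁₁ : QuadraticMap.polar q (mapV j fr.e₁) (mapV j fr.f₁) = 1 := by
    rw [hC.polar, fr.h₁.B, map_one]
  have hp₂₂ : QuadraticMap.polar q (mapV j fr.e₂) (mapV j fr.f₂) = 1 := by
    rw [hC.polar, fr.h₂.B, map_one]
  have hp₁₂ : QuadraticMap.polar q (mapV j fr.e₁) (mapV j fr.f₂) = 0 := by
    rw [hC.polar, fr.e₁f₂, map_zero]
  have hp₂₁ : QuadraticMap.polar q (mapV j fr.e₂) (mapV j fr.f₁) = 0 := by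
    rw [hC.polar, polar_comm, fr.f₁e₂, map_zero]
  have key : ∀ t : F₀, τ (j t) * c₂ = c₁ * j t := by
    intro t
    have hQt : q₀ (fr.e₁ + t • fr.e₂) = 0 := by
      rw [Q_add, Q_smul, he₁, he₂, polar_smul_r, fr.e₁e₂]
      ring
    have hne : fr.e₁ + t • fr.e₂ ≠ 0 := by
      intro h0
      have := congrArg (fun v => QuadraticMap.polar q₀ v fr.f₁) h0
      simp only [polar_add_left, polar_smul_l, polar_zero_left, fr.h₁.B] at this
      rw [polar_comm q₀ fr.e₂ fr.f₁, fr.f₁e₂] at this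
      simp at this
    obtain ⟨c, h4⟩ := phi_point_rat B h hβ hQt hne
    have e : mapV j (fr.e₁ + t • fr.e₂) = mapV j fr.e₁ + j t • mapV j fr.e₂ := by
      funext i
      simp [mapV]
    rw [e, phi_add, phi_smul, h1, h3, smul_smul] at h4
    have e1 := congrArg (fun v => QuadraticMap.polar q v (mapV j fr.f₁)) h4
    have e2 := congrArg (fun v => QuadraticMap.polar q v (mapV j fr.f₂)) h4
    simp only [polar_add_left, polar_smul_l, polar_smul_r, smul_add, hp₁₁, hp₂₂, hp₁₂, hp₂₁] at e1 e2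
    simp only [mul_zero, mul_one, add_zero, zero_add] at e1 e2
    rw [e1]
    exact e2
  have h12 : c₂ = c₁ := by
    have := key 1
    simpa using this
  have := key t
  rw [h12, mul_comm] at this
  exact mul_left_cancel₀ hc₁ this

/-- Automorphisms centralising the rational part are field automorphisms. -/
theorem cent_lemma_O (hI : FInv f) (hΓ : gammaPOmega F f = ⊤) (β : MulAut (POmega F f)) (hβ : ∀ x, β (fO B x) = fO B x) :
    ∃ τ : F ≃+* F, β = fa hI τ ∧ ∀ t, τ (j t) = j t := by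
  have hne := nonempty_of_sys B.S
  obtain ⟨G, τ, h, rfl⟩ := gs_range β (by rw [hΓ]; trivial)
  refine ⟨τ, ?_, tau_fix_rat B h hβ⟩
  have hfixv : ∀ v : ι → F₀, sv τ (mapV j v) = mapV j v := by
    intro v
    funext i
    exact tau_fix_rat B h hβ _
  obtain ⟨c, hc⟩ := mem_CO_of_semisim' hI h
  have hzsim : ∀ v, q (glEquiv G v) = (c : F) * q v := by
    intro v
    rw [← B.S.hf, ← B.S.hf]
    exact hc v
  obtain ⟨l, hl⟩ := scalar_of_points_rat B (glEquiv G) hzsim (fun e₀ he he0 => by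
    obtain ⟨k, hk⟩ := phi_point_rat B h hβ he he0
    refine ⟨k, ?_⟩
    rw [phi, hfixv] at hk
    exact hk)
  have hl0 : l ≠ 0 := by
    rintro rfl
    obtain ⟨fr⟩ := B.S.fr
    have h1 := hl fr.e₁
    rw [zero_smul] at h1
    exact fr.h₁.ne_zero_left ((glEquiv G).map_eq_zero_iff.1 h1)
  have hG : G = sc (Units.mk0 l hl0) := by
    apply Units.ext
    ext s t
    have := congrFun (hl (Pi.single t 1)) s
    have e : (glEquiv G) (Pi.single t 1) = (G : Matrix ι ι F) *ᵥ Pi.single t 1 := rfl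
    rw [e] at this
    simp only [Matrix.mulVec_single, MulOpposite.op_one, one_smul, Matrix.col_apply, Pi.smul_apply, smul_eq_mul] at this
    rw [this, sc_coe]
    simp [Matrix.scalar_apply, Matrix.diagonal_apply, Pi.single_apply]
  rw [gs_eq_dl_fa hI h]
  have h1 : dl ⟨G, mem_CO_of_semisim' hI h⟩ = 1 := (dl_eq_one_iff B.S _).2 ⟨_, hG⟩
  rw [h1, one_mul]

end cent

/-! ### Elements of order `p` -/

section order

variable {j : F₀ →+* F} {σ : F ≃+* F} {f₀ : (ι → F₀) → F₀} {f : (ι → F) → F}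
  {q₀ : QuadraticForm F₀ (ι → F₀)} {q : QuadraticForm F (ι → F)} [Fintype F₀] [Fintype F]
  (B : BC j σ f₀ f q₀ q)

lemma glMap_mem_iso (hI : FInv f) (τ : F ≃+* F) {s : GL ι F} (hs : s ∈ isometryGroup F f) : glMap τ s ∈ isometryGroup F f := by
  rw [mem_iso_iff]
  intro v
  have h1 := hI τ (((s : GL ι F) : Matrix ι ι F) *ᵥ sv τ.symm v)
  rw [sv_mulVec, sv_symm', (mem_iso_iff f _).1 hs, ← hI τ, sv_symm'] at h1
  exact h1

include B

lemma exists_order_p (hI : FInv f) {r : ℕ} (hr : 0 < r) (hord : orderOf σ = r) {p : ℕ} [hp : Fact p.Prime]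
    (hdvd : p ∣ Nat.card (fixP (fa hI σ))) : ∃ e ∈ (fO B).range, orderOf e = p := by
  classical
  have hne := nonempty_of_sys B.S
  by_cases hp2 : p = 2
  · subst hp2
    obtain ⟨x, hx⟩ := exists_invol B.S₀
    refine ⟨fO B x, ⟨x, rfl⟩, ?_⟩
    rw [orderOf_injective _ (fO_injective B)]
    exact hx
  · haveI : Fintype (fixP (fa hI σ)) := Fintype.ofFinite _
    rw [Nat.card_eq_fintype_card] at hdvd
    obtain ⟨k, hk⟩ := exists_prime_orderOf_dvd_card p hdvd
    have hk1 : orderOf (k : POmega F f) = p := by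
      rw [Subgroup.orderOf_coe, hk]
    obtain ⟨s, hs⟩ := QuotientGroup.mk_surjective (k : POmega F f)
    have hcomm := fix_commute hI (σ := σ) k.2 s hs
    obtain ⟨c, hc⟩ := (commute_dl_fa_iff hI B.S (omCO s) σ).1 hcomm
    rw [omCO_coe] at hc
    set s₁ : GL ι F := ((s : isometryGroup F f) : GL ι F) with hs₁
    have hs₁iso : s₁ ∈ isometryGroup F f := (s : isometryGroup F f).2
    have hcc : c * c = 1 := by
      apply sq_of_scalar_iso B.S
      have e1 : (sc c : GL ι F) = glMap σ s₁ * s₁⁻¹ := by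
        rw [hc]
        group
      rw [e1]
      exact (isometryGroup F f).mul_mem (glMap_mem_iso hI σ hs₁iso) ((isometryGroup F f).inv_mem hs₁iso)
    have hfix : glMap σ (s₁ * s₁) = s₁ * s₁ := by
      rw [map_mul, hc]
      calc sc c * s₁ * (sc c * s₁) = sc c * (s₁ * sc c) * s₁ := by group
        _ = sc c * (sc c * s₁) * s₁ := by rw [sc_comm c s₁]
        _ = sc (c * c) * (s₁ * s₁) := by rw [sc_mul]; group
        _ = s₁ * s₁ := by rw [hcc, sc_one, one_mul]
    obtain ⟨u₀, hu₀⟩ := exists_glJ_of_fixed B.ran hfix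
    have hu₀iso : u₀ ∈ isometryGroup F₀ f₀ := by
      rw [mem_iso_iff]
      intro v
      rw [B.S₀.hf, B.S₀.hf]
      apply isom_of_glJ B.comp
      intro w
      rw [hu₀, ← B.S.hf, ← B.S.hf]
      exact (mem_iso_iff f _).1 ((isometryGroup F f).mul_mem hs₁iso hs₁iso) w
    obtain ⟨fr₀⟩ := B.S₀.fr
    have hsq := (sq_mem_E B.S₀.hQ B.S₀.hgen fr₀ (isoOG f₀ q₀ B.S₀.hf ⟨u₀, hu₀iso⟩)).1
    rw [← map_mul] at hsq
    have hE₀ := omega_eq_E B.S₀.hQ B.S₀.hgen fr₀
    have hmem := (mem_omega_iff f₀ q₀ B.S₀.hf hE₀ _).2 hsq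
    refine ⟨(k : POmega F f) ^ 4, ⟨((⟨_, hmem⟩ : Omega F₀ f₀) : POmega F₀ f₀), ?_⟩, ?_⟩
    · rw [fO_mk, ← hs, ← QuotientGroup.mk_pow]
      congr 1
      apply Subtype.ext
      apply Subtype.ext
      rw [omegaMap_coe]
      change glJ j (u₀ * u₀) = s₁ ^ 4
      rw [map_mul, hu₀]
      simp only [pow_succ, pow_zero, one_mul, mul_assoc]
    · rw [Nat.Coprime.orderOf_pow, hk1]
      rw [hk1]
      exact Nat.Coprime.pow_right 2 ((Nat.coprime_primes hp.out Nat.prime_two).2 hp2)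

end order

/-! ### The criterion -/

section main

lemma pow_eq_one_of_fix' [Fintype F] (σ τ : F ≃+* F) {p : ℕ} (hord : orderOf σ = p)
    (h : ∀ a ∈ fixedF σ, τ a = a) : τ ^ p = 1 := by
  classical
  have hcard : Nat.card F = Nat.card (fixedF σ) ^ p := card_eq_card_fixedF_pow σ hord
  haveI : Fintype (fixedF σ) := Fintype.ofFinite _
  have h1 : Module.finrank (fixedF σ) F = p := by
    have h2 := Module.card_eq_pow_finrank (K := fixedF σ) (V := F)
    rw [Nat.card_eq_fintype_card, Nat.card_eq_fintype_card] at hcard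
    rw [hcard] at h2
    have h3 : 1 < Fintype.card (fixedF σ) := Fintype.one_lt_card
    exact (Nat.pow_right_injective h3 h2).symm
  have h2 : Nat.card (F ≃ₐ[fixedF σ] F) = p := by
    rw [← h1]
    exact IsGalois.card_aut_eq_finrank _ _
  let τ' : F ≃ₐ[fixedF σ] F := AlgEquiv.ofRingEquiv (f := τ) (fun a => h a.1 a.2)
  have h3 : τ' ^ p = 1 := by
    rw [← h2]
    exact pow_card_eq_one'
  have h4 : ∀ (n : ℕ) (x : F), (τ' ^ n) x = (τ ^ n) x := by
    intro n
    induction n with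
    | zero =>
      intro x
      rfl
    | succ n ih =>
      intro x
      rw [pow_succ, pow_succ]
      change (τ' ^ n) (τ' x) = (τ ^ n) (τ x)
      rw [ih]
      rfl
  ext x
  rw [← h4, h3]
  rfl

variable {j : F₀ →+* F} {σ : F ≃+* F} {f₀ : (ι → F₀) → F₀} {f : (ι → F) → F}
  {q₀ : QuadraticForm F₀ (ι → F₀)} {q : QuadraticForm F (ι → F)} [Fintype F₀] [Fintype F]
  (B : BC j σ f₀ f q₀ q)

include B

/-- The criterion for a standard field automorphism of prime order. -/
theorem bal_std_O (hI : FInv f) (hΓ : gammaPOmega F f = ⊤) (hs₀ : IsSimpleGroup (POmega F₀ f₀))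
    (hK : IsSimpleGroup (POmega F f)) {p : ℕ} [hp : Fact p.Prime] (hord : orderOf σ = p)
    (A : Subgroup (MulAut (POmega F f))) (hinn : ∀ k : POmega F f, MulAut.conj k ∈ A) :
    (∃ N : Subgroup ↥(A ⊓ Subgroup.centralizer {(fa hI σ : MulAut (POmega F f))}), N.Normal ∧ (Nat.card N).Coprime p ∧ N ≠ ⊥) ↔
      Nat.Coprime p (Nat.card (fixP (fa hI σ))) := by
  apply bal_abstract (center_POmega_bot B.S hK) _ A hinn (fO B).range
  · rintro _ ⟨x, rfl⟩
    exact fa_fO B hI x
  · intro k hk e he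
    exact fix_normalises B hI hp.out.pos hord hk he
  · intro M hM
    have hN : (M.comap (fO B)).Normal := by
      constructor
      intro n hn g
      rw [Subgroup.mem_comap] at hn ⊢
      rw [map_mul, map_mul, map_inv]
      exact hM _ ⟨g, rfl⟩ _ hn
    rcases hN.eq_bot_or_eq_top with h | h
    · left
      rintro a ha ⟨x, rfl⟩
      have : x ∈ M.comap (fO B) := ha
      rw [h] at this
      rw [Subgroup.mem_bot.1 this, map_one]
    · right
      rintro _ ⟨x, rfl⟩
      have : x ∈ M.comap (fO B) := by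
        rw [h]
        trivial
      exact this
  · intro h
    exact exists_order_p B hI hp.out.pos hord h
  · intro h0
    obtain ⟨x, hx⟩ := exists_invol B.S₀
    have h1 : fO B x ∈ (fO B).range := ⟨x, rfl⟩
    rw [h0, Subgroup.mem_bot] at h1
    have h2 : x = 1 := fO_injective B (by rw [h1, map_one])
    rw [h2, orderOf_one] at hx
    exact absurd hx (by decide)
  · intro β hβ
    obtain ⟨τ, rfl, hτ⟩ := cent_lemma_O B hI hΓ β (fun x => hβ _ ⟨x, rfl⟩)
    have h3 := pow_eq_one_of_fix' σ τ hord (fun a ha => by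
      obtain ⟨x, rfl⟩ := B.ran a ha
      exact hτ x)
    rw [fa_pow, h3, fa_one]

end main

end Cfsg.Agent.Lib.AutPOm
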