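import Cfsg.Agent.Lib.AutPOm.Odd
import Cfsg.Agent.Lib.OrthoCardFinal

/-!
# Extension of scalars for isometries and similarities
-/

set_option autoImplicit false
set_option linter.unusedSectionVars false
set_option linter.unusedSimpArgs false
set_option linter.unusedVariables false

namespace Cfsg.Agent.Lib.AutPOm

open Module QuadraticMap Cfsg.Agent.Lib.OrthoBasic Cfsg.Agent.Lib.OrthoSiegel Cfsg.Agent.Lib.OrthoGen
  Cfsg.Agent.Lib.OrthoFinal Cfsg.Agent.Lib.PgoPsi Cfsg.Agent.Lib.PgoGroup Cfsg.Agent.Lib.GammaCount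
  Cfsg.Agent.Lib.Hilbert90 Cfsg.Agent.Lib.QuadFF Cfsg.Agent.Lib.QuadClass Cfsg.Agent.Lib.OrthoCount
  Cfsg.Agent.Lib.OrthoChar Cfsg.Agent.Lib.OrthoIndex
open Cfsg Matrix

variable {ι : Type} [Fintype ι] [DecidableEq ι] {F₀ F : Type*} [Field F₀] [Field F] (j : F₀ →+* F)

/-- Coordinatewise extension of scalars. -/
def mapV (v : ι → F₀) : ι → F := fun i => j (v i)

lemma mapV_add (v w : ι → F₀) : mapV j (v + w) = mapV j v + mapV j w := by
  funext i
  simp [mapV]

lemma mapV_smul (c : F₀) (v : ι → F₀) : mapV j (c • v) = j c • mapV j v := by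
  funext i
  simp [mapV]

lemma mapV_injective : Function.Injective (mapV (ι := ι) j) := by
  intro v w h
  funext i
  exact j.injective (congrFun h i)

lemma mapV_single (i : ι) : mapV j (Pi.single i (1 : F₀)) = Pi.single i (1 : F) := by
  funext k
  by_cases h : k = i
  · subst h
    simp [mapV]
  · simp [mapV, Pi.single_apply, h]

lemma mapV_mulVec (M : Matrix ι ι F₀) (v : ι → F₀) : mapV j (M *ᵥ v) = (M.map j) *ᵥ mapV j v := by
  funext i
  exact RingHom.map_mulVec j M v i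

/-- Linear maps agreeing on rational vectors agree. -/
lemma lin_eq_on_map {W : Type*} [AddCommGroup W] [Module F W] (L₁ L₂ : (ι → F) →ₗ[F] W)
    (h : ∀ v : ι → F₀, L₁ (mapV j v) = L₂ (mapV j v)) : L₁ = L₂ := by
  apply (Pi.basisFun F ι).ext
  intro i
  rw [Pi.basisFun_apply, ← mapV_single j]
  exact h _

/-- Forms agreeing on rational vectors agree. -/
lemma form_eq_on_map (Q₁ Q₂ : QuadraticForm F (ι → F)) (h : ∀ v : ι → F₀, Q₁ (mapV j v) = Q₂ (mapV j v))
    (x : ι → F) : Q₁ x = Q₂ x := by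
  apply eq_on_basis (Pi.basisFun F ι) Q₁ Q₂
  · intro i
    rw [Pi.basisFun_apply, ← mapV_single j]
    exact h _
  · intro i k
    rw [Pi.basisFun_apply, Pi.basisFun_apply, ← mapV_single j, ← mapV_single j]
    simp only [polar]
    rw [← mapV_add, h, h, h]

/-- Extension of scalars on invertible matrices. -/
abbrev glJ : GL ι F₀ →* GL ι F := Matrix.GeneralLinearGroup.map j

lemma glJ_coe (g : GL ι F₀) : ((glJ j g : GL ι F) : Matrix ι ι F) = (g : Matrix ι ι F₀).map j := rfl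

lemma mapV_glJ (g : GL ι F₀) (v : ι → F₀) :
    mapV j ((g : Matrix ι ι F₀) *ᵥ v) = (glJ j g : GL ι F).1 *ᵥ mapV j v := mapV_mulVec j _ v

lemma glJ_injective : Function.Injective (glJ (ι := ι) j) := by
  intro a b h
  apply Units.ext
  ext s t
  apply j.injective
  have := congrArg (fun x : GL ι F => (x : Matrix ι ι F) s t) h
  exact this

/-- A form and its extension of scalars. -/
structure Comp (q₀ : QuadraticForm F₀ (ι → F₀)) (q : QuadraticForm F (ι → F)) : Prop where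
  map : ∀ v, q (mapV j v) = j (q₀ v)

variable {j} {q₀ : QuadraticForm F₀ (ι → F₀)} {q : QuadraticForm F (ι → F)}

lemma Comp.polar (h : Comp j q₀ q) (x y : ι → F₀) :
    QuadraticMap.polar q (mapV j x) (mapV j y) = j (QuadraticMap.polar q₀ x y) := by
  simp only [QuadraticMap.polar, ← mapV_add, h.map, map_sub]

/-- Extension of scalars preserves isometries. -/
lemma isom_glJ (h : Comp j q₀ q) {s : GL ι F₀} (hs : ∀ v, q₀ ((s : Matrix ι ι F₀) *ᵥ v) = q₀ v) (w : ι → F) :
    q ((glJ j s : GL ι F).1 *ᵥ w) = q w := by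
  have := form_eq_on_map j (q.comp (Matrix.toLin' (glJ j s : GL ι F).1)) q (fun v => by
    change q ((glJ j s : GL ι F).1 *ᵥ mapV j v) = q (mapV j v)
    rw [← mapV_glJ, h.map, h.map, hs]) w
  exact this

/-- Extension of scalars preserves similarities. -/
lemma sim_glJ (h : Comp j q₀ q) {s : GL ι F₀} {c : F₀} (hs : ∀ v, q₀ ((s : Matrix ι ι F₀) *ᵥ v) = c * q₀ v) (w : ι → F) :
    q ((glJ j s : GL ι F).1 *ᵥ w) = j c * q w := by
  have := form_eq_on_map j (q.comp (Matrix.toLin' (glJ j s : GL ι F).1)) (j c • q) (fun v => by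
    change q ((glJ j s : GL ι F).1 *ᵥ mapV j v) = j c * q (mapV j v)
    rw [← mapV_glJ, h.map, h.map, hs, map_mul]) w
  exact this

/-- Isometries over the small field, from isometries of the extension. -/
lemma isom_of_glJ (h : Comp j q₀ q) {s : GL ι F₀} (hs : ∀ w, q ((glJ j s : GL ι F).1 *ᵥ w) = q w) (v : ι → F₀) :
    q₀ ((s : Matrix ι ι F₀) *ᵥ v) = q₀ v := by
  apply j.injective
  rw [← h.map, ← h.map, mapV_glJ, hs]

/-- Similarities over the small field, from similarities of the extension with rational multiplier. -/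
lemma sim_of_glJ (h : Comp j q₀ q) {s : GL ι F₀} {c : F₀} (hs : ∀ w, q ((glJ j s : GL ι F).1 *ᵥ w) = j c * q w)
    (v : ι → F₀) : q₀ ((s : Matrix ι ι F₀) *ᵥ v) = c * q₀ v := by
  apply j.injective
  rw [← h.map, map_mul, ← h.map, mapV_glJ, hs]

/-! ### Gram matrices -/

section gram

variable {K : Type*} [Field K]

/-- The Gram matrix of the polar form. -/
noncomputable def gram (q : QuadraticForm K (ι → K)) : Matrix ι ι K := LinearMap.toMatrix₂' K (polarBilin q)

lemma polar_eq_gram (q : QuadraticForm K (ι → K)) (v w : ι → K) :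
    QuadraticMap.polar q v w = v ⬝ᵥ (gram q *ᵥ w) := by
  have e : Matrix.toLinearMap₂' K (gram q) = polarBilin q := Matrix.toLinearMap₂'_toMatrix' _
  have := congrFun (congrArg DFunLike.coe (congrFun (congrArg DFunLike.coe e) v)) w
  rw [Matrix.toLinearMap₂'_apply'] at this
  exact this.symm

lemma det_gram_ne {q : QuadraticForm K (ι → K)} (hq : Nondeg q) : (gram q).det ≠ 0 := by
  intro h0
  obtain ⟨w, hw, hAw⟩ := Matrix.exists_mulVec_eq_zero_iff.2 h0
  obtain ⟨y, hy⟩ := hq w hw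
  apply hy
  rw [QuadraticMap.polar_comm, polar_eq_gram, hAw]
  simp

lemma gram_sim {q : QuadraticForm K (ι → K)} {g : Matrix ι ι K} {c : K} (hg : ∀ v, q (g *ᵥ v) = c * q v) :
    gᵀ * gram q * g = c • gram q := by
  ext s t
  have h1 : QuadraticMap.polar q (g *ᵥ Pi.single s 1) (g *ᵥ Pi.single t 1) =
      c * QuadraticMap.polar q (Pi.single s 1) (Pi.single t 1) := by
    simp only [QuadraticMap.polar, ← Matrix.mulVec_add, hg]
    ring
  rw [polar_eq_gram, polar_eq_gram] at h1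
  have h2 : ∀ M : Matrix ι ι K, (g *ᵥ Pi.single s 1) ⬝ᵥ (M *ᵥ (g *ᵥ Pi.single t 1)) = (gᵀ * M * g) s t := by
    intro M
    have e1 : (gᵀ * M * g) s t = (Pi.single s 1 : ι → K) ⬝ᵥ ((gᵀ * M * g) *ᵥ Pi.single t 1) := by
      rw [single_one_dotProduct, Matrix.mulVec_single_one]
      rfl
    rw [e1, ← Matrix.mulVec_mulVec, ← Matrix.mulVec_mulVec, Matrix.dotProduct_mulVec _ gᵀ, Matrix.vecMul_transpose]
  have h3 : (Pi.single s 1 : ι → K) ⬝ᵥ (gram q *ᵥ Pi.single t 1) = gram q s t := by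
    rw [single_one_dotProduct, Matrix.mulVec_single_one]
    rfl
  rw [h2, h3] at h1
  rw [h1]
  rfl

lemma det_sq_of_sim {q : QuadraticForm K (ι → K)} (hq : Nondeg q) {g : Matrix ι ι K} {c : K} (hg : ∀ v, q (g *ᵥ v) = c * q v) :
    g.det ^ 2 = c ^ Fintype.card ι := by
  have h1 := congrArg Matrix.det (gram_sim hg)
  rw [Matrix.det_mul, Matrix.det_mul, Matrix.det_transpose, Matrix.det_smul] at h1
  have h2 := det_gram_ne hq
  apply mul_right_cancel₀ h2
  rw [← h1]
  ring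

end gram

section similarity

variable {f₀ : (ι → F₀) → F₀} {f : (ι → F) → F}

lemma glJ_mem_CO (h : Comp j q₀ q) (hf₀ : ∀ v, f₀ v = q₀ v) (hf : ∀ v, f v = q v) {g : GL ι F₀} (hg : g ∈ CO f₀) :
    glJ j g ∈ CO f := by
  obtain ⟨c, hc⟩ := hg
  refine ⟨Units.map (j : F₀ →* F) c, fun w => ?_⟩
  rw [hf, hf]
  exact sim_glJ h (c := c) (fun v => by rw [← hf₀, ← hf₀]; exact hc v) w

/-- Extension of scalars on similarity groups. -/
def mapCO (h : Comp j q₀ q) (hf₀ : ∀ v, f₀ v = q₀ v) (hf : ∀ v, f v = q v) : CO f₀ →* CO f where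
  toFun g := ⟨glJ j g, glJ_mem_CO h hf₀ hf g.2⟩
  map_one' := Subtype.ext (map_one _)
  map_mul' a b := Subtype.ext (map_mul _ _ _)

lemma mapCO_coe (h : Comp j q₀ q) (hf₀ : ∀ v, f₀ v = q₀ v) (hf : ∀ v, f v = q v) (g : CO f₀) :
    ((mapCO h hf₀ hf g : CO f) : GL ι F) = glJ j g := rfl

end similarity

/-! ### Isometries -/

section ext

variable (h : Comp j q₀ q)

/-- Extension of scalars on isometry groups. -/
def extI : isometryGroup F₀ ⇑q₀ →* isometryGroup F ⇑q where
  toFun s := ⟨glJ j s, (mem_iso_iff _ _).2 (isom_glJ h ((mem_iso_iff _ _).1 s.2))⟩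
  map_one' := Subtype.ext (map_one _)
  map_mul' a b := Subtype.ext (map_mul _ _ _)

lemma extI_coe (s : isometryGroup F₀ ⇑q₀) : ((extI h s : isometryGroup F ⇑q) : GL ι F) = glJ j s := rfl

/-- Extension of scalars on orthogonal groups. -/
noncomputable def extO : OG q₀ →* OG q :=
  (isoOG ⇑q q (fun _ => rfl)).toMonoidHom.comp
    ((extI h).comp (isoOG ⇑q₀ q₀ (fun _ => rfl)).symm.toMonoidHom)

lemma extO_iso (s : isometryGroup F₀ ⇑q₀) :
    extO h (isoOG ⇑q₀ q₀ (fun _ => rfl) s) = isoOG ⇑q q (fun _ => rfl) (extI h s) := by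
  simp [extO]

lemma extO_apply (a : OG q₀) (v : ι → F₀) :
    ((extO h a : OG q) : (ι → F) ≃ₗ[F] (ι → F)) (mapV j v) = mapV j ((a : (ι → F₀) ≃ₗ[F₀] (ι → F₀)) v) := by
  obtain ⟨s, rfl⟩ := (isoOG ⇑q₀ q₀ (fun _ => rfl)).surjective a
  rw [extO_iso, isoOG_apply, isoOG_apply, extI_coe, mapV_glJ]

/-- Linear maps agreeing on the rational vectors. -/
lemma extO_ext {b : OG q} {L : (ι → F) →ₗ[F] (ι → F)} {a : OG q₀}
    (hL : ∀ v, L (mapV j v) = mapV j ((a : (ι → F₀) ≃ₗ[F₀] (ι → F₀)) v))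
    (x : ι → F) : ((extO h a : OG q) : (ι → F) ≃ₗ[F] (ι → F)) x = L x := by
  have := lin_eq_on_map j (((extO h a : OG q) : (ι → F) ≃ₗ[F] (ι → F)) : (ι → F) →ₗ[F] (ι → F)) L (fun v => by
    change ((extO h a : OG q) : (ι → F) ≃ₗ[F] (ι → F)) (mapV j v) = _
    rw [extO_apply, hL])
  exact congrFun (congrArg DFunLike.coe this) x

lemma isSiegel_ext {a : OG q₀} {e y : ι → F₀} (ha : IsSiegel a e y) :
    IsSiegel (extO h a) (mapV j e) (mapV j y) := by
  obtain ⟨h1, h2, h3⟩ := ha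
  refine ⟨by rw [h.map, h1, map_zero], by rw [h.polar, h2, map_zero], fun x => ?_⟩
  apply extO_ext h (b := 1)
  intro v
  rw [h3, siegelLin_apply, siegelLin_apply, h.polar, h.polar, h.map]
  funext i
  simp [mapV]

lemma isRefl_ext {a : OG q₀} {x : ι → F₀} (ha : IsRefl a x) :
    IsRefl (extO h a) (mapV j x) := by
  obtain ⟨h1, h2⟩ := ha
  refine ⟨by rw [h.map]; exact (map_ne_zero j).2 h1, fun w => ?_⟩
  apply extO_ext h (b := 1)
  intro v
  rw [h2, reflLin_apply, reflLin_apply, h.polar, h.map]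
  funext i
  simp [mapV]

end ext

end Cfsg.Agent.Lib.AutPOm
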