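import Mathlib
import Cfsg.Prelude.Def_LieTypeDatum
import Cfsg.Agent.Lib.GammaCount
import Cfsg.Agent.Lib.AutPSL.Descent
import Cfsg.Agent.Lib.AutPSL.GraphInv

/-!
# Semilinear automorphisms of `PΩ`: basic calculus and non-abelian Hilbert 90
-/

set_option autoImplicit false
set_option linter.unusedSectionVars false
set_option linter.unusedSimpArgs false
set_option linter.unusedVariables false

namespace Cfsg.Agent.Lib.AutPOm

open QuadraticMap Cfsg.Agent.Lib.OrthoBasic Cfsg.Agent.Lib.OrthoSiegel Cfsg.Agent.Lib.OrthoGen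
  Cfsg.Agent.Lib.OrthoFinal Cfsg.Agent.Lib.PgoPsi Cfsg.Agent.Lib.PgoGroup Cfsg.Agent.Lib.GammaCount
  Cfsg.Agent.Lib.Hilbert90
open Cfsg Matrix

variable {ι : Type} [Fintype ι] [DecidableEq ι] {F : Type*} [Field F] {f : (ι → F) → F}

/-- The automorphism of `PΩ` induced by a semisimilarity pair. -/
noncomputable def gs {g : GL ι F} {σ : F ≃+* F} (h : IsSemisimilarityPair f g σ) : MulAut (POmega F f) :=
  psiG f (mkG f h)

lemma gs_induced {g : GL ι F} {σ : F ≃+* F} (h : IsSemisimilarityPair f g σ) :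
    IsInducedBySemilinearPOmega f g σ (gs h) := (induced_iff f h _).2 rfl

lemma gs_congr {g g' : GL ι F} {σ σ' : F ≃+* F} (h : IsSemisimilarityPair f g σ)
    (h' : IsSemisimilarityPair f g' σ') (e : act g σ = act g' σ') : gs h = gs h' := by
  unfold gs
  congr 1
  exact Subtype.ext e

lemma gs_eq_of_eq {g g' : GL ι F} {σ σ' : F ≃+* F} (h : IsSemisimilarityPair f g σ) (eg : g = g')
    (eσ : σ = σ') : ∃ h' : IsSemisimilarityPair f g' σ', gs h = gs h' := by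
  subst eg eσ
  exact ⟨h, rfl⟩

lemma gs_mul {g g' : GL ι F} {σ σ' : F ≃+* F} (h : IsSemisimilarityPair f g σ)
    (h' : IsSemisimilarityPair f g' σ') : gs h * gs h' = gs (semisim_mul h h') := by
  unfold gs
  rw [← map_mul]
  congr 1
  exact Subtype.ext (act_mul g g' σ σ')

lemma gs_inv {g : GL ι F} {σ : F ≃+* F} (h : IsSemisimilarityPair f g σ) :
    (gs h)⁻¹ = gs (semisim_inv h) := by
  unfold gs
  rw [← map_inv]
  congr 1
  exact Subtype.ext (act_inv g σ)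

lemma gs_one : gs (semisim_one (Q := f)) = 1 := by
  unfold gs
  rw [← map_one (psiG f)]
  congr 1
  exact Subtype.ext act_one

lemma gs_range (β : MulAut (POmega F f)) (hβ : β ∈ gammaPOmega F f) :
    ∃ (g : GL ι F) (σ : F ≃+* F) (h : IsSemisimilarityPair f g σ), β = gs h := by
  rw [gamma_eq_range] at hβ
  obtain ⟨⟨_, g, σ, h, rfl⟩, rfl⟩ := hβ
  exact ⟨g, σ, h, rfl⟩

lemma gs_mem {g : GL ι F} {σ : F ≃+* F} (h : IsSemisimilarityPair f g σ) : gs h ∈ gammaPOmega F f := by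
  rw [gamma_eq_range]
  exact ⟨mkG f h, rfl⟩

lemma act_sc_mul (l : Fˣ) (g : GL ι F) (σ : F ≃+* F) : act (sc l * g) σ = act g σ := act_sc l g σ

/-! ### The norm -/

/-- The norm of a matrix along `σ`. -/
def nrmG (σ : F ≃+* F) (g : GL ι F) : ℕ → GL ι F
  | 0 => 1
  | k + 1 => g * glMap σ (nrmG σ g k)

@[simp] lemma nrmG_zero (σ : F ≃+* F) (g : GL ι F) : nrmG σ g 0 = 1 := rfl

lemma nrmG_succ (σ : F ≃+* F) (g : GL ι F) (k : ℕ) : nrmG σ g (k + 1) = g * glMap σ (nrmG σ g k) := rfl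

lemma glMap_mul' (σ τ : F ≃+* F) (x : GL ι F) : glMap (σ * τ) x = glMap σ (glMap τ x) := glMap_trans σ τ x

lemma glMap_one' (x : GL ι F) : glMap (1 : F ≃+* F) x = x := by
  apply Units.ext
  ext i j
  rfl

lemma nrmG_succ' (σ : F ≃+* F) (g : GL ι F) (k : ℕ) :
    nrmG σ g (k + 1) = nrmG σ g k * glMap (σ ^ k) g := by
  induction k with
  | zero => simp [nrmG_succ, glMap_one']
  | succ k ih =>
    rw [nrmG_succ σ g (k + 1), ih, map_mul, ← glMap_mul', ← pow_succ', ← ih, nrmG_succ, mul_assoc]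

lemma semisim_nrm {g : GL ι F} {σ : F ≃+* F} (h : IsSemisimilarityPair f g σ) (k : ℕ) :
    IsSemisimilarityPair f (nrmG σ g k) (σ ^ k) := by
  induction k with
  | zero => exact semisim_one
  | succ k ih =>
    rw [pow_succ']
    exact semisim_mul h ih

lemma gs_pow {g : GL ι F} {σ : F ≃+* F} (h : IsSemisimilarityPair f g σ) (k : ℕ) :
    (gs h) ^ k = gs (semisim_nrm h k) := by
  induction k with
  | zero =>
    rw [pow_zero]
    exact gs_one.symm
  | succ k ih =>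
    rw [pow_succ', ih, gs_mul]
    exact gs_congr _ _ (by rw [pow_succ']; rfl)

lemma sc_mul (a b : Fˣ) : (sc (a * b) : GL ι F) = sc a * sc b := map_mul _ _ _

lemma sc_one : (sc (1 : Fˣ) : GL ι F) = 1 := map_one _

lemma sc_inv (a : Fˣ) : (sc a⁻¹ : GL ι F) = (sc a)⁻¹ := map_inv _ _

lemma glMap_sc (σ : F ≃+* F) (a : Fˣ) : glMap σ (sc a : GL ι F) = sc (Units.map (σ : F →* F) a) := by
  apply Units.ext
  ext i j
  simp [sc_coe, Matrix.scalar_apply, Matrix.diagonal_apply]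
  split_ifs <;> simp

lemma nrmG_sc_mul (σ : F ≃+* F) (g : GL ι F) (d : Fˣ) (k : ℕ) :
    ∃ e : Fˣ, (e : F) = pnorm σ (d : F) k ∧ nrmG σ (sc d * g) k = sc e * nrmG σ g k := by
  induction k with
  | zero =>
    refine ⟨1, by simp, ?_⟩
    rw [nrmG_zero, nrmG_zero, sc_one, one_mul]
  | succ k ih =>
    obtain ⟨e, he, hk⟩ := ih
    refine ⟨d * Units.map (σ : F →* F) e, ?_, ?_⟩
    · rw [Units.val_mul, ← mul_map_pnorm, ← he]
      rfl
    · rw [nrmG_succ, hk, map_mul, glMap_sc, nrmG_succ, sc_mul]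
      calc sc d * g * (sc (Units.map (σ : F →* F) e) * glMap σ (nrmG σ g k))
          = sc d * (g * sc (Units.map (σ : F →* F) e)) * glMap σ (nrmG σ g k) := by simp only [mul_assoc]
        _ = sc d * (sc (Units.map (σ : F →* F) e) * g) * glMap σ (nrmG σ g k) := by rw [sc_comm (Units.map (σ : F →* F) e) g]
        _ = _ := by simp only [mul_assoc]

/-! ### Hilbert 90 -/

lemma rG_glMap {n : ℕ} (e : ι ≃ Fin n) (σ : F ≃+* F) (g : GL ι F) :
    Cfsg.Agent.Lib.AutPSL.rG e (glMap σ g) = Cfsg.Agent.Lib.AutPSL.glMap σ (Cfsg.Agent.Lib.AutPSL.rG e g) := by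
  apply Units.ext
  ext i j
  simp [Cfsg.Agent.Lib.AutPSL.rG_coe, Cfsg.Agent.Lib.AutPSL.glMap_coe]

lemma rG_nrmG {n : ℕ} (e : ι ≃ Fin n) (σ : F ≃+* F) (g : GL ι F) (k : ℕ) :
    Cfsg.Agent.Lib.AutPSL.nrm σ (Cfsg.Agent.Lib.AutPSL.rG e g) k =
      Cfsg.Agent.Lib.AutPSL.rG e (nrmG σ g k) := by
  induction k with
  | zero =>
    rw [Cfsg.Agent.Lib.AutPSL.nrm_zero, nrmG_zero]
    exact (map_one _).symm
  | succ k ih =>
    rw [Cfsg.Agent.Lib.AutPSL.nrm_succ, ih, nrmG_succ, map_mul, rG_glMap]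

/-- Non-abelian Hilbert 90 for `GL ι F`. -/
theorem h90_G (σ : F ≃+* F) {r : ℕ} (hr : 0 < r) (hord : orderOf σ = r) (g : GL ι F)
    (hN : nrmG σ g r = 1) : ∃ h : GL ι F, g * glMap σ h = h := by
  classical
  let e : ι ≃ Fin (Fintype.card ι) := Fintype.equivFin ι
  have h1 : Cfsg.Agent.Lib.AutPSL.nrm σ (Cfsg.Agent.Lib.AutPSL.rG e g) r = 1 := by
    rw [rG_nrmG, hN]
    exact map_one _
  obtain ⟨h', hh'⟩ := Cfsg.Agent.Lib.AutPSL.h90 σ hr hord _ h1
  refine ⟨(Cfsg.Agent.Lib.AutPSL.rG e).symm h', ?_⟩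
  apply (Cfsg.Agent.Lib.AutPSL.rG e).injective
  rw [map_mul, rG_glMap]
  simp only [MulEquiv.apply_symm_apply]
  rw [hh', mul_assoc, ← map_mul, inv_mul_cancel, map_one, mul_one]

end Cfsg.Agent.Lib.AutPOm
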