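import Cfsg.Agent.Lib.AutPOm.FieldCent
import Cfsg.Agent.Lib.AutPOm.BalGroup

/-!
# The group `PΩ` over the subfield inside `PΩ` over the field
-/

set_option autoImplicit false
set_option linter.unusedSectionVars false
set_option linter.unusedSimpArgs false
set_option linter.unusedVariables false

namespace Cfsg.Agent.Lib.AutPOm

open Module QuadraticMap Cfsg.Agent.Lib.OrthoBasic Cfsg.Agent.Lib.OrthoSiegel Cfsg.Agent.Lib.OrthoGen
  Cfsg.Agent.Lib.OrthoFinal Cfsg.Agent.Lib.PgoPsi Cfsg.Agent.Lib.PgoGroup Cfsg.Agent.Lib.GammaCount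
  Cfsg.Agent.Lib.Hilbert90 Cfsg.Agent.Lib.QuadFF Cfsg.Agent.Lib.QuadClass Cfsg.Agent.Lib.OrthoCount
  Cfsg.Agent.Lib.OrthoChar Cfsg.Agent.Lib.OrthoIndex
open Cfsg Matrix

variable {ι : Type} [Fintype ι] [DecidableEq ι] {F₀ F : Type*} [Field F₀] [Field F]

section basic

variable {f : (ι → F) → F} {q : QuadraticForm F (ι → F)}

/-- An element of `Ω` as a similarity. -/
def omCO (s : Omega F f) : CO f := ⟨((s : isometryGroup F f) : GL ι F), isometry_le_CO f (s : isometryGroup F f).2⟩

lemma omCO_coe (s : Omega F f) : ((omCO s : CO f) : GL ι F) = ((s : isometryGroup F f) : GL ι F) := rfl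

lemma dl_omCO (s : Omega F f) : dl (omCO s) = MulAut.conj (s : POmega F f) := by
  ext x
  induction x using QuotientGroup.induction_on with
  | H t =>
  rw [psiO_mk]
  change _ = ((s * t * s⁻¹ : Omega F f) : POmega F f)
  congr 1

lemma mem_center_omega_iff [Fintype F] (S : Sys f q) (s : Omega F f) :
    s ∈ Subgroup.center (Omega F f) ↔ ∃ c : Fˣ, ((s : isometryGroup F f) : GL ι F) = sc c := by
  constructor
  · intro h
    have h1 : (s : POmega F f) = 1 := (QuotientGroup.eq_one_iff s).2 h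
    have h2 : dl (omCO s) = 1 := by
      rw [dl_omCO, h1, map_one]
    exact (dl_eq_one_iff S _).1 h2
  · rintro ⟨c, hc⟩
    rw [Subgroup.mem_center_iff]
    intro t
    apply Subtype.ext
    apply Subtype.ext
    change ((t : isometryGroup F f) : GL ι F) * ((s : isometryGroup F f) : GL ι F) =
      ((s : isometryGroup F f) : GL ι F) * ((t : isometryGroup F f) : GL ι F)
    rw [hc, sc_comm]

/-- The action of `gs` on classes. -/
lemma gs_mk {g : GL ι F} {τ : F ≃+* F} (h : IsSemisimilarityPair f g τ) (s s' : Omega F f)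
    (hs : ((s' : isometryGroup F f) : GL ι F) = act g τ ((s : isometryGroup F f) : GL ι F)) :
    gs h (s : POmega F f) = (s' : POmega F f) :=
  gs_induced h s s' (by rw [hs]; rfl)

lemma fa_mk (hI : FInv f) (τ : F ≃+* F) (s s' : Omega F f)
    (hs : ((s' : isometryGroup F f) : GL ι F) = glMap τ ((s : isometryGroup F f) : GL ι F)) :
    fa hI τ (s : POmega F f) = (s' : POmega F f) := by
  apply gs_mk
  rw [hs, act_apply]
  simp

/-- A nonzero value. -/
lemma Sys.exists_value (S : Sys f q) : ∃ v, q v ≠ 0 := by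
  obtain ⟨fr⟩ := S.fr
  refine ⟨fr.e₁ + fr.f₁, ?_⟩
  rw [Q_add, fr.h₁.Qe, fr.h₁.Qf, fr.h₁.B]
  simp

/-- A scalar isometry squares to one. -/
lemma sq_of_scalar_iso (S : Sys f q) {c : Fˣ} (h : (sc c : GL ι F) ∈ isometryGroup F f) : c * c = 1 := by
  obtain ⟨v, hv⟩ := S.exists_value
  have h1 := (mem_iso_iff f _).1 h v
  rw [sc_mulVec, S.hf, S.hf, Q_sm] at h1
  apply Units.ext
  have h3 : ((c : F) ^ 2 - 1) * q v = 0 := by linear_combination h1
  have h4 := (mul_eq_zero.1 h3).resolve_right hv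
  simp only [Units.val_mul, Units.val_one]
  linear_combination h4

end basic

/-! ### Squares of isometries -/

section squares

variable {K : Type*} [Field K] {V : Type*} [AddCommGroup V] [Module K V] [FiniteDimensional K V]
  {Q : QuadraticForm K V}

lemma refl_sq (hQ : Nondeg Q) {x : V} (hx : Q x ≠ 0) : refl hQ hx * refl hQ hx = 1 := by
  apply OG_ext
  intro v
  rw [Subgroup.coe_mul, LinearEquiv.mul_apply, refl_apply, refl_apply, reflLin_apply, reflLin_apply,
    polar_sub_left, polar_smul_l, polar_self']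
  have h1 : polar Q v x / Q x * (2 * Q x) = 2 * polar Q v x := by
    field_simp
  rw [h1]
  have h2 : (polar Q v x - 2 * polar Q v x) / Q x = - (polar Q v x / Q x) := by
    ring
  rw [h2]
  simp only [OneMemClass.coe_one, LinearEquiv.coe_one, id_eq, neg_smul, sub_neg_eq_add, sub_add_cancel]

lemma isRefl_sq (hQ : Nondeg Q) {s : OG Q} {x : V} (hs : IsRefl s x) : s * s = 1 := by
  have hx := hs.1
  have e : s = refl hQ hx := OG_ext (fun v => hs.2 v)
  rw [e, refl_sq]

/-- The orthogonal group modulo the Siegel group is abelian of exponent two. -/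
theorem sq_mem_E [Fintype K] (hQ : Nondeg Q) (hgen : genR Q = ⊤) (fr : Frame Q) (u : OG Q) :
    u * u ∈ siegelE Q ∧ ∀ h : OG Q, u * h * u⁻¹ * h⁻¹ ∈ siegelE Q := by
  have hu : u ∈ genR Q := by
    rw [hgen]
    exact Subgroup.mem_top u
  induction hu using Subgroup.closure_induction with
  | mem x hx =>
    rcases hx with ⟨e, y, hs⟩ | ⟨x', hs⟩
    · have hm := hs.mem
      refine ⟨mul_mem hm hm, fun h => ?_⟩
      have e : x * h * x⁻¹ * h⁻¹ = x * (h * x⁻¹ * h⁻¹) := by group
      rw [e]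
      exact mul_mem hm ((inferInstance : (siegelE Q).Normal).conj_mem _ (inv_mem hm) h)
    · refine ⟨?_, fun h => ?_⟩
      · rw [isRefl_sq hQ hs]
        exact one_mem _
      · have h1 := hs.conj h
        have h2 := refl_mul_inv_mem hQ fr hs h1 (d := 1) one_ne_zero (by
          rw [OG_apply]
          ring)
        have e : x * h * x⁻¹ * h⁻¹ = x * (h * x * h⁻¹)⁻¹ := by group
        rw [e]
        exact h2
  | one =>
    simp
  | mul a b _ _ ha hb =>
    refine ⟨?_, fun h => ?_⟩
    · have h1 := hb.2 a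
      have e : a * b * (a * b) = a * (b * a * b⁻¹ * a⁻¹) * a⁻¹ * (a * a) * (b * b) := by group
      rw [e]
      exact mul_mem (mul_mem ((inferInstance : (siegelE Q).Normal).conj_mem _ h1 a) ha.1) hb.1
    · have e : a * b * h * (a * b)⁻¹ * h⁻¹ = a * (b * h * b⁻¹ * h⁻¹) * a⁻¹ * (a * h * a⁻¹ * h⁻¹) := by group
      rw [e]
      exact mul_mem ((inferInstance : (siegelE Q).Normal).conj_mem _ (hb.2 h) a) (ha.2 h)
  | inv a _ ha =>
    refine ⟨?_, fun h => ?_⟩
    · have e : a⁻¹ * a⁻¹ = (a * a)⁻¹ := by group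
      rw [e]
      exact inv_mem ha.1
    · have e : a⁻¹ * h * a⁻¹⁻¹ * h⁻¹ = a⁻¹ * (a * h * a⁻¹ * h⁻¹)⁻¹ * a := by group
      rw [e]
      have := (inferInstance : (siegelE Q).Normal).conj_mem _ (inv_mem (ha.2 h)) a⁻¹
      simpa using this

end squares

/-! ### The embedding -/

section embed

variable {j : F₀ →+* F} {σ : F ≃+* F} {f₀ : (ι → F₀) → F₀} {f : (ι → F) → F}
  {q₀ : QuadraticForm F₀ (ι → F₀)} {q : QuadraticForm F (ι → F)}
  (B : BC j σ f₀ f q₀ q)

/-- Extension of scalars for isometries. -/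
def isoMap (B : BC j σ f₀ f q₀ q) : isometryGroup F₀ f₀ →* isometryGroup F f where
  toFun s := ⟨glJ j s, (mem_iso_iff _ _).2 fun w => by
    rw [B.S.hf, B.S.hf]
    exact isom_glJ B.comp (fun v => by rw [← B.S₀.hf, ← B.S₀.hf]; exact (mem_iso_iff _ _).1 s.2 v) w⟩
  map_one' := Subtype.ext (map_one _)
  map_mul' a b := Subtype.ext (map_mul _ _ _)

lemma isoMap_coe (s : isometryGroup F₀ f₀) : ((isoMap B s : isometryGroup F f) : GL ι F) = glJ j s := rfl

/-- Extension of scalars for `Ω`. -/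
def omegaMap (B : BC j σ f₀ f q₀ q) : Omega F₀ f₀ →* Omega F f :=
  ((isoMap B).comp (Omega F₀ f₀).subtype).codRestrict (Omega F f) (fun s => by
    have h1 : (isoMap B) s ∈ (commutator (isometryGroup F₀ f₀)).map (isoMap B) := ⟨s, s.2, rfl⟩
    rw [commutator_def, Subgroup.map_commutator] at h1
    change (isoMap B) s ∈ commutator (isometryGroup F f)
    rw [commutator_def]
    exact Subgroup.commutator_mono le_top le_top h1)

lemma omegaMap_coe (s : Omega F₀ f₀) :
    (((omegaMap B s : Omega F f) : isometryGroup F f) : GL ι F) = glJ j ((s : isometryGroup F₀ f₀) : GL ι F₀) := rfl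

/-- `Ω` over the subfield into `PΩ` over the field. -/
noncomputable def rhoO (B : BC j σ f₀ f q₀ q) : Omega F₀ f₀ →* POmega F f :=
  (QuotientGroup.mk' _).comp (omegaMap B)

lemma rhoO_apply (s : Omega F₀ f₀) : rhoO B s = (omegaMap B s : POmega F f) := rfl

variable [Fintype F₀] [Fintype F]

lemma rhoO_eq_one_iff (s : Omega F₀ f₀) : rhoO B s = 1 ↔ s ∈ Subgroup.center (Omega F₀ f₀) := by
  have hne := nonempty_of_sys B.S
  rw [rhoO_apply, QuotientGroup.eq_one_iff, mem_center_omega_iff B.S, mem_center_omega_iff B.S₀, omegaMap_coe]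
  constructor
  · rintro ⟨c, hc⟩
    exact scalar_of_glJ hc
  · rintro ⟨c, hc⟩
    refine ⟨Units.map (j : F₀ →* F) c, ?_⟩
    rw [hc]
    apply Units.ext
    ext a b
    simp [sc_coe, Matrix.scalar_apply, Matrix.diagonal_apply]
    split_ifs <;> simp

/-- `PΩ` over the subfield into `PΩ` over the field. -/
noncomputable def fO (B : BC j σ f₀ f q₀ q) : POmega F₀ f₀ →* POmega F f :=
  QuotientGroup.lift _ (rhoO B) (fun s hs => (rhoO_eq_one_iff B s).2 hs)

lemma fO_mk (s : Omega F₀ f₀) : fO B (s : POmega F₀ f₀) = (omegaMap B s : POmega F f) := rfl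

lemma fO_injective : Function.Injective (fO B) := by
  rw [injective_iff_map_eq_one]
  intro x hx
  induction x using QuotientGroup.induction_on with
  | H s =>
  have h1 : rhoO B s = 1 := hx
  exact (QuotientGroup.eq_one_iff s).2 ((rhoO_eq_one_iff B s).1 h1)

/-- The field automorphism fixes the rational elements. -/
lemma fa_fO (hI : FInv f) (x : POmega F₀ f₀) : fa hI σ (fO B x) = fO B x := by
  induction x using QuotientGroup.induction_on with
  | H s =>
  rw [fO_mk]
  apply fa_mk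
  rw [omegaMap_coe]
  exact (glMap_glJ B.fix _).symm

/-- The action of rational similarities on rational elements. -/
lemma dl_fO (u₀ : CO f₀) (x : POmega F₀ f₀) :
    dl (mapCO B.comp B.S₀.hf B.S.hf u₀) (fO B x) = fO B (dl u₀ x) := by
  induction x using QuotientGroup.induction_on with
  | H s =>
  rw [fO_mk, psiO_mk, psiO_mk, fO_mk]
  congr 1
  apply Subtype.ext
  apply Subtype.ext
  rw [conjOmega_coe, omegaMap_coe, omegaMap_coe, conjOmega_coe, mapCO_coe, map_mul, map_mul, map_inv]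

/-- Similarities commuting with the field automorphism are rational, up to scalars. -/
lemma exists_rational_CO (hI : FInv f) {r : ℕ} (hr : 0 < r) (hord : orderOf σ = r) (u : CO f)
    (hu : Commute (dl u) (fa hI σ)) : ∃ u₀ : CO f₀, dl (mapCO B.comp B.S₀.hf B.S.hf u₀) = dl u := by
  have hne := nonempty_of_sys B.S
  obtain ⟨c, hc⟩ := (commute_dl_fa_iff hI B.S u σ).1 hu
  obtain ⟨d, hd⟩ := exists_fixed_of_commute hr hord hc
  obtain ⟨u₀, hu₀⟩ := exists_glJ_of_fixed B.ran hd
  have hu₀CO : u₀ ∈ CO f₀ := B.mem_CO_of_glJ (by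
    rw [hu₀]
    exact (CO f).mul_mem (sc_mem_CO B.S d) u.2)
  refine ⟨⟨u₀, hu₀CO⟩, ?_⟩
  have hk : mapCO B.comp B.S₀.hf B.S.hf ⟨u₀, hu₀CO⟩ = scO B.S d * u := Subtype.ext hu₀
  rw [hk, dl_mul, dl_scO, one_mul]

lemma fix_commute (hI : FInv f) {k : POmega F f} (hk : fa hI σ k = k) (s : Omega F f) (hs : (s : POmega F f) = k) :
    Commute (dl (omCO s)) (fa hI σ) := by
  rw [dl_omCO, hs]
  have h1 := conj_conj_aut (fa hI σ) k
  rw [hk] at h1
  change MulAut.conj k * fa hI σ = fa hI σ * MulAut.conj k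
  calc MulAut.conj k * fa hI σ = (fa hI σ * MulAut.conj k * (fa hI σ)⁻¹) * fa hI σ := by rw [h1]
    _ = fa hI σ * MulAut.conj k := by group

/-- Fixed points normalise the rational elements. -/
lemma fix_normalises (hI : FInv f) {r : ℕ} (hr : 0 < r) (hord : orderOf σ = r) {k e : POmega F f}
    (hk : fa hI σ k = k) (he : e ∈ (fO B).range) : k * e * k⁻¹ ∈ (fO B).range := by
  obtain ⟨s, rfl⟩ := QuotientGroup.mk_surjective k
  obtain ⟨x, rfl⟩ := he
  obtain ⟨u₀, hu₀⟩ := exists_rational_CO B hI hr hord (omCO s) (fix_commute hI hk s rfl)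
  refine ⟨dl u₀ x, ?_⟩
  rw [← dl_fO, hu₀, dl_omCO]
  rfl

end embed

end Cfsg.Agent.Lib.AutPOm
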