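import Cfsg.Agent.Lib.PgoClass

/-!
# The two classes of maximal totally singular subspaces, in all characteristics
-/

set_option autoImplicit false
set_option linter.unusedSectionVars false
set_option linter.unusedSimpArgs false
set_option linter.unusedVariables false

namespace Cfsg.Agent.Lib.AutPOm

open Module QuadraticMap Cfsg.Agent.Lib.OrthoBasic Cfsg.Agent.Lib.OrthoSiegel Cfsg.Agent.Lib.OrthoGen
  Cfsg.Agent.Lib.PgoParity

variable {K : Type*} [Field K] [Fintype K] {V : Type*} [AddCommGroup V] [Module K V] [FiniteDimensional K V]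
  {Q : QuadraticForm K V}

/-- The polar form is non-degenerate. -/
lemma nondeg_polarBilin (hQ : Nondeg Q) : (polarBilin Q).Nondegenerate := by
  refine ⟨fun x hx => ?_, fun x hx => ?_⟩
  · by_contra h0
    obtain ⟨y, hy⟩ := hQ x h0
    exact hy (hx y)
  · by_contra h0
    obtain ⟨y, hy⟩ := hQ x h0
    apply hy
    rw [polar_comm]
    exact hx y

/-- The orthogonal of a subspace. -/
noncomputable abbrev orth (Q : QuadraticForm K V) (X : Submodule K V) : Submodule K V :=
  LinearMap.BilinForm.orthogonal (polarBilin Q) X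

lemma mem_orth_iff {X : Submodule K V} {v : V} :
    v ∈ orth Q X ↔ ∀ x ∈ X, polar Q x v = 0 := by
  rw [LinearMap.BilinForm.mem_orthogonal_iff]
  rfl

lemma finrank_orth (hQ : Nondeg Q) (X : Submodule K V) :
    finrank K ↥(orth Q X) = finrank K V - finrank K ↥X :=
  LinearMap.BilinForm.finrank_orthogonal (nondeg_polarBilin hQ) X

lemma ts_le_orth {U : Submodule K V} (hU : TS Q U) : U ≤ orth Q U := by
  intro x hx
  rw [mem_orth_iff]
  intro y hy
  exact hU.polar_eq_zero hy hx

lemma maxTS_map_refl (hQ : Nondeg Q) {U : Submodule K V} (hU : MaxTS Q U) {x : V} (hx : Q x ≠ 0) :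
    MaxTS Q (U.map (reflLin Q x)) :=
  hU.map_sim ((refl hQ hx : OG Q) : V ≃ₗ[K] V) (c := 1) one_ne_zero (fun v => by rw [one_mul]; exact (refl hQ hx).2 v)

lemma finrank_map_refl (hQ : Nondeg Q) (U : Submodule K V) {x : V} (hx : Q x ≠ 0) :
    finrank K ↥(U.map (reflLin Q x)) = finrank K ↥U :=
  LinearEquiv.finrank_map_eq ((refl hQ hx : OG Q) : V ≃ₗ[K] V) U

/-- All maximal totally singular subspaces have the same dimension. -/
lemma finrank_maxTS (hQ : Nondeg Q) {U W : Submodule K V} (hU : MaxTS Q U) (hW : MaxTS Q W) :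
    finrank K ↥U = finrank K ↥W := by
  generalize hk : finrank K ↥W - finrank K ↥(U ⊓ W) = k
  induction k generalizing U with
  | zero =>
    have hle : U ⊓ W ≤ W := inf_le_right
    have h3 : finrank K ↥(U ⊓ W) ≤ finrank K ↥W := Submodule.finrank_mono hle
    have h4 : U ⊓ W = W := Submodule.eq_of_le_of_finrank_le hle (by omega)
    have h5 : W ≤ U := by
      rw [← h4]
      exact inf_le_left
    rw [hW.2 U hU.1 h5]
  | succ k ih =>
    obtain ⟨w, hw, hwU⟩ : ∃ w ∈ W, w ∉ U := by
      by_contra hall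
      push Not at hall
      have h5 : U ⊓ W = W := inf_eq_right.2 hall
      rw [h5] at hk
      simp at hk
    obtain ⟨x, hx, hfr⟩ := exists_refl_step hU hW hw hwU
    rw [← finrank_map_refl hQ U hx]
    exact ih (maxTS_map_refl hQ hU hx) (by rw [hfr]; omega)

/-- The dimension of intersections is preserved by linear equivalences. -/
lemma finrank_map_inf (z : V ≃ₗ[K] V) (U W : Submodule K V) :
    finrank K ↥(U.map (z : V →ₗ[K] V) ⊓ W.map (z : V →ₗ[K] V)) = finrank K ↥(U ⊓ W) := by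
  rw [← Submodule.map_inf _ z.injective]
  exact LinearEquiv.finrank_map_eq z _

section flip

variable (hQ : Nondeg Q) {m : ℕ} (hdim : finrank K V = 2 * m)

include hQ hdim

lemma maxTS_orth_eq {U : Submodule K V} (hU : MaxTS Q U) (hm : finrank K ↥U = m) : orth Q U = U := by
  symm
  apply Submodule.eq_of_le_of_finrank_le (ts_le_orth hU.1)
  rw [finrank_orth hQ, hdim, hm]
  omega

/-- Intersections with orthogonals. -/
lemma finrank_inf_orth {U : Submodule K V} (hU : MaxTS Q U) (hm : finrank K ↥U = m) (X : Submodule K V) :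
    finrank K ↥(U ⊓ orth Q X) + finrank K ↥X = m + finrank K ↥(U ⊓ X) := by
  have h1 : U ⊓ orth Q X = orth Q (U ⊔ X) := by
    ext v
    constructor
    · rintro ⟨hv1, hv2⟩
      rw [mem_orth_iff]
      intro y hy
      obtain ⟨a, ha, b, hb, rfl⟩ := Submodule.mem_sup.1 hy
      rw [polar_add_left, hU.1.polar_eq_zero ha hv1, mem_orth_iff.1 hv2 b hb, add_zero]
    · intro hv
      rw [mem_orth_iff] at hv
      have hv1 : v ∈ orth Q U := mem_orth_iff.2 (fun x hx => hv x (Submodule.mem_sup_left hx))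
      rw [maxTS_orth_eq hQ hdim hU hm] at hv1
      exact ⟨hv1, mem_orth_iff.2 (fun x hx => hv x (Submodule.mem_sup_right hx))⟩
  rw [h1, finrank_orth hQ, hdim]
  have h2 := Submodule.finrank_sup_add_finrank_inf_eq U X
  have h3 : finrank K ↥(U ⊔ X) ≤ finrank K V := Submodule.finrank_le _
  rw [hm] at h2
  omega

/-- Adjacent maximal totally singular subspaces. -/
theorem flip {U W W' : Submodule K V} (hU : MaxTS Q U) (hW : MaxTS Q W) (hW' : MaxTS Q W')
    (hm : finrank K ↥U = m) (hadj : finrank K ↥(W ⊓ W') + 1 = m) :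
    finrank K ↥(U ⊓ W) = finrank K ↥(U ⊓ W') + 1 ∨ finrank K ↥(U ⊓ W') = finrank K ↥(U ⊓ W) + 1 := by
  set H := W ⊓ W' with hH
  have hmW : finrank K ↥W = m := (finrank_maxTS hQ hW hU).trans hm
  have hmW' : finrank K ↥W' = m := (finrank_maxTS hQ hW' hU).trans hm
  set T := U ⊓ orth Q H with hT
  have hTc : finrank K ↥T = finrank K ↥(U ⊓ H) + 1 := by
    have := finrank_inf_orth hQ hdim hU hm H
    rw [← hT] at this
    omega
  have hHW : H ≤ W := inf_le_left
  have hHW' : H ≤ W' := inf_le_right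
  have hW_orth : W ≤ orth Q H := by
    intro y hy
    rw [mem_orth_iff]
    intro z hz
    exact hW.1.polar_eq_zero (hHW hz) hy
  have hW'_orth : W' ≤ orth Q H := by
    intro y hy
    rw [mem_orth_iff]
    intro z hz
    exact hW'.1.polar_eq_zero (hHW' hz) hy
  have hUHT : U ⊓ H ≤ T := by
    rintro y ⟨hy1, hy2⟩
    exact ⟨hy1, hW_orth (hHW hy2)⟩
  -- an element of `T` outside `H`
  obtain ⟨t, htT, htH⟩ : ∃ t ∈ T, t ∉ H := by
    by_contra hall
    push Not at hall
    have h1 : T ≤ U ⊓ H := fun y hy => ⟨hy.1, hall y hy⟩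
    have h2 := Submodule.finrank_mono h1
    omega
  have ht0 : t ≠ 0 := fun h => htH (h ▸ H.zero_mem)
  have htU : t ∈ U := htT.1
  have hQt : Q t = 0 := hU.1 t htU
  -- the structure of `T`
  have hTeq : T = (U ⊓ H) ⊔ Submodule.span K {t} := by
    symm
    apply Submodule.eq_of_le_of_finrank_le
    · apply sup_le hUHT
      rw [Submodule.span_singleton_le_iff_mem]
      exact htT
    · have hdisj : (U ⊓ H) ⊓ Submodule.span K {t} = ⊥ := by
        rw [eq_bot_iff]
        rintro y ⟨hy1, hy2⟩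
        obtain ⟨c, rfl⟩ := Submodule.mem_span_singleton.1 hy2
        by_cases hc : c = 0
        · simp [hc]
        · exfalso
          apply htH
          have := H.smul_mem c⁻¹ hy1.2
          rwa [smul_smul, inv_mul_cancel₀ hc, one_smul] at this
      have h2 := Submodule.finrank_sup_add_finrank_inf_eq (U ⊓ H) (Submodule.span K {t})
      rw [hdisj, finrank_bot, add_zero, finrank_span_singleton ht0] at h2
      omega
  -- the general conclusion
  have hconcl : ∀ (W₁ W₂ : Submodule K V), W₁ ⊓ W₂ = H → W₁ ≤ orth Q H → W₂ ≤ orth Q H → t ∈ W₁ →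
      finrank K ↥(U ⊓ W₁) = finrank K ↥(U ⊓ W₂) + 1 := by
    intro W₁ W₂ hWW h₁ h₂ htW
    have hHW₁ : H ≤ W₁ := by
      rw [← hWW]
      exact inf_le_left
    have hHW₂ : H ≤ W₂ := by
      rw [← hWW]
      exact inf_le_right
    have e1 : U ⊓ W₁ = T := by
      apply le_antisymm
      · exact inf_le_inf_left _ h₁
      · rw [hTeq]
        apply sup_le
        · exact inf_le_inf_left _ hHW₁
        · rw [Submodule.span_singleton_le_iff_mem]
          exact ⟨htU, htW⟩
    have e2 : U ⊓ W₂ = U ⊓ H := by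
      apply le_antisymm
      · rintro y ⟨hy1, hy2⟩
        have hyT : y ∈ T := ⟨hy1, h₂ hy2⟩
        rw [hTeq] at hyT
        obtain ⟨a, ha, b, hb, rfl⟩ := Submodule.mem_sup.1 hyT
        obtain ⟨c, rfl⟩ := Submodule.mem_span_singleton.1 hb
        by_cases hc : c = 0
        · simp only [hc, zero_smul, add_zero]
          exact ha
        · exfalso
          have h3 : c • t ∈ W₂ := by
            have := W₂.sub_mem hy2 (hHW₂ ha.2)
            simpa using this
          have h4 : t ∈ W₂ := by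
            have := W₂.smul_mem c⁻¹ h3
            rwa [smul_smul, inv_mul_cancel₀ hc, one_smul] at this
          apply htH
          rw [← hWW]
          exact ⟨htW, h4⟩
      · exact inf_le_inf_left _ hHW₂
    rw [e1, e2, hTc]
  -- a vector of `W'` outside `W`
  obtain ⟨w', hw', hw'W⟩ : ∃ w' ∈ W', w' ∉ W := by
    by_contra hall
    push Not at hall
    have h1 : W ⊓ W' = W' := inf_eq_right.2 hall
    rw [← hH] at h1
    rw [h1] at hadj
    omega
  have hw'0 : w' ≠ 0 := fun h => hw'W (h ▸ W.zero_mem)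
  have hX : W ⊔ Submodule.span K {w'} = orth Q H := by
    apply Submodule.eq_of_le_of_finrank_le
    · apply sup_le hW_orth
      rw [Submodule.span_singleton_le_iff_mem]
      exact hW'_orth hw'
    · have hdisj : W ⊓ Submodule.span K {w'} = ⊥ := by
        rw [eq_bot_iff]
        rintro y ⟨hy1, hy2⟩
        obtain ⟨c, rfl⟩ := Submodule.mem_span_singleton.1 hy2
        by_cases hc : c = 0
        · simp [hc]
        · exfalso
          apply hw'W
          have := W.smul_mem c⁻¹ hy1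
          rwa [smul_smul, inv_mul_cancel₀ hc, one_smul] at this
      have h2 := Submodule.finrank_sup_add_finrank_inf_eq W (Submodule.span K {w'})
      rw [hdisj, finrank_bot, add_zero, finrank_span_singleton hw'0, hmW] at h2
      rw [finrank_orth hQ, hdim]
      omega
  have htO : t ∈ orth Q H := htT.2
  rw [← hX] at htO
  obtain ⟨v, hv, b, hb, hvb⟩ := Submodule.mem_sup.1 htO
  obtain ⟨c, rfl⟩ := Submodule.mem_span_singleton.1 hb
  by_cases hc : c = 0
  · left
    apply hconcl W W' rfl hW_orth hW'_orth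
    rw [← hvb, hc, zero_smul, add_zero]
    exact hv
  · right
    have hQv := hW.1 v hv
    have hQw' := hW'.1 w' hw'
    have hpol : polar Q v w' = 0 := by
      have h1 : Q (v + c • w') = c * polar Q v w' := by
        rw [Q_add, Q_smul, hQv, hQw', polar_smul_r]
        ring
      rw [hvb, hQt] at h1
      exact (mul_eq_zero.1 h1.symm).resolve_left hc
    have hvH : v ∈ W' := by
      by_contra hvW'
      have hvH : v ∉ H := fun h => hvW' h.2
      have hv0 : v ≠ 0 := fun h => hvH (h ▸ H.zero_mem)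
      have hWeq : W = H ⊔ Submodule.span K {v} := by
        symm
        apply Submodule.eq_of_le_of_finrank_le
        · apply sup_le hHW
          rw [Submodule.span_singleton_le_iff_mem]
          exact hv
        · have hdisj : H ⊓ Submodule.span K {v} = ⊥ := by
            rw [eq_bot_iff]
            rintro y ⟨hy1, hy2⟩
            obtain ⟨d, rfl⟩ := Submodule.mem_span_singleton.1 hy2
            by_cases hd : d = 0
            · simp [hd]
            · exfalso
              apply hvH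
              have := H.smul_mem d⁻¹ hy1
              rwa [smul_smul, inv_mul_cancel₀ hd, one_smul] at this
          have h2 := Submodule.finrank_sup_add_finrank_inf_eq H (Submodule.span K {v})
          rw [hdisj, finrank_bot, add_zero, finrank_span_singleton hv0] at h2
          omega
      obtain ⟨y, hy, hyne⟩ := hW.exists_polar_ne hQw' hw'W
      rw [hWeq] at hy
      obtain ⟨h, hh, b, hb, rfl⟩ := Submodule.mem_sup.1 hy
      obtain ⟨d, rfl⟩ := Submodule.mem_span_singleton.1 hb
      apply hyne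
      rw [polar_add_left, polar_smul_l, hpol, hW'.1.polar_eq_zero (hHW' hh) hw']
      ring
    apply hconcl W' W (by rw [inf_comm]) hW'_orth hW_orth
    rw [← hvb]
    exact W'.add_mem hvH (W'.smul_mem c hw')

/-- A reflection moves a maximal totally singular subspace to an adjacent one. -/
lemma adj_refl {U : Submodule K V} (hU : MaxTS Q U) (hm : finrank K ↥U = m) {x : V} (hx : Q x ≠ 0) :
    finrank K ↥(U ⊓ U.map (reflLin Q x)) + 1 = m := by
  have hxU : x ∉ U := fun h => hx (hU.1 x h)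
  have e : U ⊓ U.map (reflLin Q x) = U ⊓ orth Q (Submodule.span K {x}) := by
    ext y
    constructor
    · rintro ⟨hy1, u, hu, rfl⟩
      have hl : polar Q u x = 0 := by
        by_contra hne
        apply hxU
        rw [SetLike.mem_coe, reflLin_apply] at *
        have h2 : (polar Q u x / Q x) • x ∈ U := by
          have := U.sub_mem hu hy1
          simpa using this
        have h3 : polar Q u x / Q x ≠ 0 := div_ne_zero hne hx
        have := U.smul_mem (polar Q u x / Q x)⁻¹ h2
        rwa [smul_smul, inv_mul_cancel₀ h3, one_smul] at this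
      rw [reflLin_of_orth hl]
      refine ⟨hu, mem_orth_iff.2 ?_⟩
      intro z hz
      obtain ⟨c, rfl⟩ := Submodule.mem_span_singleton.1 hz
      rw [polar_smul_l, polar_comm, hl, mul_zero]
    · rintro ⟨hy1, hy2⟩
      refine ⟨hy1, y, hy1, reflLin_of_orth ?_⟩
      have := mem_orth_iff.1 hy2 x (Submodule.mem_span_singleton_self x)
      rw [polar_comm]
      exact this
  rw [e]
  have h := finrank_inf_orth hQ hdim hU hm (Submodule.span K {x})
  have hx0 : x ≠ 0 := fun h => hxU (h ▸ U.zero_mem)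
  rw [finrank_span_singleton hx0] at h
  have hd : U ⊓ Submodule.span K {x} = ⊥ := by
    rw [eq_bot_iff]
    rintro y ⟨hy1, hy2⟩
    obtain ⟨c, rfl⟩ := Submodule.mem_span_singleton.1 hy2
    by_cases hc : c = 0
    · simp [hc]
    · exfalso
      apply hxU
      have := U.smul_mem c⁻¹ hy1
      rwa [smul_smul, inv_mul_cancel₀ hc, one_smul] at this
  rw [hd, finrank_bot] at h
  omega

/-- The parity relation. -/
theorem parity_add {U W X : Submodule K V} (hU : MaxTS Q U) (hW : MaxTS Q W) (hX : MaxTS Q X) (hm : finrank K ↥U = m) :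
    Even (finrank K ↥(U ⊓ W) + finrank K ↥(U ⊓ X) + finrank K ↥(W ⊓ X) + m) := by
  have hmW : finrank K ↥W = m := (finrank_maxTS hQ hW hU).trans hm
  have hmX : finrank K ↥X = m := (finrank_maxTS hQ hX hU).trans hm
  generalize hk : m - finrank K ↥(W ⊓ X) = k
  induction k generalizing W with
  | zero =>
    have hle : W ⊓ X ≤ X := inf_le_right
    have h3 : finrank K ↥(W ⊓ X) ≤ finrank K ↥X := Submodule.finrank_mono hle
    have h4 : W ⊓ X = X := Submodule.eq_of_le_of_finrank_le hle (by omega)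
    have h5 : X ≤ W := by
      rw [← h4]
      exact inf_le_left
    have h6 := hX.2 W hW.1 h5
    subst h6
    rw [inf_idem, hmW]
    exact ⟨finrank K ↥(U ⊓ W) + m, by ring⟩
  | succ k ih =>
    obtain ⟨w, hw, hwW⟩ : ∃ w ∈ X, w ∉ W := by
      by_contra hall
      push Not at hall
      have h5 : W ⊓ X = X := inf_eq_right.2 hall
      rw [h5, hmX] at hk
      simp at hk
    obtain ⟨x, hx, hfr⟩ := exists_refl_step hW hX hw hwW
    have hW' := maxTS_map_refl hQ hW hx
    have hadj := adj_refl hQ hdim hW hmW hx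
    have h1 := ih hW' ((finrank_map_refl hQ W hx).trans hmW) (by rw [hfr]; omega)
    rcases flip hQ hdim hU hW hW' hm hadj with h2 | h2 <;> rw [Nat.even_iff] at h1 ⊢ <;> omega

/-- Parity of the image does not depend on the subspace. -/
lemma parity_indep {U₀ U : Submodule K V} (hU₀ : MaxTS Q U₀) (hU : MaxTS Q U) (hm : finrank K ↥U₀ = m)
    (z : V ≃ₗ[K] V) {c : K} (hc0 : c ≠ 0) (hz : ∀ v, Q (z v) = c * Q v) :
    Even (finrank K ↥(U₀ ⊓ U₀.map (z : V →ₗ[K] V)) + finrank K ↥(U ⊓ U.map (z : V →ₗ[K] V))) := by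
  have hzU₀ := hU₀.map_sim z hc0 hz
  have hzU := hU.map_sim z hc0 hz
  have h1 := parity_add hQ hdim hU₀ hzU₀ hzU hm
  have h2 := parity_add hQ hdim hU₀ hU hzU hm
  rw [finrank_map_inf] at h1
  rw [Nat.even_iff] at h1 h2 ⊢
  omega

/-- Parity is additive under composition. -/
lemma parity_mul {U₀ : Submodule K V} (hU₀ : MaxTS Q U₀) (hm : finrank K ↥U₀ = m)
    (z z' : V ≃ₗ[K] V) {c c' : K} (hc0 : c ≠ 0) (hz : ∀ v, Q (z v) = c * Q v) (hc'0 : c' ≠ 0) (hz' : ∀ v, Q (z' v) = c' * Q v) :
    Even (finrank K ↥(U₀ ⊓ U₀.map (z : V →ₗ[K] V)) + finrank K ↥(U₀ ⊓ U₀.map (z' : V →ₗ[K] V)) +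
      finrank K ↥(U₀ ⊓ U₀.map ((z * z' : V ≃ₗ[K] V) : V →ₗ[K] V)) + m) := by
  have hzU₀ := hU₀.map_sim z hc0 hz
  have hzz' : ∀ v, Q ((z * z' : V ≃ₗ[K] V) v) = (c * c') * Q v := by
    intro v
    rw [LinearEquiv.mul_apply, hz, hz', mul_assoc]
  have hzzU := hU₀.map_sim (z * z') (mul_ne_zero hc0 hc'0) hzz'
  have h1 := parity_add hQ hdim hU₀ hzU₀ hzzU hm
  have e : U₀.map ((z * z' : V ≃ₗ[K] V) : V →ₗ[K] V) = (U₀.map (z' : V →ₗ[K] V)).map (z : V →ₗ[K] V) := by
    ext y
    simp only [Submodule.mem_map, LinearEquiv.coe_coe, LinearEquiv.mul_apply]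
    constructor
    · rintro ⟨a, ha, rfl⟩
      exact ⟨z' a, ⟨a, ha, rfl⟩, rfl⟩
    · rintro ⟨_, ⟨a, ha, rfl⟩, rfl⟩
      exact ⟨a, ha, rfl⟩
  have h2 : finrank K ↥(U₀.map (z : V →ₗ[K] V) ⊓ U₀.map ((z * z' : V ≃ₗ[K] V) : V →ₗ[K] V)) =
      finrank K ↥(U₀ ⊓ U₀.map (z' : V →ₗ[K] V)) := by
    rw [e, finrank_map_inf]
  rw [h2] at h1
  rw [Nat.even_iff] at h1 ⊢
  omega

end flip

section coords

open Cfsg Cfsg.Agent.Lib.OrthoCount Cfsg.Agent.Lib.PgoPsi

variable {ι : Type} [Fintype ι] [DecidableEq ι] {f : (ι → K) → K} {q : QuadraticForm K (ι → K)}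
  {J : Type*} [Fintype J] [DecidableEq J] [Nonempty J] {u w : J → (ι → K)}

lemma cast_eq_of_even {a b : ℕ} (h : Even (a + b)) : (a : ZMod 2) = b := by
  have h1 : ((a + b : ℕ) : ZMod 2) = 0 := (ZMod.natCast_eq_zero_iff_even).2 h
  push_cast at h1
  have h2 : (b : ZMod 2) + b = 0 := by
    have : (2 : ZMod 2) = 0 := rfl
    linear_combination (b : ZMod 2) * this
  linear_combination h1 - h2

lemma maxTS_iff (hf : ∀ v, f v = q v) (U : Submodule K (ι → K)) : IsMaxTotallySingular f U ↔ MaxTS q U := by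
  have hts : ∀ W : Submodule K (ι → K), Geo.IsTotallySingularQuad f W ↔ TS q W := by
    intro W
    constructor
    · intro h x hx
      rw [← hf]
      exact h x hx
    · intro h x hx
      rw [hf]
      exact h x hx
  constructor
  · rintro ⟨h1, h2⟩
    exact ⟨(hts U).1 h1, fun W hW hle => h2 W ((hts W).2 hW) hle⟩
  · rintro ⟨h1, h2⟩
    exact ⟨(hts U).2 h1, fun W hW hle => h2 W ((hts W).1 hW) hle⟩

lemma HypData.finrank_U₀ (H : HypData q u w) : finrank K ↥H.U₀ = Fintype.card J := by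
  have h1 : LinearIndependent K u := by
    have := H.li.comp (Sum.inl : J → J ⊕ J) Sum.inl_injective
    exact this
  rw [HypData.U₀, finrank_span_eq_card h1]

/-- The homomorphism recording the action on the two classes. -/
theorem exists_chi (hf : ∀ v, f v = q v) (hQ : Nondeg q) (H : HypData q u w) :
    ∃ χ : CO f →* Multiplicative (ZMod 2), (∀ g : CO f, χ g = 1 ↔ PreservesSingularClasses f ((g : GL ι K) : Matrix ι ι K)) ∧
      (∀ (g : CO f) (x : ι → K), q x ≠ 0 → (∀ v, ((g : GL ι K) : Matrix ι ι K).mulVec v = reflLin q x v) →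
        χ g = Multiplicative.ofAdd 1) := by
  classical
  set m := Fintype.card J with hm
  have hdim : finrank K (ι → K) = 2 * m := H.dim
  have hU₀ := H.maxTS
  have hmU₀ : finrank K ↥H.U₀ = m := HypData.finrank_U₀ H
  have hsim : ∀ g : CO f, ∃ c : K, c ≠ 0 ∧ ∀ v, q (glEquiv (g : GL ι K) v) = c * q v := by
    intro g
    obtain ⟨c, hc⟩ := g.2
    refine ⟨c, c.ne_zero, fun v => ?_⟩
    rw [← hf, ← hf]
    exact hc v
  let dd : CO f → ℕ := fun g => finrank K ↥(H.U₀ ⊓ H.U₀.map ((glEquiv (g : GL ι K) : (ι → K) ≃ₗ[K] (ι → K)) : (ι → K) →ₗ[K] (ι → K)))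
  have hone : ((m + dd 1 : ℕ) : ZMod 2) = 0 := by
    have h1 : dd 1 = m := by
      change finrank K ↥(H.U₀ ⊓ H.U₀.map ((glEquiv ((1 : CO f) : GL ι K) : (ι → K) ≃ₗ[K] (ι → K)) : (ι → K) →ₗ[K] (ι → K))) = m
      have h2 : H.U₀.map ((glEquiv ((1 : CO f) : GL ι K) : (ι → K) ≃ₗ[K] (ι → K)) : (ι → K) →ₗ[K] (ι → K)) = H.U₀ := by
        have h3 : ((1 : CO f) : GL ι K) = 1 := rfl
        rw [h3, map_one]
        ext y
        simp
      rw [h2, inf_idem, hmU₀]
    rw [h1]
    exact (ZMod.natCast_eq_zero_iff_even).2 ⟨m, rfl⟩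
  have hmul : ∀ g g' : CO f, ((m + dd (g * g') : ℕ) : ZMod 2) = ((m + dd g : ℕ) : ZMod 2) + ((m + dd g' : ℕ) : ZMod 2) := by
    intro g g'
    obtain ⟨c, hc0, hc⟩ := hsim g
    obtain ⟨c', hc'0, hc'⟩ := hsim g'
    have h1 := parity_mul hQ hdim hU₀ hmU₀ (glEquiv (g : GL ι K)) (glEquiv (g' : GL ι K)) hc0 hc hc'0 hc'
    have e : dd (g * g') = finrank K ↥(H.U₀ ⊓ H.U₀.map (((glEquiv (g : GL ι K) * glEquiv (g' : GL ι K) : (ι → K) ≃ₗ[K] (ι → K))) : (ι → K) →ₗ[K] (ι → K))) := by
      change finrank K ↥(H.U₀ ⊓ H.U₀.map ((glEquiv ((g : GL ι K) * (g' : GL ι K)) : (ι → K) ≃ₗ[K] (ι → K)) : (ι → K) →ₗ[K] (ι → K))) = _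
      rw [map_mul]
    rw [e]
    set A := finrank K ↥(H.U₀ ⊓ H.U₀.map ((glEquiv (g : GL ι K) : (ι → K) ≃ₗ[K] (ι → K)) : (ι → K) →ₗ[K] (ι → K)))
    set B := finrank K ↥(H.U₀ ⊓ H.U₀.map ((glEquiv (g' : GL ι K) : (ι → K) ≃ₗ[K] (ι → K)) : (ι → K) →ₗ[K] (ι → K)))
    set C := finrank K ↥(H.U₀ ⊓ H.U₀.map (((glEquiv (g : GL ι K) * glEquiv (g' : GL ι K) : (ι → K) ≃ₗ[K] (ι → K))) : (ι → K) →ₗ[K] (ι → K)))
    change Even (A + B + C + m) at h1
    change ((m + C : ℕ) : ZMod 2) = ((m + A : ℕ) : ZMod 2) + ((m + B : ℕ) : ZMod 2)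
    rw [← Nat.cast_add]
    apply cast_eq_of_even
    rw [Nat.even_iff] at h1 ⊢
    omega
  let χ : CO f →* Multiplicative (ZMod 2) :=
    { toFun := fun g => Multiplicative.ofAdd ((m + dd g : ℕ) : ZMod 2)
      map_one' := by
        rw [hone]
        rfl
      map_mul' := fun g g' => by
        rw [hmul]
        rfl }
  have hχ : ∀ g, χ g = Multiplicative.ofAdd ((m + dd g : ℕ) : ZMod 2) := fun g => rfl
  refine ⟨χ, fun g => ?_, fun g x hx hg => ?_⟩
  · rw [hχ]
    obtain ⟨c, hc0, hc⟩ := hsim g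
    have himg : ∀ U : Submodule K (ι → K), imageSubmodule ((g : GL ι K) : Matrix ι ι K) U = U.map ((glEquiv (g : GL ι K) : (ι → K) ≃ₗ[K] (ι → K)) : (ι → K) →ₗ[K] (ι → K)) := by
      intro U
      rfl
    have h0 : Multiplicative.ofAdd ((m + dd g : ℕ) : ZMod 2) = 1 ↔ Even (m + dd g) := by
      rw [← ZMod.natCast_eq_zero_iff_even]
      exact ofAdd_eq_one
    rw [h0]
    have hle : ∀ U : Submodule K (ι → K), MaxTS q U → finrank K ↥U = m := fun U hU => (finrank_maxTS hQ hU hU₀).trans hmU₀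
    have hde : ∀ U : Submodule K (ι → K), MaxTS q U → finrank K ↥(U ⊓ U.map ((glEquiv (g : GL ι K) : (ι → K) ≃ₗ[K] (ι → K)) : (ι → K) →ₗ[K] (ι → K))) ≤ m := by
      intro U hU
      rw [← hle U hU]
      exact Submodule.finrank_mono inf_le_left
    constructor
    · intro h U hU
      have hU' := (maxTS_iff hf U).1 hU
      rw [SameParityClass, himg, hle U hU']
      have h2 := parity_indep hQ hdim hU₀ hU' hmU₀ (glEquiv (g : GL ι K)) hc0 hc
      have h3 := hde U hU'
      change Even (dd g + _) at h2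
      rw [Nat.even_iff] at h h2 ⊢
      omega
    · intro h
      have h1 := h H.U₀ ((maxTS_iff hf _).2 hU₀)
      rw [SameParityClass, himg, hmU₀] at h1
      have h3 := hde H.U₀ hU₀
      change Even (m - dd g) at h1
      change dd g ≤ m at h3
      rw [Nat.even_iff] at h1 ⊢
      omega
  · rw [hχ]
    have h1 : H.U₀.map ((glEquiv (g : GL ι K) : (ι → K) ≃ₗ[K] (ι → K)) : (ι → K) →ₗ[K] (ι → K)) = H.U₀.map (reflLin q x) := by
      ext y
      simp only [Submodule.mem_map]
      constructor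
      · rintro ⟨a, ha, rfl⟩
        exact ⟨a, ha, (hg a).symm⟩
      · rintro ⟨a, ha, rfl⟩
        exact ⟨a, ha, hg a⟩
    have h2 := adj_refl hQ hdim hU₀ hmU₀ hx
    have h3 : dd g + 1 = m := by
      change finrank K ↥(H.U₀ ⊓ H.U₀.map ((glEquiv (g : GL ι K) : (ι → K) ≃ₗ[K] (ι → K)) : (ι → K) →ₗ[K] (ι → K))) + 1 = m
      rw [h1]
      exact h2
    congr 1
    have h4 : ((1 : ℕ) : ZMod 2) = 1 := by simp
    rw [← h4]
    apply cast_eq_of_even
    rw [Nat.even_iff]
    omega

end coords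

end Cfsg.Agent.Lib.AutPOm
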