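import Cfsg.Agent.Lib.AutPOm.FieldAt
import Cfsg.Agent.Lib.AutPOm.Embed
import Cfsg.Agent.Lib.AutPOm.Parity
import Cfsg.Agent.Lib.PgoInndiag
import Cfsg.Agent.Lib.OrthoDickson

/-!
# The class-preserving similarities

In characteristic two the class-preserving similarities induce exactly the inner automorphisms.
-/

set_option autoImplicit false
set_option linter.unusedSectionVars false
set_option linter.unusedSimpArgs false
set_option linter.unusedVariables false

namespace Cfsg.Agent.Lib.AutPOm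

open Module QuadraticMap Cfsg.Agent.Lib.OrthoBasic Cfsg.Agent.Lib.OrthoSiegel Cfsg.Agent.Lib.OrthoGen
  Cfsg.Agent.Lib.OrthoFinal Cfsg.Agent.Lib.PgoPsi Cfsg.Agent.Lib.PgoGroup Cfsg.Agent.Lib.GammaCount
  Cfsg.Agent.Lib.Hilbert90 Cfsg.Agent.Lib.QuadFF Cfsg.Agent.Lib.QuadClass Cfsg.Agent.Lib.OrthoCount
  Cfsg.Agent.Lib.PgoParity Cfsg.Agent.Lib.PgoClass
open Cfsg Matrix

open Polynomial in
/-- A quadratic extension contains a root of every binary form without rational zeros. -/
lemma exists_root_quad {F K : Type*} [Field F] [Fintype F] [Field K] [Fintype K] [Algebra F K]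
    (hfin : Module.finrank F K = 2) (a b : F)
    (hab : ∀ z₁ z₂ : F, z₁ ^ 2 + a * z₁ * z₂ + b * z₂ ^ 2 = 0 → z₁ = 0 ∧ z₂ = 0) :
    ∃ r : K, r ^ 2 + algebraMap F K a * r + algebraMap F K b = 0 := by
  classical
  obtain ⟨K₀, _, _, _, θ, hK₀, H⟩ := Cfsg.Agent.Lib.QuadExt.exists_data (q := Fintype.card F) rfl a b hab
  set p : F[X] := X ^ 2 + C a * X + C b with hp
  have hdeg : p.natDegree = 2 := by
    rw [hp]
    compute_degree!
  have hmon : p.Monic := by
    rw [hp]
    monicity!
  have hirr : Irreducible p := by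
    apply irreducible_of_degree_le_three_of_not_isRoot
    · rw [hdeg]; simp
    · intro x hx
      have := hab x 1 (by
        simpa [hp, IsRoot] using hx)
      exact one_ne_zero this.2
  have hroot : aeval θ p = 0 := by
    have := H.root
    simpa [hp] using this
  have hKc : Fintype.card K = Fintype.card F ^ 2 := by
    rw [Module.card_eq_pow_finrank (K := F) (V := K), hfin]
  set Q := Fintype.card F ^ 2 with hQ
  have hdvd : p ∣ (X ^ Q - X : F[X]) := by
    rw [minpoly.eq_of_irreducible_of_monic hirr hroot hmon]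
    apply minpoly.dvd
    simp [← hK₀, FiniteField.pow_card]
  have hdvd' : p.map (algebraMap F K) ∣ (X ^ Q - X : K[X]) := by
    have := Polynomial.map_dvd (algebraMap F K) hdvd
    simpa using this
  have hne : (X ^ Q - X : K[X]) ≠ 0 := by
    rw [← hKc]
    exact FiniteField.X_pow_card_sub_X_ne_zero K Fintype.one_lt_card
  have hsplit : (X ^ Q - X : K[X]).Splits := by
    rw [← hKc]
    rw [Polynomial.splits_iff_card_roots, FiniteField.roots_X_pow_card_sub_X, FiniteField.X_pow_card_sub_X_natDegree_eq K Fintype.one_lt_card]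
    simp
  have hs2 := hsplit.of_dvd hne hdvd'
  have hdeg2 : (p.map (algebraMap F K)).degree ≠ 0 := by
    rw [degree_eq_natDegree (hmon.map _).ne_zero, natDegree_map, hdeg]
    norm_num
  obtain ⟨r, hr⟩ := hs2.exists_eval_eq_zero hdeg2
  refine ⟨r, ?_⟩
  simpa [hp, eval_add, eval_mul, eval_pow, eval_map] using hr

variable {ι : Type} [Fintype ι] [DecidableEq ι] {F : Type*} [Field F]

section scalars

variable {f : (ι → F) → F} 

/-- Scalars preserve the classes. -/
lemma preserves_scalar (f : (ι → F) → F) (c : Fˣ) : PreservesSingularClasses f ((sc c : GL ι F) : Matrix ι ι F) := by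
  intro U hU
  have h1 : imageSubmodule ((sc c : GL ι F) : Matrix ι ι F) U = U := by
    ext v
    constructor
    · rintro ⟨w, hw, rfl⟩
      change ((sc c : GL ι F) : Matrix ι ι F) *ᵥ w ∈ U
      rw [sc_mulVec]
      exact U.smul_mem _ hw
    · intro hv
      refine ⟨((c⁻¹ : Fˣ) : F) • v, U.smul_mem _ hv, ?_⟩
      change ((sc c : GL ι F) : Matrix ι ι F) *ᵥ (((c⁻¹ : Fˣ) : F) • v) = v
      rw [sc_mulVec, smul_smul]
      simp
  rw [SameParityClass, h1, inf_idem, Nat.sub_self]
  exact Even.zero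

end scalars

section char2

variable {f : (ι → F) → F} {q : QuadraticForm F (ι → F)} [Fintype F]

/-- Isometries as similarities. -/
def isoCO (f : (ι → F) → F) : isometryGroup F f →* CO f := Subgroup.inclusion (isometry_le_CO f)

lemma isoCO_coe (a : isometryGroup F f) : ((isoCO f a : CO f) : GL ι F) = (a : GL ι F) := rfl

/-- In characteristic two, a homomorphism on the similarities which is non-trivial on all reflections and trivial on scalars
detects the inner automorphisms. -/
theorem char2_main (hq : Even (Fintype.card F)) (S : Sys f q) (χ : CO f →* Multiplicative (ZMod 2))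
    (hrefl : ∀ (g : CO f) (x : ι → F), q x ≠ 0 → (∀ v, ((g : GL ι F) : Matrix ι ι F) *ᵥ v = reflLin q x v) → χ g = Multiplicative.ofAdd 1)
    (hsc : ∀ c, χ (scO S c) = 1) (g : CO f) :
    χ g = 1 ↔ dl g ∈ Inn (POmega F f) := by
  classical
  obtain ⟨fr⟩ := S.fr
  have hE := omega_eq_E S.hQ S.hgen fr
  set e := isoOG f q S.hf with he
  let D : OG q →* Multiplicative (ZMod 2) := χ.comp ((isoCO f).comp e.symm.toMonoidHom)
  have hDrefl : ∀ (x : ι → F) (hx : q x ≠ 0), D (refl S.hQ hx) = Multiplicative.ofAdd 1 := by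
    intro x hx
    apply hrefl _ x hx
    intro v
    change (((e.symm (refl S.hQ hx) : isometryGroup F f) : GL ι F) : Matrix ι ι F) *ᵥ v = _
    rw [← isoOG_apply f q S.hf, ← he, MulEquiv.apply_symm_apply, refl_apply]
  obtain ⟨x₀, hx₀⟩ := S.exists_value
  have hne : (Multiplicative.ofAdd (1 : ZMod 2)) ≠ 1 := by decide
  haveI : CharP F 2 := by
    have h2 : ringChar F = 2 := FiniteField.even_card_iff_char_two.2 (Nat.even_iff.1 hq)
    exact ringChar.of_eq h2
  have hcard := Cfsg.Agent.Lib.OrthoDickson.even_main hq S.hQ S.hgen fr hx₀ D (by rw [hDrefl]; exact hne)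
  haveI : Finite ((ι → F) ≃ₗ[F] (ι → F)) := Finite.of_injective (fun e => (e : (ι → F) → (ι → F))) DFunLike.coe_injective
  have hidx : (siegelE q).index = 2 := by
    have h1 := Subgroup.index_mul_card (siegelE q)
    rw [hcard] at h1
    have hpos : 0 < Nat.card (siegelE q) := Nat.card_pos
    exact Nat.eq_of_mul_eq_mul_right hpos h1
  have hD1 : ∀ a : isometryGroup F f, χ (isoCO f a) = D (e a) := by
    intro a
    change _ = χ (isoCO f (e.symm (e a)))
    rw [MulEquiv.symm_apply_apply]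
  have key1 : ∀ a : isometryGroup F f, χ (isoCO f a) = 1 → a ∈ Omega F f := by
    intro a ha
    rw [mem_omega_iff f q S.hf hE]
    by_contra hmem
    have hRE : refl S.hQ hx₀ ∉ siegelE q := by
      intro h
      have := Cfsg.Agent.Lib.OrthoChar.hom_E D S.hQ fr h
      rw [hDrefl] at this
      exact hne this
    have h1 : isoOG f q S.hf a * refl S.hQ hx₀ ∈ siegelE q := by
      rw [Subgroup.mul_mem_iff_of_index_two hidx]
      tauto
    have h2 := Cfsg.Agent.Lib.OrthoChar.hom_E D S.hQ fr h1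
    rw [map_mul, ← he, ← hD1, ha, one_mul, hDrefl] at h2
    exact hne h2
  have key2 : ∀ a ∈ Omega F f, χ (isoCO f a) = 1 := by
    intro a ha
    have h1 := Abelianization.commutator_subset_ker (χ.comp (isoCO f)) ha
    exact h1
  constructor
  · intro h
    obtain ⟨c, hc⟩ := g.2
    obtain ⟨d, hd0, hd⟩ := all_squares hq (c : F) c.ne_zero
    set D₁ : Fˣ := Units.mk0 d hd0 with hD₁
    set g' : CO f := scO S D₁⁻¹ * g with hg'
    have hiso : (g' : GL ι F) ∈ isometryGroup F f := by
      rw [mem_iso_iff]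
      intro u
      have e1 : ((g' : GL ι F) : Matrix ι ι F) *ᵥ u = ((D₁⁻¹ : Fˣ) : F) • (((g : GL ι F) : Matrix ι ι F) *ᵥ u) := by
        change ((sc D₁⁻¹ * (g : GL ι F) : GL ι F) : Matrix ι ι F) *ᵥ u = _
        rw [Units.val_mul, ← Matrix.mulVec_mulVec, sc_mulVec]
      rw [e1, S.hf, Q_sm, ← S.hf, hc, hd, hD₁]
      simp only [Units.val_inv_eq_inv_val, Units.val_mk0]
      field_simp
    have e2 : isoCO f ⟨(g' : GL ι F), hiso⟩ = g' := Subtype.ext rfl
    have h3 : χ g' = 1 := by
      rw [hg', map_mul, hsc, h, one_mul]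
    have h4 := key1 ⟨(g' : GL ι F), hiso⟩ (by rw [e2]; exact h3)
    rw [Inn_eq]
    refine ⟨g', ⟨⟨(g' : GL ι F), hiso⟩, h4, rfl⟩, ?_⟩
    rw [hg', map_mul]
    change dl _ * dl _ = dl _
    rw [dl_scO, one_mul]
  · intro h
    rw [Inn_eq] at h
    obtain ⟨g₁, ⟨s, hs, hsg⟩, hg₁⟩ := h
    obtain ⟨c, hc⟩ := (dl_eq_dl_iff S g g₁).1 hg₁.symm
    have e1 : g = scO S c * g₁ := Subtype.ext hc
    have e2 : g₁ = isoCO f s := Subtype.ext hsg.symm
    rw [e1, map_mul, hsc, one_mul, e2]
    exact key2 s hs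

/-- The same, as an equality of subgroups. -/
theorem char2_Inn (hq : Even (Fintype.card F)) (S : Sys f q) (χ : CO f →* Multiplicative (ZMod 2))
    (hrefl : ∀ (g : CO f) (x : ι → F), q x ≠ 0 → (∀ v, ((g : GL ι F) : Matrix ι ι F) *ᵥ v = reflLin q x v) → χ g = Multiplicative.ofAdd 1)
    (hsc : ∀ c, χ (scO S c) = 1) : Inn (POmega F f) = χ.ker.map (psiO f) := by
  have key := char2_main hq S χ hrefl hsc
  ext β
  constructor
  · intro hβ
    have h1 := hβ
    rw [Inn_eq] at h1
    obtain ⟨g, -, rfl⟩ := h1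
    exact ⟨g, (key g).2 hβ, rfl⟩
  · rintro ⟨g, hg, rfl⟩
    exact (key g).1 hg

end char2

section plus

variable [Fintype F]

lemma sys_plus {m : ℕ} (hm : 3 ≤ m) : Sys (quadFormPlus m F) (qPlus m F) := by
  obtain ⟨k, rfl⟩ : ∃ k, m = k + 3 := ⟨m - 3, by omega⟩
  exact ⟨fun v => (qPlus_apply _ v).symm, Cfsg.Agent.Lib.OrthoOrder.nondeg_qPlus _, genR_qPlus _, framePlus k⟩

lemma invAt_plus {m : ℕ} (τ : F ≃+* F) : InvAt (quadFormPlus m F) τ := by
  intro v
  simp [quadFormPlus, sv, map_sum]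

/-- The homomorphism recording the action on the two classes. -/
lemma exists_chi_plus (m : ℕ) (hm : 3 ≤ m) :
    ∃ χ : CO (quadFormPlus m F) →* Multiplicative (ZMod 2),
      (∀ g : CO (quadFormPlus m F), χ g = 1 ↔ PreservesSingularClasses (quadFormPlus m F) ((g : GL (Fin m ⊕ Fin m) F) : Matrix (Fin m ⊕ Fin m) (Fin m ⊕ Fin m) F)) ∧
      (∀ (g : CO (quadFormPlus m F)) (x : Fin m ⊕ Fin m → F), qPlus m F x ≠ 0 →
        (∀ v, ((g : GL (Fin m ⊕ Fin m) F) : Matrix (Fin m ⊕ Fin m) (Fin m ⊕ Fin m) F).mulVec v = reflLin (qPlus m F) x v) →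
        χ g = Multiplicative.ofAdd 1) := by
  have : Nonempty (Fin m) := ⟨⟨0, by omega⟩⟩
  exact exists_chi (fun v => (qPlus_apply m v).symm) (Cfsg.Agent.Lib.OrthoOrder.nondeg_qPlus m) (hypData_plus m)

/-- The inner-diagonal group of the plus form. -/
theorem inndiag_plus_eq (m : ℕ) (hm : 3 ≤ m) (χ : CO (quadFormPlus m F) →* Multiplicative (ZMod 2))
    (hχ : ∀ g : CO (quadFormPlus m F), χ g = 1 ↔ PreservesSingularClasses (quadFormPlus m F) ((g : GL (Fin m ⊕ Fin m) F) : Matrix (Fin m ⊕ Fin m) (Fin m ⊕ Fin m) F)) :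
    inndiagPOmegaPlus m F = χ.ker.map (psiO (quadFormPlus m F)) := by
  apply autSubgroupOf_eq
  intro β
  constructor
  · rintro ⟨g, hg, hP, hI⟩
    exact ⟨⟨g, hg⟩, (hχ ⟨g, hg⟩).2 hP, (PgoPsi.induced_iff _ ⟨g, hg⟩ β).1 hI⟩
  · rintro ⟨g, hg, rfl⟩
    exact ⟨g, g.2, (hχ g).1 hg, (PgoPsi.induced_iff _ g _).2 rfl⟩

/-- In characteristic two the inner-diagonal group is the inner group. -/
theorem inndiag_plus_char2 (hq : Even (Fintype.card F)) (m : ℕ) (hm : 3 ≤ m) :
    inndiagPOmegaPlus m F = Inn (POmega F (quadFormPlus m F)) := by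
  obtain ⟨χ, h1, h2⟩ := exists_chi_plus (F := F) m hm
  rw [inndiag_plus_eq m hm χ h1]
  refine (char2_Inn hq (sys_plus hm) χ h2 (fun c => ?_)).symm
  rw [h1]
  exact preserves_scalar _ c

end plus

section minus

universe u

variable {F : Type u} [Field F] [Fintype F]

lemma sys_minus {m : ℕ} (hm : 2 ≤ m) {a b : F} (hab : ∀ z₁ z₂ : F, z₁ ^ 2 + a * z₁ * z₂ + b * z₂ ^ 2 = 0 → z₁ = 0 ∧ z₂ = 0) :
    Sys (quadFormMinus m F a b) (qMinus m a b) := by
  obtain ⟨k, rfl⟩ : ∃ k, m = k + 2 := ⟨m - 2, by omega⟩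
  exact ⟨fun v => (qMinus_apply _ _ _ v).symm, Cfsg.Agent.Lib.OrthoOrder.nondeg_qMinus a b hab _, genR_qMinus a b hab _, frameMinus a b hab k⟩

lemma invAt_minus {m : ℕ} {a b : F} {τ : F ≃+* F} (ha : τ a = a) (hb : τ b = b) : InvAt (quadFormMinus m F a b) τ := by
  intro v
  simp [quadFormMinus, sv, map_sum, ha, hb]

/-- The discriminant of a binary form without zeros does not vanish. -/
lemma disc_ne_of_aniso {a b : F} (hab : ∀ z₁ z₂ : F, z₁ ^ 2 + a * z₁ * z₂ + b * z₂ ^ 2 = 0 → z₁ = 0 ∧ z₂ = 0) :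
    4 * b - a ^ 2 ≠ 0 := by
  by_cases h2 : (2 : F) = 0
  · have hch : ringChar F = 2 := by
      have hp := ringChar.charP F
      have h3 : ringChar F ∣ 2 := (CharP.cast_eq_zero_iff F (ringChar F) 2).1 (by exact_mod_cast h2)
      have h4 := CharP.char_is_prime_or_zero F (ringChar F)
      rcases h4 with h4 | h4
      · exact (Nat.prime_dvd_prime_iff_eq h4 Nat.prime_two).1 h3
      · rw [h4] at h3
        simp at h3
    haveI : CharP F 2 := ringChar.of_eq hch
    have ha := Cfsg.Agent.Lib.OrthoDickson.a_ne_zero hch hab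
    have e : 4 * b - a ^ 2 = - a ^ 2 := by
      have h4 : (4 : F) = 2 * 2 := by norm_num
      rw [h4, h2]
      ring
    rw [e]
    exact neg_ne_zero.2 (pow_ne_zero _ ha)
  · exact disc_ne a b h2 hab

/-- Nondegeneracy from the discriminant, in all characteristics. -/
lemma nondeg_qMinus_disc {K : Type*} [Field K] [Fintype K] (m : ℕ) {a b : K} (hd : 4 * b - a ^ 2 ≠ 0) : Nondeg (qMinus m a b) := by
  intro x hx
  by_contra hall
  push Not at hall
  apply hx
  have h1 : ∀ i, x (.inl (.inl i)) = 0 := by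
    intro i
    have := hall (Pi.single (.inl (.inr i)) 1)
    rw [polar_qMinus] at this
    simpa [Pi.single_apply] using this
  have h2' : ∀ i, x (.inl (.inr i)) = 0 := by
    intro i
    have := hall (Pi.single (.inl (.inl i)) 1)
    rw [polar_qMinus] at this
    simpa [Pi.single_apply] using this
  have h3 := hall (zvec m 1 0)
  have h4 := hall (zvec m 0 1)
  rw [polar_qMinus] at h3 h4
  simp at h3 h4
  have h5 : (4 * b - a ^ 2) * x (.inr 1) = 0 := by
    linear_combination 2 * h4 - a * h3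
  have h6 : (4 * b - a ^ 2) * x (.inr 0) = 0 := by
    linear_combination 2 * b * h3 - a * h4
  have h7 := (mul_eq_zero.1 h5).resolve_left hd
  have h8 := (mul_eq_zero.1 h6).resolve_left hd
  ext (i | i)
  · rcases i with i | i
    · exact h1 i
    · exact h2' i
  · fin_cases i
    · exact h8
    · exact h7

/-- Extension of scalars for the minus form. -/
lemma comp_minus {K : Type*} [Field K] (j : F →+* K) (m : ℕ) (a b : F) :
    Comp j (qMinus m a b) (qMinus m (j a) (j b)) := by
  refine ⟨fun v => ?_⟩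
  rw [qMinus_apply, qMinus_apply]
  simp [quadFormMinus, mapV, map_sum]

/-- The reflection over the larger field. -/
lemma glJ_reflLin {F₀ F₁ : Type*} [Field F₀] [Field F₁] {j : F₀ →+* F₁} {q₀ : QuadraticForm F₀ (ι → F₀)} {q₁ : QuadraticForm F₁ (ι → F₁)}
    (h : Comp j q₀ q₁) {g : GL ι F₀} {x : ι → F₀} (hg : ∀ v, (g : Matrix ι ι F₀) *ᵥ v = reflLin q₀ x v) (w : ι → F₁) :
    (glJ j g : GL ι F₁).1 *ᵥ w = reflLin q₁ (mapV j x) w := by
  have := lin_eq_on_map j (Matrix.toLin' (glJ j g : GL ι F₁).1) (reflLin q₁ (mapV j x)) (fun v => by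
    rw [Matrix.toLin'_apply, ← mapV_glJ, hg, reflLin_apply, reflLin_apply, h.polar, h.map]
    funext i
    simp [mapV])
  exact congrFun (congrArg DFunLike.coe this) w

variable {K : Type u} [Field K] [Algebra F K]

/-- Hyperbolic data over a quadratic extension. -/
lemma exists_chi_minus [Fintype K] (hfin : Module.finrank F K = 2) {m : ℕ} {a b : F}
    (hab : ∀ z₁ z₂ : F, z₁ ^ 2 + a * z₁ * z₂ + b * z₂ ^ 2 = 0 → z₁ = 0 ∧ z₂ = 0) :
    ∃ χ : CO (quadFormMinus m K (algebraMap F K a) (algebraMap F K b)) →* Multiplicative (ZMod 2),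
      (∀ g : CO (quadFormMinus m K (algebraMap F K a) (algebraMap F K b)), χ g = 1 ↔ PreservesSingularClasses (quadFormMinus m K (algebraMap F K a) (algebraMap F K b)) ((g : GL (Ix m) K) : Matrix (Ix m) (Ix m) K)) ∧
      (∀ (g : CO (quadFormMinus m K (algebraMap F K a) (algebraMap F K b))) (x : Ix m → K), qMinus m (algebraMap F K a) (algebraMap F K b) x ≠ 0 →
        (∀ v, ((g : GL (Ix m) K) : Matrix (Ix m) (Ix m) K).mulVec v = reflLin (qMinus m (algebraMap F K a) (algebraMap F K b)) x v) →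
        χ g = Multiplicative.ofAdd 1) := by
  obtain ⟨r, hr⟩ := exists_root_quad (K := K) hfin a b hab
  have hd : 4 * algebraMap F K b - algebraMap F K a ^ 2 ≠ 0 := by
    have := disc_ne_of_aniso hab
    intro h
    apply this
    apply (algebraMap F K).injective
    rw [map_zero, ← h]
    simp [map_ofNat]
  exact exists_chi (J := Fin m ⊕ Unit) (fun v => (qMinus_apply _ _ _ v).symm) (nondeg_qMinus_disc m hd) (hypData_minus m hr hd)

/-- The homomorphism on the similarities over `F` obtained from a quadratic extension. -/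
lemma exists_chiF_minus [Fintype K] (hfin : Module.finrank F K = 2) {m : ℕ} (hm : 2 ≤ m) {a b : F}
    (hab : ∀ z₁ z₂ : F, z₁ ^ 2 + a * z₁ * z₂ + b * z₂ ^ 2 = 0 → z₁ = 0 ∧ z₂ = 0) :
    ∃ χ : CO (quadFormMinus m F a b) →* Multiplicative (ZMod 2),
      (∀ g : CO (quadFormMinus m F a b), χ g = 1 ↔ PreservesSingularClasses (quadFormMinus m K (algebraMap F K a) (algebraMap F K b))
        (((g : GL (Ix m) F) : Matrix (Ix m) (Ix m) F).map (algebraMap F K))) ∧
      (∀ (g : CO (quadFormMinus m F a b)) (x : Ix m → F), qMinus m a b x ≠ 0 →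
        (∀ v, ((g : GL (Ix m) F) : Matrix (Ix m) (Ix m) F) *ᵥ v = reflLin (qMinus m a b) x v) → χ g = Multiplicative.ofAdd 1) ∧
      (∀ c, χ (scO (sys_minus hm hab) c) = 1) := by
  obtain ⟨χK, h1, h2⟩ := exists_chi_minus (K := K) (m := m) hfin hab
  have hcomp := comp_minus (algebraMap F K) m a b
  let mp := mapCO hcomp (f₀ := quadFormMinus m F a b) (f := quadFormMinus m K (algebraMap F K a) (algebraMap F K b))
    (fun v => (qMinus_apply _ _ _ v).symm) (fun v => (qMinus_apply _ _ _ v).symm)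
  have S := sys_minus hm hab
  refine ⟨χK.comp mp, fun g => ?_, fun g x hx hg => ?_, fun c => ?_⟩
  · rw [MonoidHom.comp_apply, h1]
    rfl
  · rw [MonoidHom.comp_apply]
    apply h2 (mp g) (mapV (algebraMap F K) x)
    · rw [hcomp.map]
      exact (map_ne_zero _).2 hx
    · exact glJ_reflLin hcomp hg
  · rw [MonoidHom.comp_apply, h1]
    have : ((mp (scO S c) : CO _) : GL (Ix m) K) = sc (Units.map (algebraMap F K : F →* K) c) := by
      apply Units.ext
      ext i k
      change (algebraMap F K) (((sc c : GL (Ix m) F) : Matrix (Ix m) (Ix m) F) i k) = _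
      simp [sc_coe, Matrix.scalar_apply, Matrix.diagonal_apply]
      split_ifs <;> simp
    rw [this]
    exact preserves_scalar _ _

/-- The class-preserving similarities over a quadratic extension, in characteristic two. -/
theorem preserves_over_char2 [Fintype K] (hq : Even (Fintype.card F)) (hfin : Module.finrank F K = 2) {m : ℕ} (hm : 2 ≤ m) {a b : F}
    (hab : ∀ z₁ z₂ : F, z₁ ^ 2 + a * z₁ * z₂ + b * z₂ ^ 2 = 0 → z₁ = 0 ∧ z₂ = 0) (g : CO (quadFormMinus m F a b)) :
    PreservesSingularClasses (quadFormMinus m K (algebraMap F K a) (algebraMap F K b))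
        (((g : GL (Ix m) F) : Matrix (Ix m) (Ix m) F).map (algebraMap F K)) ↔ dl g ∈ Inn (POmega F (quadFormMinus m F a b)) := by
  obtain ⟨χ, h1, h2, h3⟩ := exists_chiF_minus (K := K) hfin hm hab
  rw [← h1, char2_main hq (sys_minus hm hab) χ h2 h3 g]

/-- The class-preserving similarities, in characteristic two. -/
theorem preservesMinus_char2 (hq : Even (Fintype.card F)) {m : ℕ} (hm : 2 ≤ m) {a b : F}
    (hab : ∀ z₁ z₂ : F, z₁ ^ 2 + a * z₁ * z₂ + b * z₂ ^ 2 = 0 → z₁ = 0 ∧ z₂ = 0) (g : CO (quadFormMinus m F a b)) :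
    PreservesSingularClassesMinus m a b ((g : GL (Ix m) F) : Matrix (Ix m) (Ix m) F) ↔ dl g ∈ Inn (POmega F (quadFormMinus m F a b)) := by
  constructor
  · rintro ⟨K, _, _, hfin, h⟩
    have : Module.Finite F K := Module.finite_of_finrank_pos (by omega)
    have : Finite K := Module.finite_of_finite F
    have : Fintype K := Fintype.ofFinite K
    exact (preserves_over_char2 hq hfin hm hab g).1 h
  · intro h
    obtain ⟨K, _, _, _, θ, hK, H⟩ := Cfsg.Agent.Lib.QuadExt.exists_data (q := Fintype.card F) rfl a b hab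
    have hfin : Module.finrank F K = 2 := by
      have h3 := Module.card_eq_pow_finrank (K := F) (V := K)
      rw [hK] at h3
      exact (Nat.pow_right_injective (Fintype.one_lt_card)).eq_iff.1 h3.symm
    exact ⟨K, inferInstance, inferInstance, hfin, (preserves_over_char2 hq hfin hm hab g).2 h⟩

/-- In characteristic two the inner-diagonal group is the inner group. -/
theorem inndiag_minus_char2 (hq : Even (Fintype.card F)) {m : ℕ} (hm : 2 ≤ m) {a b : F}
    (hab : ∀ z₁ z₂ : F, z₁ ^ 2 + a * z₁ * z₂ + b * z₂ ^ 2 = 0 → z₁ = 0 ∧ z₂ = 0) :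
    inndiagPOmegaMinus m F a b = Inn (POmega F (quadFormMinus m F a b)) := by
  have h1 : inndiagPOmegaMinus m F a b = ((Inn (POmega F (quadFormMinus m F a b))).comap (psiO (quadFormMinus m F a b))).map (psiO (quadFormMinus m F a b)) := by
    apply autSubgroupOf_eq
    intro β
    constructor
    · rintro ⟨g, hg, hP, hI⟩
      exact ⟨⟨g, hg⟩, (preservesMinus_char2 hq hm hab ⟨g, hg⟩).1 hP, (PgoPsi.induced_iff _ ⟨g, hg⟩ β).1 hI⟩
    · rintro ⟨g, hg, rfl⟩
      exact ⟨g, g.2, (preservesMinus_char2 hq hm hab g).2 hg, (PgoPsi.induced_iff _ g _).2 rfl⟩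
  rw [h1]
  apply le_antisymm
  · rintro _ ⟨g, hg, rfl⟩
    exact hg
  · intro β hβ
    have h2 := hβ
    rw [Inn_eq] at h2
    obtain ⟨g, -, rfl⟩ := h2
    exact ⟨g, hβ, rfl⟩

/-- The homomorphism on the similarities in characteristic two, with no extension in sight. -/
lemma exists_chi2_minus {m : ℕ} (hm : 2 ≤ m) {a b : F}
    (hab : ∀ z₁ z₂ : F, z₁ ^ 2 + a * z₁ * z₂ + b * z₂ ^ 2 = 0 → z₁ = 0 ∧ z₂ = 0) :
    ∃ χ : CO (quadFormMinus m F a b) →* Multiplicative (ZMod 2),
      (∀ (g : CO (quadFormMinus m F a b)) (x : Ix m → F), qMinus m a b x ≠ 0 →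
        (∀ v, ((g : GL (Ix m) F) : Matrix (Ix m) (Ix m) F) *ᵥ v = reflLin (qMinus m a b) x v) → χ g = Multiplicative.ofAdd 1) ∧
      (∀ c, χ (scO (sys_minus hm hab) c) = 1) := by
  obtain ⟨K, _, _, _, θ, hK, H⟩ := Cfsg.Agent.Lib.QuadExt.exists_data (q := Fintype.card F) rfl a b hab
  have hfin : Module.finrank F K = 2 := by
    have h3 := Module.card_eq_pow_finrank (K := F) (V := K)
    rw [hK] at h3
    exact (Nat.pow_right_injective (Fintype.one_lt_card)).eq_iff.1 h3.symm
  obtain ⟨χ, -, h2, h3⟩ := exists_chiF_minus (K := K) hfin hm hab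
  exact ⟨χ, h2, h3⟩

end minus

end Cfsg.Agent.Lib.AutPOm
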