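import Cfsg.Agent.Lib.AutPOm.Basic
import Cfsg.Agent.Lib.QuadClass2

/-!
# Descent of quadratic forms to the fixed field
-/

set_option autoImplicit false
set_option linter.unusedSectionVars false
set_option linter.unusedSimpArgs false
set_option linter.unusedVariables false

namespace Cfsg.Agent.Lib.AutPOm

open Module QuadraticMap Cfsg.Agent.Lib.OrthoBasic Cfsg.Agent.Lib.OrthoSiegel Cfsg.Agent.Lib.OrthoGen
  Cfsg.Agent.Lib.OrthoFinal Cfsg.Agent.Lib.PgoPsi Cfsg.Agent.Lib.PgoGroup Cfsg.Agent.Lib.GammaCount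
  Cfsg.Agent.Lib.Hilbert90 Cfsg.Agent.Lib.QuadFF Cfsg.Agent.Lib.QuadClass Cfsg.Agent.Lib.OrthoCount
open Cfsg Matrix

variable {ι : Type} [Fintype ι] [DecidableEq ι] {F : Type*} [Field F]

section emb

variable (σ : F ≃+* F)

/-- Coordinatewise inclusion of the fixed field. -/
def emb (v : ι → fixedF σ) : ι → F := fun i => (v i : F)

lemma emb_add (v w : ι → fixedF σ) : emb σ (v + w) = emb σ v + emb σ w := rfl

lemma emb_smul (c : fixedF σ) (v : ι → fixedF σ) : emb σ (c • v) = (c : F) • emb σ v := rfl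

lemma sv_emb (v : ι → fixedF σ) : sv σ (emb σ v) = emb σ v := by
  funext i
  exact (v i).2

lemma emb_injective : Function.Injective (emb (ι := ι) σ) := by
  intro v w h
  funext i
  exact Subtype.ext (congrFun h i)

/-- `GL` over the fixed field, in `GL` over `F`. -/
def glEmb : GL ι (fixedF σ) →* GL ι F := Matrix.GeneralLinearGroup.map (fixedF σ).subtype

lemma glEmb_coe (P : GL ι (fixedF σ)) :
    ((glEmb σ P : GL ι F) : Matrix ι ι F) = (P : Matrix ι ι (fixedF σ)).map (fixedF σ).subtype := rfl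

lemma glMap_glEmb (P : GL ι (fixedF σ)) : glMap σ (glEmb σ P) = glEmb σ P := by
  apply Units.ext
  ext i j
  exact ((P : Matrix ι ι (fixedF σ)) i j).2

lemma emb_mulVec (P : Matrix ι ι (fixedF σ)) (v : ι → fixedF σ) :
    emb σ (P *ᵥ v) = (P.map (fixedF σ).subtype) *ᵥ emb σ v := by
  funext i
  exact RingHom.map_mulVec (fixedF σ).subtype P v i

lemma emb_glEmb (P : GL ι (fixedF σ)) (v : ι → fixedF σ) :
    emb σ ((P : Matrix ι ι (fixedF σ)) *ᵥ v) = (glEmb σ P : GL ι F).1 *ᵥ emb σ v :=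
  emb_mulVec σ _ v

lemma emb_single (i : ι) : emb σ (Pi.single i (1 : fixedF σ)) = Pi.single i (1 : F) := by
  funext j
  by_cases h : j = i
  · subst h
    simp [emb]
  · simp [emb, Pi.single_apply, h]

/-- Two forms over `F` which agree on the `K`-rational vectors agree. -/
lemma eq_of_eq_on_emb (Q₁ Q₂ : QuadraticForm F (ι → F)) (h : ∀ v : ι → fixedF σ, Q₁ (emb σ v) = Q₂ (emb σ v))
    (x : ι → F) : Q₁ x = Q₂ x := by
  apply eq_on_basis (Pi.basisFun F ι) Q₁ Q₂
  · intro i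
    rw [Pi.basisFun_apply, ← emb_single σ]
    exact h _
  · intro i j
    rw [Pi.basisFun_apply, Pi.basisFun_apply, ← emb_single σ, ← emb_single σ]
    simp only [polar]
    rw [← emb_add, h, h, h]

/-- A `σ`-invariant form with a non-zero value has such a value at a fixed vector. -/
lemma exists_fixed_ne (Q₁ : QuadraticForm F (ι → F)) (h : ∃ x, Q₁ x ≠ 0) :
    ∃ v : ι → fixedF σ, Q₁ (emb σ v) ≠ 0 := by
  by_contra hcon
  push Not at hcon
  obtain ⟨x, hx⟩ := h
  apply hx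
  have := eq_of_eq_on_emb σ Q₁ 0 (fun v => by rw [hcon v]; rfl) x
  simpa using this

/-- The descent of a `σ`-invariant form. -/
noncomputable def descQ (Q₂ : QuadraticForm F (ι → F)) (hinv : ∀ v, Q₂ (sv σ v) = σ (Q₂ v)) :
    QuadraticForm (fixedF σ) (ι → fixedF σ) :=
  QuadraticMap.ofPolar (fun v => ⟨Q₂ (emb σ v), by
      rw [mem_fixedF, ← hinv, sv_emb]⟩)
    (by
      intro a x
      apply Subtype.ext
      change Q₂ (emb σ (a • x)) = (a : F) * (a : F) * Q₂ (emb σ x)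
      rw [emb_smul, Q_sm]
      ring)
    (by
      intro x x' y
      apply Subtype.ext
      change Q₂ (emb σ (x + x' + y)) - Q₂ (emb σ (x + x')) - Q₂ (emb σ y) =
        (Q₂ (emb σ (x + y)) - Q₂ (emb σ x) - Q₂ (emb σ y)) + (Q₂ (emb σ (x' + y)) - Q₂ (emb σ x') - Q₂ (emb σ y))
      simp only [emb_add]
      have h1 := QuadraticMap.polar_add_left (Q := Q₂) (emb σ x) (emb σ x') (emb σ y)
      simp only [polar] at h1
      exact h1)
    (by
      intro a x y
      apply Subtype.ext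
      change Q₂ (emb σ (a • x + y)) - Q₂ (emb σ (a • x)) - Q₂ (emb σ y) =
        (a : F) * (Q₂ (emb σ (x + y)) - Q₂ (emb σ x) - Q₂ (emb σ y))
      simp only [emb_add, emb_smul]
      have h1 := QuadraticMap.polar_smul_left (Q := Q₂) (a : F) (emb σ x) (emb σ y)
      simp only [polar] at h1
      rw [h1]
      rfl)

lemma coe_descQ (Q₂ : QuadraticForm F (ι → F)) (hinv : ∀ v, Q₂ (sv σ v) = σ (Q₂ v)) (v : ι → fixedF σ) :
    ((descQ σ Q₂ hinv v : fixedF σ) : F) = Q₂ (emb σ v) := rfl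

lemma coe_polar_descQ (Q₂ : QuadraticForm F (ι → F)) (hinv : ∀ v, Q₂ (sv σ v) = σ (Q₂ v)) (x y : ι → fixedF σ) :
    ((polar (descQ σ Q₂ hinv) x y : fixedF σ) : F) = polar Q₂ (emb σ x) (emb σ y) := rfl

lemma ND_descQ (Q₂ : QuadraticForm F (ι → F)) (hinv : ∀ v, Q₂ (sv σ v) = σ (Q₂ v)) (h : ND Q₂) :
    ND (descQ σ Q₂ hinv) := by
  intro x hx
  apply emb_injective σ
  have h0 : emb σ (0 : ι → fixedF σ) = 0 := rfl
  rw [h0]
  apply h
  intro y
  have h1 : ∀ i, polar Q₂ (emb σ x) (Pi.single i 1) = 0 := by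
    intro i
    rw [← emb_single σ, ← coe_polar_descQ σ Q₂ hinv, hx]
    rfl
  have h2 : polarBilin Q₂ (emb σ x) = 0 := by
    apply (Pi.basisFun F ι).ext
    intro i
    rw [Pi.basisFun_apply]
    exact h1 i
  exact congrFun (congrArg DFunLike.coe h2) y

end emb

/-- An invertible linear map as a matrix. -/
noncomputable def glOf {K : Type*} [Field K] (T : (ι → K) ≃ₗ[K] (ι → K)) : GL ι K where
  val := LinearMap.toMatrix' (T : (ι → K) →ₗ[K] (ι → K))
  inv := LinearMap.toMatrix' (T.symm : (ι → K) →ₗ[K] (ι → K))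
  val_inv := by
    rw [← LinearMap.toMatrix'_comp]
    simp
  inv_val := by
    rw [← LinearMap.toMatrix'_comp]
    simp

lemma glOf_mulVec {K : Type*} [Field K] (T : (ι → K) ≃ₗ[K] (ι → K)) (v : ι → K) :
    (glOf T).1 *ᵥ v = T v := by
  change LinearMap.toMatrix' (T : (ι → K) →ₗ[K] (ι → K)) *ᵥ v = T v
  rw [LinearMap.toMatrix'_mulVec]
  rfl

lemma polar_qOdd' {K : Type*} [Field K] {m : ℕ} (x y : Unit ⊕ (Fin m ⊕ Fin m) → K) :
    polar (qOdd m K) x y = 2 * x (Sum.inl ()) * y (Sum.inl ()) +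
      ∑ i, (x (Sum.inr (Sum.inl i)) * y (Sum.inr (Sum.inr i)) + y (Sum.inr (Sum.inl i)) * x (Sum.inr (Sum.inr i))) := by
  simp only [polar, qOdd_apply, quadFormOdd, Pi.add_apply, add_mul, mul_add, Finset.sum_add_distrib]
  ring

/-- Nondegenerate forms in odd dimension are similar to the standard one. -/
theorem odd_similar {K : Type*} [Field K] [Finite K] {m : ℕ}
    (Q₀ : QuadraticForm K (Unit ⊕ (Fin m ⊕ Fin m) → K)) (hQ₀ : ND Q₀) :
    ∃ (P : GL (Unit ⊕ (Fin m ⊕ Fin m)) K) (a : Kˣ), ∀ v, Q₀ (P.1 *ᵥ v) = a * quadFormOdd m K v := by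
  classical
  have hV : finrank K (Unit ⊕ (Fin m ⊕ Fin m) → K) = 2 * m + 1 := by
    rw [Module.finrank_fintype_fun_eq_card]
    simp only [Fintype.card_sum, Fintype.card_unit, Fintype.card_fin]
    ring
  obtain ⟨b, h1, h2, h3, h4, h5⟩ := exists_standard_odd hV Q₀ hQ₀
  set d := Q₀ (b (Sum.inl ())) with hd
  let D : Kˣ := Units.mk0 d h1
  let w : Unit ⊕ (Fin m ⊕ Fin m) → Kˣ := Sum.elim (fun _ => 1) (Sum.elim (fun _ => D) (fun _ => 1))
  let b' := b.unitsSMul w
  have hb' : ∀ i, b' i = w i • b i := fun i => Module.Basis.unitsSMul_apply i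
  have hb1 : b' (Sum.inl ()) = b (Sum.inl ()) := by
    rw [hb']
    simp [w]
  have hb2 : ∀ i, b' (Sum.inr (Sum.inl i)) = d • b (Sum.inr (Sum.inl i)) := by
    intro i
    rw [hb']
    rfl
  have hb3 : ∀ i, b' (Sum.inr (Sum.inr i)) = b (Sum.inr (Sum.inr i)) := by
    intro i
    rw [hb']
    simp [w]
  let T := (Pi.basisFun K (Unit ⊕ (Fin m ⊕ Fin m))).equiv b' (Equiv.refl _)
  have hT : ∀ i, T (Pi.single i 1) = b' i := by
    intro i
    have := (Pi.basisFun K (Unit ⊕ (Fin m ⊕ Fin m))).equiv_apply i b' (Equiv.refl _)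
    rwa [Pi.basisFun_apply] at this
  refine ⟨glOf T, D, fun v => ?_⟩
  rw [glOf_mulVec]
  let T' : (Unit ⊕ (Fin m ⊕ Fin m) → K) →ₗ[K] (Unit ⊕ (Fin m ⊕ Fin m) → K) := T
  have hT' : ∀ i, T' (Pi.single i 1) = b' i := hT
  have hform : ∀ x, (Q₀.comp T') x = ((D : K) • qOdd m K) x := by
    apply eq_on_basis (Pi.basisFun K (Unit ⊕ (Fin m ⊕ Fin m)))
    · intro i
      rw [Pi.basisFun_apply]
      change Q₀ (T' (Pi.single i 1)) = (D : K) * qOdd m K (Pi.single i 1)
      rw [hT', qOdd_apply]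
      rcases i with ⟨⟩ | i | i
      · rw [hb1]
        simp [quadFormOdd, D, hd, Pi.single_apply]
      · rw [hb2, Q_sm, (h3 i).1]
        simp [quadFormOdd, Pi.single_apply]
      · rw [hb3, (h3 i).2]
        simp [quadFormOdd, Pi.single_apply]
    · intro i j
      rw [Pi.basisFun_apply, Pi.basisFun_apply]
      have e1 : polar (Q₀.comp T') (Pi.single i 1) (Pi.single j 1) = polar Q₀ (b' i) (b' j) := by
        simp only [polar, QuadraticMap.comp_apply, map_add, hT']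
      have e2 : polar (((D : K) • qOdd m K) : QuadraticForm K _) (Pi.single i 1) (Pi.single j 1) =
          (D : K) * polar (qOdd m K) (Pi.single i 1) (Pi.single j 1) := by
        simp only [polar, _root_.smul_apply, smul_eq_mul]
        ring
      rw [e1, e2, polar_qOdd']
      rcases i with ⟨⟩ | i | i <;> rcases j with ⟨⟩ | j | j
      · rw [hb1]
        rw [QuadFF.polar_self_eq]
        simp [D, hd, Pi.single_apply]
        ring
      · rw [hb1, hb2, polar_sm_r, (h2 j).1]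
        simp [Pi.single_apply]
      · rw [hb1, hb3, (h2 j).2]
        simp [Pi.single_apply]
      · rw [hb1, hb2, polar_sm_l, QuadraticMap.polar_comm, (h2 i).1]
        simp [Pi.single_apply]
      · rw [hb2, hb2, polar_sm_l, polar_sm_r, (h5 i j).1]
        simp [Pi.single_apply]
      · rw [hb2, hb3, polar_sm_l, h4 i j]
        simp [Pi.single_apply, D]
        exact if_congr eq_comm rfl rfl
      · rw [hb1, hb3, QuadraticMap.polar_comm, (h2 i).2]
        simp [Pi.single_apply]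
      · rw [hb2, hb3, polar_sm_r, QuadraticMap.polar_comm, h4 j i]
        simp [Pi.single_apply, D]
        exact if_congr eq_comm rfl rfl
      · rw [hb3, hb3, (h5 i j).2]
        simp [Pi.single_apply]
  have := hform v
  change Q₀ (T' v) = _
  simpa [qOdd_apply] using this

/-! ### The Lang step -/

section lang

variable {σ : F ≃+* F}

/-- Data: a form with the standard facts needed for the kernel of the action. -/
structure Sys (f : (ι → F) → F) (q : QuadraticForm F (ι → F)) : Prop where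
  hf : ∀ v, f v = q v
  hQ : Nondeg q
  hgen : genR q = ⊤
  fr : Nonempty (Frame q)

variable {f : (ι → F) → F} {q : QuadraticForm F (ι → F)}

lemma scalar_of_gs_eq_one [Fintype F] (S : Sys f q) {g : GL ι F} {τ : F ≃+* F} (h : IsSemisimilarityPair f g τ)
    (hτ : τ = RingEquiv.refl F) (hy : gs h = 1) : ∃ c : Fˣ, g = sc c := by
  subst hτ
  obtain ⟨fr⟩ := S.fr
  obtain ⟨l, hl⟩ := scalar_of_one f S.hf S.hQ S.hgen fr h hy
  classical
  have hl0 : l ≠ 0 := by
    rintro rfl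
    have hinj := Matrix.mulVec_injective_iff_isUnit.2 g.isUnit
    have h1 : (g : Matrix ι ι F) = 0 := by
      ext i j
      have := congrFun (hl (Pi.single j 1)) i
      simpa using this
    have hfr : Nontrivial (ι → F) := by
      by_contra hn
      rw [not_nontrivial_iff_subsingleton] at hn
      exact fr.h₁.ne_zero_left (Subsingleton.elim _ _)
    obtain ⟨x, y, hxy⟩ := hfr
    apply hxy
    apply hinj
    simp [h1]
  refine ⟨Units.mk0 l hl0, ?_⟩
  apply Units.ext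
  ext i j
  have := congrFun (hl (Pi.single j 1)) i
  simp only [Matrix.mulVec_single, MulOpposite.op_one, one_smul, Matrix.col_apply, Pi.smul_apply, smul_eq_mul] at this
  rw [this, sc_coe]
  simp [Matrix.scalar_apply, Matrix.diagonal_apply, Pi.single_apply]

lemma gs_eq_one_right [Fintype F] (S : Sys f q) {g : GL ι F} {τ : F ≃+* F} (h : IsSemisimilarityPair f g τ)
    (hy : gs h = 1) : τ = RingEquiv.refl F := by
  obtain ⟨fr⟩ := S.fr
  exact sigma_eq_refl f S.hf S.hQ S.hgen fr h hy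

lemma sc_inj [Nonempty ι] {c d : Fˣ} (h : (sc c : GL ι F) = sc d) : c = d := by
  have h1 := congrArg (fun x : GL ι F => (x : Matrix ι ι F)) h
  simp only [sc_coe] at h1
  obtain ⟨i⟩ := ‹Nonempty ι›
  have h2 := congrFun (congrFun h1 i) i
  simp only [Matrix.scalar_apply, Matrix.diagonal_apply_eq] at h2
  exact Units.ext h2

/-- The Lang step: up to a scalar, `g` is `h σ(h)⁻¹`, and the form read through `h` is, up to a scalar,
`σ`-invariant. -/
theorem lang_core [Fintype F] (S : Sys f q) {r : ℕ} (hr : 0 < r) (hord : orderOf σ = r)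
    (hinv : ∀ v, f (sv σ v) = σ (f v)) {g : GL ι F} (hg : IsSemisimilarityPair f g σ)
    (hy : (gs hg) ^ r = 1) :
    ∃ (h : GL ι F) (d e : Fˣ), g * glMap σ h = sc d * h ∧
      ∀ v, e * f ((h : Matrix ι ι F) *ᵥ sv σ v) = σ (e * f ((h : Matrix ι ι F) *ᵥ v)) := by
  classical
  have hσr : σ ^ r = 1 := by rw [← hord]; exact pow_orderOf_eq_one σ
  rw [gs_pow] at hy
  obtain ⟨c, hc⟩ := scalar_of_gs_eq_one S (semisim_nrm hg r) hσr hy
  have hne : Nonempty ι := by
    by_contra hn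
    rw [not_nonempty_iff] at hn
    obtain ⟨fr⟩ := S.fr
    apply fr.h₁.ne_zero_left
    funext i
    exact hn.elim i
  -- `c` is fixed
  have hc1 : Units.map (σ : F →* F) c = c := by
    have h1 := nrmG_succ σ g r
    rw [nrmG_succ', hσr, glMap_one', hc, glMap_sc, ← sc_comm] at h1
    exact (sc_inj (mul_right_cancel h1)).symm
  have hc2 : σ (c : F) = c := congrArg Units.val hc1
  obtain ⟨d, hd, hdn⟩ := Cfsg.Agent.Lib.AutPSL.exists_norm_eq σ hr hord c.ne_zero hc2
  set D : Fˣ := Units.mk0 d hd with hD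
  obtain ⟨e, he, hk⟩ := nrmG_sc_mul σ g D⁻¹ r
  have he' : e = c⁻¹ := by
    apply Units.ext
    rw [he, Units.val_inv_eq_inv_val, Units.val_inv_eq_inv_val, ← hdn]
    change pnorm σ (d⁻¹) r = (pnorm σ d r)⁻¹
    simp [pnorm, Finset.prod_inv_distrib, map_inv₀]
  set g' : GL ι F := sc D⁻¹ * g with hg'
  have hN : nrmG σ g' r = 1 := by
    rw [hk, hc, he', sc_inv, inv_mul_cancel]
  obtain ⟨h, hh⟩ := h90_G σ hr hord g' hN
  -- multiplier of `g'`
  obtain ⟨c₀, hc₀'⟩ := hg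
  have hc₀ : ∀ v, f ((g : Matrix ι ι F) *ᵥ sv σ v) = (c₀ : F) * σ (f v) := hc₀'
  have hfq := S.hf
  have hfs : ∀ (a : F) (w : ι → F), f (a • w) = a ^ 2 * f w := by
    intro a w
    rw [hfq, hfq, Q_sm]
  have hg's : ∀ v, f ((g' : Matrix ι ι F) *ᵥ sv σ v) = ((D⁻¹ : Fˣ) : F) ^ 2 * ((c₀ : F) * σ (f v)) := by
    intro v
    have e1 : ((g' : GL ι F) : Matrix ι ι F) *ᵥ sv σ v = ((D⁻¹ : Fˣ) : F) • ((g : Matrix ι ι F) *ᵥ sv σ v) := by
      rw [hg', Units.val_mul, ← Matrix.mulVec_mulVec, sc_mulVec]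
    rw [e1, hfs, hc₀]
  set c' : F := ((D⁻¹ : Fˣ) : F) ^ 2 * (c₀ : F) with hc'
  have hc'0 : c' ≠ 0 := mul_ne_zero (pow_ne_zero _ (D⁻¹).ne_zero) c₀.ne_zero
  have hstep : ∀ v, f ((h : Matrix ι ι F) *ᵥ sv σ v) = c' * σ (f ((h : Matrix ι ι F) *ᵥ v)) := by
    intro v
    have e2 : (h : Matrix ι ι F) = (g' : Matrix ι ι F) * (h : Matrix ι ι F).map σ := by
      conv_lhs => rw [← hh]
      rfl
    have e3 : (h : Matrix ι ι F) *ᵥ sv σ v = (g' : Matrix ι ι F) *ᵥ sv σ ((h : Matrix ι ι F) *ᵥ v) := by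
      rw [sv_mulVec, Matrix.mulVec_mulVec, ← e2]
    rw [e3, hg's, hc']
    ring
  -- a nonzero value at a fixed vector
  let Q₁ : QuadraticForm F (ι → F) := q.comp (Matrix.toLin' (h : Matrix ι ι F))
  have hQ₁ : ∀ v, Q₁ v = f ((h : Matrix ι ι F) *ᵥ v) := by
    intro v
    rw [hfq]
    rfl
  have hne₁ : ∃ x, Q₁ x ≠ 0 := by
    obtain ⟨fr⟩ := S.fr
    refine ⟨((h⁻¹ : GL ι F) : Matrix ι ι F) *ᵥ (fr.e₁ + fr.f₁), ?_⟩
    rw [hQ₁, Matrix.mulVec_mulVec, ← Units.val_mul, mul_inv_cancel, Units.val_one, Matrix.one_mulVec, hfq,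
      Q_add, fr.h₁.Qe, fr.h₁.Qf, fr.h₁.B]
    simp
  obtain ⟨v₀, hv₀⟩ := exists_fixed_ne σ Q₁ hne₁
  rw [hQ₁] at hv₀
  set y := f ((h : Matrix ι ι F) *ᵥ emb σ v₀) with hy'
  have hσy : σ y = c'⁻¹ * y := by
    have h1 := hstep (emb σ v₀)
    rw [sv_emb, ← hy'] at h1
    rw [eq_comm, inv_mul_eq_iff_eq_mul₀ hc'0]
    exact h1
  have hpn : pnorm σ c'⁻¹ r = 1 := pnorm_eq_one_of_fixed σ hσr hv₀ hσy
  obtain ⟨E, hE0, hE⟩ := exists_of_pnorm_eq_one σ hr hord hpn
  have hσE : σ E = c' * E := by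
    calc σ E = c' * (c'⁻¹ * σ E) := by rw [← mul_assoc, mul_inv_cancel₀ hc'0, one_mul]
      _ = c' * E := by rw [hE]
  refine ⟨h, D, Units.mk0 E hE0, ?_, ?_⟩
  · have h3 : sc D⁻¹ * g * glMap σ h = h := hh
    calc g * glMap σ h = sc D * (sc D⁻¹ * g * glMap σ h) := by
          rw [← mul_assoc, ← mul_assoc, ← sc_mul, mul_inv_cancel, sc_one, one_mul]
      _ = sc D * h := by rw [h3]
  · intro v
    rw [Units.val_mk0, map_mul, hσE, hstep]
    ring

end lang

end Cfsg.Agent.Lib.AutPOm
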