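import Cfsg.Agent.Lib.AutPOm.Descent
import Cfsg.Agent.Lib.AutPSL.Structure

/-!
# Field automorphisms of `PΩ` for forms with coefficients in the prime field
-/

set_option autoImplicit false
set_option linter.unusedSectionVars false
set_option linter.unusedSimpArgs false
set_option linter.unusedVariables false

namespace Cfsg.Agent.Lib.AutPOm

open Module QuadraticMap Cfsg.Agent.Lib.OrthoBasic Cfsg.Agent.Lib.OrthoSiegel Cfsg.Agent.Lib.OrthoGen
  Cfsg.Agent.Lib.OrthoFinal Cfsg.Agent.Lib.PgoPsi Cfsg.Agent.Lib.PgoGroup Cfsg.Agent.Lib.GammaCount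
  Cfsg.Agent.Lib.Hilbert90 Cfsg.Agent.Lib.QuadFF Cfsg.Agent.Lib.QuadClass Cfsg.Agent.Lib.OrthoCount
open Cfsg Matrix

variable {ι : Type} [Fintype ι] [DecidableEq ι] {F : Type*} [Field F] {f : (ι → F) → F}

lemma sv_refl (v : ι → F) : sv (RingEquiv.refl F) v = v := rfl

lemma glMap_refl' (x : GL ι F) : glMap (RingEquiv.refl F) x = x := glMap_one' x

/-- Similarities are semisimilarities. -/
lemma semisim_of_CO (g : CO f) : IsSemisimilarityPair f (g : GL ι F) (RingEquiv.refl F) := by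
  obtain ⟨c, hc⟩ := g.2
  exact ⟨c, fun v => hc v⟩

lemma mem_CO_of_semisim {g : GL ι F} (h : IsSemisimilarityPair f g (RingEquiv.refl F)) : g ∈ CO f := by
  obtain ⟨c, hc⟩ := h
  exact ⟨c, fun v => hc v⟩

/-- The inner-diagonal action. -/
noncomputable abbrev dl (g : CO f) : MulAut (POmega F f) := psiO f g

lemma dl_mul (a b : CO f) : dl (a * b) = dl a * dl b := map_mul _ _ _

lemma dl_inv (a : CO f) : dl a⁻¹ = (dl a)⁻¹ := map_inv _ _

lemma dl_one : dl (1 : CO f) = 1 := map_one _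

lemma gs_eq_dl (g : CO f) : gs (semisim_of_CO g) = dl g :=
  (PgoPsi.induced_iff f g _).1 (gs_induced _)

lemma gs_eq_dl' {g : GL ι F} (h : IsSemisimilarityPair f g (RingEquiv.refl F)) :
    gs h = dl ⟨g, mem_CO_of_semisim h⟩ :=
  gs_eq_dl ⟨g, mem_CO_of_semisim h⟩

/-- The forms invariant under all field automorphisms. -/
def FInv (f : (ι → F) → F) : Prop := ∀ (τ : F ≃+* F) (v : ι → F), f (sv τ v) = τ (f v)

section finv

variable (hI : FInv f)

include hI

lemma semisim_fa (τ : F ≃+* F) : IsSemisimilarityPair f (1 : GL ι F) τ :=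
  ⟨1, fun v => by
    rw [Units.val_one, Matrix.one_mulVec, Units.val_one, one_mul]
    exact hI τ v⟩

/-- The standard field automorphism. -/
noncomputable def fa (τ : F ≃+* F) : MulAut (POmega F f) := gs (semisim_fa hI τ)

lemma isFieldAut_iff (τ : F ≃+* F) (β : POmega F f ≃* POmega F f) :
    IsFieldAutPOmegaOf f τ β ↔ β = fa hI τ := by
  have e : ∀ M : Matrix ι ι F, (1 : GL ι F).1 * M * ((1 : GL ι F)⁻¹ : GL ι F).1 = M := by
    intro M
    simp
  constructor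
  · intro h
    have h1 : IsInducedBySemilinearPOmega f 1 τ β := by
      intro s s' hs
      apply h
      rw [hs, e]
    exact (GammaCount.induced_iff f (semisim_fa hI τ) β).1 h1
  · rintro rfl s s' hs
    apply gs_induced (semisim_fa hI τ)
    rw [hs, e]

lemma fa_mul (σ τ : F ≃+* F) : fa hI σ * fa hI τ = fa hI (σ * τ) := by
  unfold fa
  rw [gs_mul]
  apply gs_congr
  have : (1 : GL ι F) * glMap σ 1 = 1 := by simp
  rw [this]
  rfl

lemma fa_one : fa hI 1 = 1 := by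
  unfold fa
  exact gs_one

/-- The field automorphisms, as a homomorphism. -/
noncomputable def faH : (F ≃+* F) →* MulAut (POmega F f) where
  toFun := fa hI
  map_one' := fa_one hI
  map_mul' σ τ := (fa_mul hI σ τ).symm

lemma faH_apply (σ : F ≃+* F) : faH hI σ = fa hI σ := rfl

lemma fa_inv (σ : F ≃+* F) : (fa hI σ)⁻¹ = fa hI σ⁻¹ := (map_inv (faH hI) σ).symm

lemma fa_pow (σ : F ≃+* F) (k : ℕ) : (fa hI σ) ^ k = fa hI (σ ^ k) := (map_pow (faH hI) σ k).symm

lemma mem_CO_of_semisim' {g : GL ι F} {τ : F ≃+* F} (h : IsSemisimilarityPair f g τ) : g ∈ CO f := by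
  obtain ⟨c, hc⟩ := h
  refine ⟨c, fun v => ?_⟩
  have h1 := hc (sv τ.symm v)
  have h2 : (fun i => τ (sv τ.symm v i)) = v := by
    funext i
    simp [sv]
  rw [h2] at h1
  rw [h1, ← hI τ]
  congr 2

lemma glMap_mem_CO (τ : F ≃+* F) {g : GL ι F} (hg : g ∈ CO f) : glMap τ g ∈ CO f := by
  obtain ⟨c, hc⟩ := hg
  refine ⟨Units.map (τ : F →* F) c, fun v => ?_⟩
  have h1 := hI τ ((g : Matrix ι ι F) *ᵥ sv τ.symm v)
  rw [sv_mulVec, sv_symm', hc, map_mul, ← hI τ, sv_symm'] at h1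
  exact h1

/-- The action of field automorphisms on similarities. -/
noncomputable def glO (τ : F ≃+* F) : CO f ≃* CO f where
  toFun g := ⟨glMap τ g, glMap_mem_CO hI τ g.2⟩
  invFun g := ⟨glMap τ.symm g, glMap_mem_CO hI τ.symm g.2⟩
  left_inv g := Subtype.ext (glMap_symm_apply τ g.1)
  right_inv g := Subtype.ext (by
    change glMap τ (glMap τ.symm g.1) = g.1
    apply Units.ext
    ext i j
    simp [Matrix.map_apply])
  map_mul' a b := Subtype.ext (map_mul _ _ _)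

lemma glO_coe (τ : F ≃+* F) (g : CO f) : ((glO hI τ g : CO f) : GL ι F) = glMap τ g := rfl

lemma fa_mul_dl (τ : F ≃+* F) (g : CO f) : fa hI τ * dl g = dl (glO hI τ g) * fa hI τ := by
  rw [fa, ← gs_eq_dl, ← gs_eq_dl, gs_mul, gs_mul]
  apply gs_congr
  have h1 : (1 : GL ι F) * glMap τ (g : GL ι F) = glMap τ g := one_mul _
  have h2 : ((glO hI τ g : CO f) : GL ι F) * glMap (RingEquiv.refl F) 1 = glMap τ g := by
    rw [map_one, mul_one]
    rfl
  rw [h1, h2]
  rfl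

lemma conj_dl_fa (τ : F ≃+* F) (g : CO f) : fa hI τ * dl g * (fa hI τ)⁻¹ = dl (glO hI τ g) := by
  rw [fa_mul_dl, mul_inv_cancel_right]

lemma gs_eq_dl_fa {g : GL ι F} {τ : F ≃+* F} (h : IsSemisimilarityPair f g τ) :
    gs h = dl ⟨g, mem_CO_of_semisim' hI h⟩ * fa hI τ := by
  rw [fa, ← gs_eq_dl, gs_mul]
  apply gs_congr
  have h1 : g * glMap (RingEquiv.refl F) (1 : GL ι F) = g := by
    rw [map_one, mul_one]
  change act g τ = act (g * glMap (RingEquiv.refl F) (1 : GL ι F)) τ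
  rw [h1]

lemma semisim_dl_fa (g : CO f) (τ : F ≃+* F) : IsSemisimilarityPair f (g : GL ι F) τ := by
  obtain ⟨c, hc⟩ := g.2
  exact ⟨c, fun v => by rw [hc]; congr 1; exact hI τ v⟩

lemma dl_mul_fa (g : CO f) (τ : F ≃+* F) : dl g * fa hI τ = gs (semisim_dl_fa hI g τ) := by
  rw [gs_eq_dl_fa hI]

lemma act_eq_of_lang {g H : GL ι F} {σ : F ≃+* F} {d : Fˣ} (e : g * glMap σ H = sc d * H) :
    act g σ = act H (RingEquiv.refl F) * act 1 σ * (act H (RingEquiv.refl F))⁻¹ := by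
  rw [eq_mul_inv_iff_mul_eq, act_mul, act_mul, e, act_sc, map_one, mul_one]
  congr 1

/-- The Lang relation gives the conjugacy. -/
lemma lang_conj {g : GL ι F} {σ : F ≃+* F} (h : IsSemisimilarityPair f g σ) (H : CO f) {d : Fˣ}
    (e : g * glMap σ (H : GL ι F) = sc d * (H : GL ι F)) :
    gs h = dl H * fa hI σ * (dl H)⁻¹ := by
  rw [eq_mul_inv_iff_mul_eq, fa, ← gs_eq_dl, gs_mul, gs_mul]
  apply gs_congr
  rw [e, act_sc, map_one, mul_one]
  congr 1

lemma exists_dl_conj_of_gamma (hg : gammaPOmega F f = ⊤) [Finite F] {x φ α : MulAut (POmega F f)} {τ : F ≃+* F}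
    (hφ : φ = fa hI τ) (h : α * x * α⁻¹ = φ) : ∃ B : CO f, dl B * x * (dl B)⁻¹ = φ := by
  have hα : α ∈ gammaPOmega F f := by
    rw [hg]
    exact Subgroup.mem_top _
  obtain ⟨A, τ', hA, rfl⟩ := gs_range α hα
  have hcomm : ∀ a b : F ≃+* F, a * b = b * a := fun a b => Cfsg.Agent.Lib.AutPSL.ringAut_comm a b
  set A' : CO f := ⟨A, mem_CO_of_semisim' hI hA⟩ with hA'
  rw [gs_eq_dl_fa hI hA] at h
  refine ⟨glO hI τ'⁻¹ A', ?_⟩
  have e1 : dl (glO hI τ'⁻¹ A') = fa hI τ'⁻¹ * dl A' * (fa hI τ'⁻¹)⁻¹ := (conj_dl_fa hI τ'⁻¹ A').symm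
  have e2 : fa hI τ'⁻¹ = (fa hI τ')⁻¹ := (fa_inv hI τ').symm
  rw [e1, e2, inv_inv]
  set U := dl A' * fa hI τ' with hU
  have e3 : (fa hI τ')⁻¹ * dl A' * fa hI τ' = (fa hI τ')⁻¹ * U := by
    rw [hU, mul_assoc]
  have e4 : (fa hI τ')⁻¹ * φ * fa hI τ' = φ := by
    rw [hφ, ← e2, fa_mul, fa_mul, hcomm τ'⁻¹ τ, mul_assoc, inv_mul_cancel, mul_one]
  rw [e3]
  calc (fa hI τ')⁻¹ * U * x * ((fa hI τ')⁻¹ * U)⁻¹ = (fa hI τ')⁻¹ * (U * x * U⁻¹) * fa hI τ' := by group
    _ = φ := by rw [h, e4]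

end finv

/-! ### Kernels -/

section kernel

variable {q : QuadraticForm F (ι → F)} (hI : FInv f) [Fintype F] (S : Sys f q)

include hI S

lemma faH_injective : Function.Injective (faH hI) := by
  rw [injective_iff_map_eq_one]
  intro τ hτ
  exact gs_eq_one_right S (semisim_fa hI τ) hτ

lemma orderOf_fa (τ : F ≃+* F) : orderOf (fa hI τ) = orderOf τ :=
  orderOf_injective (faH hI) (faH_injective hI S) τ

end kernel

end Cfsg.Agent.Lib.AutPOm
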