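import Cfsg.Agent.Lib.AutPOm.Field

/-!
# The Lang step in odd dimension
-/

set_option autoImplicit false
set_option linter.unusedSectionVars false
set_option linter.unusedSimpArgs false
set_option linter.unusedVariables false

namespace Cfsg.Agent.Lib.AutPOm

open Module QuadraticMap Cfsg.Agent.Lib.OrthoBasic Cfsg.Agent.Lib.OrthoSiegel Cfsg.Agent.Lib.OrthoGen
  Cfsg.Agent.Lib.OrthoFinal Cfsg.Agent.Lib.PgoPsi Cfsg.Agent.Lib.PgoGroup Cfsg.Agent.Lib.GammaCount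
  Cfsg.Agent.Lib.Hilbert90 Cfsg.Agent.Lib.QuadFF Cfsg.Agent.Lib.QuadClass Cfsg.Agent.Lib.OrthoCount
open Cfsg Matrix

variable {ι : Type} [Fintype ι] [DecidableEq ι] {F : Type*} [Field F] {f : (ι → F) → F}

section descent

variable {q : QuadraticForm F (ι → F)} {σ : F ≃+* F}

/-- The scaled form read through `h`. -/
noncomputable def Q2 (q : QuadraticForm F (ι → F)) (h : GL ι F) (e : Fˣ) : QuadraticForm F (ι → F) :=
  (e : F) • q.comp (Matrix.toLin' (h : Matrix ι ι F))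

lemma Q2_apply (h : GL ι F) (e : Fˣ) (v : ι → F) : Q2 q h e v = e * q ((h : Matrix ι ι F) *ᵥ v) := rfl

lemma polar_Q2 (h : GL ι F) (e : Fˣ) (x y : ι → F) :
    polar (Q2 q h e) x y = e * polar q ((h : Matrix ι ι F) *ᵥ x) ((h : Matrix ι ι F) *ᵥ y) := by
  simp only [polar, Q2_apply, Matrix.mulVec_add]
  ring

lemma ND_Q2 (hq : Nondeg q) (h : GL ι F) (e : Fˣ) : ND (Q2 q h e) := by
  intro x hx
  by_contra hne
  have hx' : (h : Matrix ι ι F) *ᵥ x ≠ 0 := by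
    intro h0
    apply hne
    have := congrArg (fun w => ((h⁻¹ : GL ι F) : Matrix ι ι F) *ᵥ w) h0
    simpa [Matrix.mulVec_mulVec] using this
  obtain ⟨y, hy⟩ := hq _ hx'
  apply hy
  have h1 := hx (((h⁻¹ : GL ι F) : Matrix ι ι F) *ᵥ y)
  rw [polar_Q2, Matrix.mulVec_mulVec, ← Units.val_mul, mul_inv_cancel, Units.val_one, Matrix.one_mulVec] at h1
  exact (mul_eq_zero.1 h1).resolve_left e.ne_zero

lemma Q2_inv_of {h : GL ι F} {e : Fˣ} (hf : ∀ v, f v = q v)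
    (hinv : ∀ v, e * f ((h : Matrix ι ι F) *ᵥ sv σ v) = σ (e * f ((h : Matrix ι ι F) *ᵥ v))) :
    ∀ v, Q2 q h e (sv σ v) = σ (Q2 q h e v) := by
  intro v
  rw [Q2_apply, Q2_apply, ← hf, ← hf]
  exact hinv v

/-- If the descended form is similar to a form `qK` to which `q` restricts, then `h` can be corrected
by a `K`-rational matrix to a similarity. -/
theorem co_of_desc (hf : ∀ v, f v = q v) {h : GL ι F} {e : Fˣ} (hinv₂ : ∀ v, Q2 q h e (sv σ v) = σ (Q2 q h e v))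
    (qK : (ι → fixedF σ) → fixedF σ) (hqK : ∀ v, q (emb σ v) = (qK v : F)) (P : GL ι (fixedF σ))
    (a : (fixedF σ)ˣ) (hP : ∀ v, descQ σ (Q2 q h e) hinv₂ ((P : Matrix ι ι (fixedF σ)) *ᵥ v) = a * qK v) :
    h * glEmb σ P ∈ CO f := by
  have key : ∀ w : ι → F, Q2 q h e ((glEmb σ P : GL ι F).1 *ᵥ w) = ((a : fixedF σ) : F) * q w := by
    have := eq_of_eq_on_emb σ ((Q2 q h e).comp (Matrix.toLin' (glEmb σ P : GL ι F).1)) (((a : fixedF σ) : F) • q) (fun v => by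
      change Q2 q h e ((glEmb σ P : GL ι F).1 *ᵥ emb σ v) = ((a : fixedF σ) : F) * q (emb σ v)
      rw [← emb_glEmb, ← coe_descQ σ _ hinv₂, hP, hqK]
      rfl)
    exact this
  have ha0 : ((a : fixedF σ) : F) ≠ 0 := by
    intro h0
    exact a.ne_zero (Subtype.ext h0)
  refine ⟨(Units.mk0 _ ha0) * e⁻¹, fun v => ?_⟩
  have h1 := key v
  rw [Q2_apply] at h1
  have e1 : ((h * glEmb σ P : GL ι F) : Matrix ι ι F) *ᵥ v = (h : Matrix ι ι F) *ᵥ ((glEmb σ P : GL ι F).1 *ᵥ v) := by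
    rw [Units.val_mul, Matrix.mulVec_mulVec]
  rw [e1, hf, hf, Units.val_mul, Units.val_mk0, Units.val_inv_eq_inv_val]
  field_simp
  linear_combination h1

end descent

section odd

variable {m : ℕ}

lemma FInv_odd : FInv (quadFormOdd m F) := by
  intro τ v
  simp [quadFormOdd, sv, map_sum]

lemma sys_odd [Fintype F] (hodd : Odd (Fintype.card F)) (hm : 2 ≤ m) : Sys (quadFormOdd m F) (qOdd m F) := by
  obtain ⟨k, rfl⟩ : ∃ k, m = k + 2 := ⟨m - 2, by omega⟩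
  exact ⟨fun v => (qOdd_apply _ v).symm, Cfsg.Agent.Lib.OrthoOrder.nondeg_qOdd hodd _, genR_qOdd hodd _, frameOdd hodd k⟩

lemma qOdd_emb (σ : F ≃+* F) (v : Unit ⊕ (Fin m ⊕ Fin m) → fixedF σ) :
    qOdd m F (emb σ v) = (quadFormOdd m (fixedF σ) v : F) := by
  rw [qOdd_apply]
  simp [quadFormOdd, emb]

/-- Lang's theorem for semisimilarities in odd dimension. -/
theorem lang_odd [Fintype F] (hodd : Odd (Fintype.card F)) (hm : 2 ≤ m) {σ : F ≃+* F} {r : ℕ} (hr : 0 < r)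
    (hord : orderOf σ = r) {g : GL (Unit ⊕ (Fin m ⊕ Fin m)) F} (hg : IsSemisimilarityPair (quadFormOdd m F) g σ)
    (hy : (gs hg) ^ r = 1) :
    ∃ H : CO (quadFormOdd m F), gs hg = dl H * fa FInv_odd σ * (dl H)⁻¹ := by
  have S := sys_odd hodd hm (F := F)
  obtain ⟨h, d, e, he, hinv⟩ := lang_core S hr hord (FInv_odd σ) hg hy
  have hinv₂ := Q2_inv_of S.hf hinv
  have hnd := ND_descQ σ _ hinv₂ (ND_Q2 S.hQ h e)
  obtain ⟨P, a, hP⟩ := odd_similar (descQ σ (Q2 (qOdd m F) h e) hinv₂) hnd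
  have hmem := co_of_desc S.hf hinv₂ (quadFormOdd m (fixedF σ)) (qOdd_emb σ) P a hP
  refine ⟨⟨_, hmem⟩, ?_⟩
  apply lang_conj FInv_odd hg ⟨_, hmem⟩ (d := d)
  change g * glMap σ (h * glEmb σ P) = sc d * (h * glEmb σ P)
  rw [map_mul, glMap_glEmb, ← mul_assoc, he, mul_assoc]

lemma mem_inndiag_odd_iff {δ : MulAut (POmega F (quadFormOdd m F))} :
    δ ∈ inndiagPOmegaOdd m F ↔ ∃ g : CO (quadFormOdd m F), δ = dl g := by
  have h1 : inndiagPOmegaOdd m F = pgoAut F (quadFormOdd m F) := rfl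
  rw [h1, pgoAut_eq]
  constructor
  · rintro ⟨g, -, rfl⟩
    exact ⟨g, rfl⟩
  · rintro ⟨g, rfl⟩
    exact ⟨g, Subgroup.mem_top _, rfl⟩

/-- Lang's theorem for field automorphisms, in odd dimension. -/
theorem coset_lang_odd [Fintype F] (hodd : Odd (Fintype.card F)) (hm : 2 ≤ m) {x : MulAut (POmega F (quadFormOdd m F))}
    {φ : MulAut (POmega F (quadFormOdd m F))} {τ : F ≃+* F} (hφ : φ = fa FInv_odd τ) {B : CO (quadFormOdd m F)}
    (hB : dl B * x * (dl B)⁻¹ = φ) {δ : MulAut (POmega F (quadFormOdd m F))} (hδ : δ ∈ inndiagPOmegaOdd m F)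
    (hord : orderOf (δ * x) = orderOf x) :
    IsConjUnder (inndiagPOmegaOdd m F) x (δ * x) := by
  have S := sys_odd hodd hm (F := F)
  have hpos : 0 < orderOf x := by
    by_contra h0
    have h1 : orderOf x = 0 := by omega
    have hfin : Finite (F ≃+* F) := Cfsg.Agent.Lib.GammaCount.finite_ringAut
    have h2 : orderOf (dl B * x * (dl B)⁻¹) = orderOf x := by
      have := orderOf_injective (MulAut.conj (dl B)).toMonoidHom (MulAut.conj (dl B)).injective x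
      simpa using this
    rw [hB, hφ, orderOf_fa FInv_odd S] at h2
    have h3 : 0 < orderOf τ := orderOf_pos τ
    omega
  have hconjorder : orderOf φ = orderOf x := by
    have := orderOf_injective (MulAut.conj (dl B)).toMonoidHom (MulAut.conj (dl B)).injective x
    rw [← this, ← hB]
    rfl
  have hτ : orderOf τ = orderOf x := by
    rw [← hconjorder, hφ, orderOf_fa FInv_odd S]
  obtain ⟨g₀, rfl⟩ := mem_inndiag_odd_iff.1 hδ
  -- transport
  set g₁ : CO (quadFormOdd m F) := B * g₀ * B⁻¹ with hg₁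
  have e1 : dl B * (dl g₀ * x) * (dl B)⁻¹ = dl g₁ * φ := by
    rw [← hB, hg₁, dl_mul, dl_mul, dl_inv]
    group
  have hpair := semisim_dl_fa FInv_odd g₁ τ
  have e2 : dl g₁ * φ = gs hpair := by
    rw [hφ, dl_mul_fa]
  have hy : (gs hpair) ^ orderOf x = 1 := by
    rw [← e2, ← e1]
    have h3 : dl B * (dl g₀ * x) * (dl B)⁻¹ = MulAut.conj (dl B) (dl g₀ * x) := rfl
    rw [h3, ← map_pow]
    have h4 : (dl g₀ * x) ^ orderOf x = 1 := by
      rw [← hord]
      exact pow_orderOf_eq_one _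
    rw [h4, map_one]
  obtain ⟨H, hH⟩ := lang_odd hodd hm hpos hτ hpair hy
  have e5 : dl g₁ * φ = dl H * φ * (dl H)⁻¹ := by
    rw [e2, hH, hφ]
  refine ⟨dl (B⁻¹ * H * B), mem_inndiag_odd_iff.2 ⟨_, rfl⟩, ?_⟩
  have e3 : dl (B⁻¹ * H * B) = (dl B)⁻¹ * dl H * dl B := by
    rw [dl_mul, dl_mul, dl_inv]
  rw [e3]
  have e4 : dl g₀ * x = (dl B)⁻¹ * (dl B * (dl g₀ * x) * (dl B)⁻¹) * dl B := by group
  rw [e4, e1, e5, ← hB]
  group

end odd

end Cfsg.Agent.Lib.AutPOm
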