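import Cfsg.Agent.Lib.AutPOm.FieldCent
import Cfsg.Agent.Lib.AutPOm.Odd

/-!
# Field automorphisms of `PΩ` at a single automorphism of the field

The forms of minus type are invariant only under the automorphisms fixing the two coefficients of the binary part, so here
the invariance is assumed at one automorphism only.
-/

set_option autoImplicit false
set_option linter.unusedSectionVars false
set_option linter.unusedSimpArgs false
set_option linter.unusedVariables false

namespace Cfsg.Agent.Lib.AutPOm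

open Module QuadraticMap Cfsg.Agent.Lib.OrthoBasic Cfsg.Agent.Lib.OrthoSiegel Cfsg.Agent.Lib.OrthoGen
  Cfsg.Agent.Lib.OrthoFinal Cfsg.Agent.Lib.PgoPsi Cfsg.Agent.Lib.PgoGroup Cfsg.Agent.Lib.GammaCount
  Cfsg.Agent.Lib.Hilbert90 Cfsg.Agent.Lib.QuadFF Cfsg.Agent.Lib.QuadClass Cfsg.Agent.Lib.OrthoCount
open Cfsg Matrix

variable {ι : Type} [Fintype ι] [DecidableEq ι] {F : Type*} [Field F] {f : (ι → F) → F}

/-- The invariance of a form at one automorphism of the field. -/
def InvAt (f : (ι → F) → F) (τ : F ≃+* F) : Prop := ∀ v : ι → F, f (sv τ v) = τ (f v)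

lemma InvAt.symm {τ : F ≃+* F} (h : InvAt f τ) : InvAt f τ.symm := by
  intro v
  have h1 := h (sv τ.symm v)
  rw [sv_symm'] at h1
  rw [h1]
  simp

lemma invAt_one : InvAt f (1 : F ≃+* F) := fun v => rfl

lemma InvAt.mul {σ τ : F ≃+* F} (h₁ : InvAt f σ) (h₂ : InvAt f τ) : InvAt f (σ * τ) := by
  intro v
  have e : sv (σ * τ) v = sv σ (sv τ v) := rfl
  rw [e, h₁, h₂]
  rfl

lemma InvAt.inv {τ : F ≃+* F} (h : InvAt f τ) : InvAt f τ⁻¹ := h.symm

lemma InvAt.pow {τ : F ≃+* F} (h : InvAt f τ) (k : ℕ) : InvAt f (τ ^ k) := by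
  induction k with
  | zero => exact invAt_one
  | succ k ih =>
    rw [pow_succ]
    exact ih.mul h

section fb

variable {τ σ : F ≃+* F}

lemma semisim_fb (h : InvAt f τ) : IsSemisimilarityPair f (1 : GL ι F) τ :=
  ⟨1, fun v => by
    rw [Units.val_one, Matrix.one_mulVec, Units.val_one, one_mul]
    exact h v⟩

/-- The standard field automorphism, at one automorphism of the field. -/
noncomputable def fb (h : InvAt f τ) : MulAut (POmega F f) := gs (semisim_fb h)

lemma isFieldAut_iff' (h : InvAt f τ) (β : POmega F f ≃* POmega F f) :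
    IsFieldAutPOmegaOf f τ β ↔ β = fb h := by
  have e : ∀ M : Matrix ι ι F, (1 : GL ι F).1 * M * ((1 : GL ι F)⁻¹ : GL ι F).1 = M := by
    intro M
    simp
  constructor
  · intro h'
    have h1 : IsInducedBySemilinearPOmega f 1 τ β := by
      intro s s' hs
      apply h'
      rw [hs, e]
    exact (GammaCount.induced_iff f (semisim_fb h) β).1 h1
  · rintro rfl s s' hs
    apply gs_induced (semisim_fb h)
    rw [hs, e]

lemma fb_mul (h₁ : InvAt f σ) (h₂ : InvAt f τ) : fb h₁ * fb h₂ = fb (h₁.mul h₂) := by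
  unfold fb
  rw [gs_mul]
  apply gs_congr
  have : (1 : GL ι F) * glMap σ 1 = 1 := by simp
  rw [this]
  rfl

lemma fb_one : fb (invAt_one (f := f)) = 1 := by
  unfold fb
  exact gs_one

lemma fb_pow (h : InvAt f τ) (k : ℕ) : (fb h) ^ k = fb (h.pow k) := by
  induction k with
  | zero =>
    rw [pow_zero]
    exact fb_one.symm
  | succ k ih =>
    rw [pow_succ, ih, fb_mul]
    congr 1

lemma orderOf_fb [Fintype F] {q : QuadraticForm F (ι → F)} (S : Sys f q) (h : InvAt f τ) : orderOf (fb h) = orderOf τ := by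
  classical
  apply orderOf_eq_orderOf_iff.2
  intro k
  rw [fb_pow]
  constructor
  · intro h1
    exact gs_eq_one_right S (semisim_fb (h.pow k)) h1
  · intro h1
    have e : fb (h.pow k) = fb (invAt_one (f := f)) := by
      unfold fb
      apply gs_congr
      rw [h1]
    rw [e, fb_one]

lemma mem_CO_of_semisim_at (h : InvAt f τ) {g : GL ι F} (hg : IsSemisimilarityPair f g τ) : g ∈ CO f := by
  obtain ⟨c, hc⟩ := hg
  refine ⟨c, fun v => ?_⟩
  have h1 := hc (sv τ.symm v)
  have h2 : (fun i => τ (sv τ.symm v i)) = v := by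
    funext i
    simp [sv]
  rw [h2] at h1
  rw [h1, ← h]
  congr 2

lemma glMap_mem_CO_at (h : InvAt f τ) {g : GL ι F} (hg : g ∈ CO f) : glMap τ g ∈ CO f := by
  obtain ⟨c, hc⟩ := hg
  refine ⟨Units.map (τ : F →* F) c, fun v => ?_⟩
  have h1 := h ((g : Matrix ι ι F) *ᵥ sv τ.symm v)
  rw [sv_mulVec, sv_symm', hc, map_mul, ← h, sv_symm'] at h1
  exact h1

/-- The action of an automorphism of the field on similarities. -/
noncomputable def glB (h : InvAt f τ) : CO f ≃* CO f where
  toFun g := ⟨glMap τ g, glMap_mem_CO_at h g.2⟩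
  invFun g := ⟨glMap τ.symm g, glMap_mem_CO_at h.symm g.2⟩
  left_inv g := Subtype.ext (glMap_symm_apply τ g.1)
  right_inv g := Subtype.ext (by
    change glMap τ (glMap τ.symm g.1) = g.1
    apply Units.ext
    ext i j
    simp [Matrix.map_apply])
  map_mul' a b := Subtype.ext (map_mul _ _ _)

lemma glB_coe (h : InvAt f τ) (g : CO f) : ((glB h g : CO f) : GL ι F) = glMap τ g := rfl

lemma fb_mul_dl (h : InvAt f τ) (g : CO f) : fb h * dl g = dl (glB h g) * fb h := by
  rw [fb, ← gs_eq_dl, ← gs_eq_dl, gs_mul, gs_mul]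
  apply gs_congr
  have h1 : (1 : GL ι F) * glMap τ (g : GL ι F) = glMap τ g := one_mul _
  have h2 : ((glB h g : CO f) : GL ι F) * glMap (RingEquiv.refl F) 1 = glMap τ g := by
    rw [map_one, mul_one]
    rfl
  rw [h1, h2]
  rfl

lemma conj_dl_fb (h : InvAt f τ) (g : CO f) : fb h * dl g * (fb h)⁻¹ = dl (glB h g) := by
  rw [fb_mul_dl, mul_inv_cancel_right]

lemma gs_eq_dl_fb (h : InvAt f τ) {g : GL ι F} (hg : IsSemisimilarityPair f g τ) :
    gs hg = dl ⟨g, mem_CO_of_semisim_at h hg⟩ * fb h := by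
  rw [fb, ← gs_eq_dl, gs_mul]
  apply gs_congr
  have h1 : g * glMap (RingEquiv.refl F) (1 : GL ι F) = g := by
    rw [map_one, mul_one]
  change act g τ = act (g * glMap (RingEquiv.refl F) (1 : GL ι F)) τ
  rw [h1]

lemma semisim_dl_fb (h : InvAt f τ) (g : CO f) : IsSemisimilarityPair f (g : GL ι F) τ := by
  obtain ⟨c, hc⟩ := g.2
  exact ⟨c, fun v => by rw [hc]; congr 1; exact h v⟩

lemma dl_mul_fb (h : InvAt f τ) (g : CO f) : dl g * fb h = gs (semisim_dl_fb h g) := by
  rw [gs_eq_dl_fb h]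

/-- The Lang relation gives the conjugacy. -/
lemma lang_conj_at (hI : InvAt f σ) {g : GL ι F} (h : IsSemisimilarityPair f g σ) (H : CO f) {d : Fˣ}
    (e : g * glMap σ (H : GL ι F) = sc d * (H : GL ι F)) :
    gs h = dl H * fb hI * (dl H)⁻¹ := by
  rw [eq_mul_inv_iff_mul_eq, fb, ← gs_eq_dl, gs_mul, gs_mul]
  apply gs_congr
  rw [e, act_sc, map_one, mul_one]
  congr 1

variable {q : QuadraticForm F (ι → F)}

lemma commute_dl_fb_iff [Fintype F] (hI : InvAt f σ) (S : Sys f q) (u : CO f) :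
    Commute (dl u) (fb hI) ↔ ∃ c : Fˣ, glMap σ (u : GL ι F) = sc c * (u : GL ι F) := by
  have key : Commute (dl u) (fb hI) ↔ dl (glB hI u) = dl u := by
    constructor
    · intro h
      have h1 : dl u * fb hI = fb hI * dl u := h
      rw [fb_mul_dl] at h1
      exact (mul_right_cancel h1).symm
    · intro h
      change dl u * fb hI = fb hI * dl u
      rw [fb_mul_dl, h]
  rw [key, dl_eq_dl_iff S]
  rfl

/-- A rational similarity commutes with the field automorphism. -/
lemma commute_dl_fb_of_fixed [Fintype F] (hI : InvAt f σ) (S : Sys f q) (u : CO f)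
    (hu : glMap σ (u : GL ι F) = (u : GL ι F)) : Commute (dl u) (fb hI) :=
  (commute_dl_fb_iff hI S u).2 ⟨1, by rw [sc_one, one_mul, hu]⟩

end fb

section cent

variable {F₀ : Type*} [Field F₀] {j : F₀ →+* F} {σ : F ≃+* F} {f₀ : (ι → F₀) → F₀}
  {q₀ : QuadraticForm F₀ (ι → F₀)} {q : QuadraticForm F (ι → F)}

/-- The centraliser of the field automorphism. -/
theorem cent_equiv_at [Fintype F] [Fintype F₀] (B : BC j σ f₀ f q₀ q) (hI : InvAt f σ) {r : ℕ} (hr : 0 < r) (hord : orderOf σ = r)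
    (A : Subgroup (CO f)) (A₀ : Subgroup (CO f₀))
    (hA : ∀ g : CO f₀, g ∈ A₀ ↔ mapCO B.comp (fun v => B.S₀.hf v) (fun v => B.S.hf v) g ∈ A)
    (hAz : ∀ (g : CO f) (d : Fˣ), scO B.S d * g ∈ A ↔ g ∈ A) :
    Nonempty (↥(A.map (psiO f) ⊓ Subgroup.centralizer {(fb hI : MulAut (POmega F f))}) ≃* ↥(A₀.map (psiO f₀))) := by
  classical
  have hne := nonempty_of_sys B.S
  set e := mapCO (j := j) (f₀ := f₀) (f := f) B.comp (fun v => B.S₀.hf v) (fun v => B.S.hf v) with he
  have hmem : ∀ g : A₀, dl (e g) ∈ A.map (psiO f) ⊓ Subgroup.centralizer {(fb hI : MulAut (POmega F f))} := by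
    intro g
    refine ⟨⟨e g, (hA g).1 g.2, rfl⟩, ?_⟩
    change dl (e g) ∈ Subgroup.centralizer {(fb hI : MulAut (POmega F f))}
    rw [Subgroup.mem_centralizer_singleton_iff]
    refine (commute_dl_fb_iff hI B.S _).2 ⟨1, ?_⟩
    rw [sc_one, one_mul]
    exact glMap_glJ B.fix _
  let P₁ : A₀ →* ↥(A.map (psiO f) ⊓ Subgroup.centralizer {(fb hI : MulAut (POmega F f))}) :=
    ((psiO f).comp (e.comp A₀.subtype)).codRestrict _ hmem
  let P₀ : A₀ →* ↥(A₀.map (psiO f₀)) := (psiO f₀).subgroupMap A₀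
  have hP₀ : Function.Surjective P₀ := (psiO f₀).subgroupMap_surjective A₀
  have hP₁ : Function.Surjective P₁ := by
    rintro ⟨β, ⟨u, hu, rfl⟩, hβ⟩
    replace hβ : dl u ∈ Subgroup.centralizer {(fb hI : MulAut (POmega F f))} := hβ
    rw [Subgroup.mem_centralizer_singleton_iff] at hβ
    obtain ⟨c, hc⟩ := (commute_dl_fb_iff hI B.S u).1 hβ
    obtain ⟨d, hd⟩ := exists_fixed_of_commute hr hord hc
    obtain ⟨u₀, hu₀⟩ := exists_glJ_of_fixed B.ran hd
    have hu₀CO : u₀ ∈ CO f₀ := B.mem_CO_of_glJ (by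
      rw [hu₀]
      exact (CO f).mul_mem (sc_mem_CO B.S d) u.2)
    have hk : e ⟨u₀, hu₀CO⟩ = scO B.S d * u := Subtype.ext hu₀
    have hu₀A : (⟨u₀, hu₀CO⟩ : CO f₀) ∈ A₀ := by
      rw [hA]
      change e ⟨u₀, hu₀CO⟩ ∈ A
      rw [hk, hAz]
      exact hu
    refine ⟨⟨⟨u₀, hu₀CO⟩, hu₀A⟩, ?_⟩
    apply Subtype.ext
    change dl (e ⟨u₀, hu₀CO⟩) = dl u
    rw [hk, dl_mul, dl_scO, one_mul]
  have hker : P₁.ker = P₀.ker := by
    ext g
    rw [MonoidHom.mem_ker, MonoidHom.mem_ker]
    have h1 : P₁ g = 1 ↔ dl (e g) = 1 := by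
      constructor
      · intro h
        exact congrArg Subtype.val h
      · intro h
        exact Subtype.ext h
    have h2 : P₀ g = 1 ↔ dl (g : CO f₀) = 1 := by
      constructor
      · intro h
        exact congrArg Subtype.val h
      · intro h
        exact Subtype.ext h
    rw [h1, h2, dl_eq_one_iff B.S, dl_eq_one_iff B.S₀]
    constructor
    · rintro ⟨c, hc⟩
      exact scalar_of_glJ hc
    · rintro ⟨c, hc⟩
      refine ⟨Units.map (j : F₀ →* F) c, ?_⟩
      change glJ j ((g : CO f₀) : GL ι F₀) = _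
      rw [hc]
      apply Units.ext
      ext s t
      simp [sc_coe, Matrix.scalar_apply, Matrix.diagonal_apply]
      split_ifs <;> simp
  exact ⟨((QuotientGroup.quotientKerEquivOfSurjective P₁ hP₁).symm.trans
    (QuotientGroup.quotientMulEquivOfEq hker)).trans (QuotientGroup.quotientKerEquivOfSurjective P₀ hP₀)⟩

end cent

end Cfsg.Agent.Lib.AutPOm
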