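import Cfsg.Agent.Lib.AutPOm.BaseChange

/-!
# Centralisers of field automorphisms of `PΩ`
-/

set_option autoImplicit false
set_option linter.unusedSectionVars false
set_option linter.unusedSimpArgs false
set_option linter.unusedVariables false

namespace Cfsg.Agent.Lib.AutPOm

open Module QuadraticMap Cfsg.Agent.Lib.OrthoBasic Cfsg.Agent.Lib.OrthoSiegel Cfsg.Agent.Lib.OrthoGen
  Cfsg.Agent.Lib.OrthoFinal Cfsg.Agent.Lib.PgoPsi Cfsg.Agent.Lib.PgoGroup Cfsg.Agent.Lib.GammaCount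
  Cfsg.Agent.Lib.Hilbert90 Cfsg.Agent.Lib.QuadFF Cfsg.Agent.Lib.QuadClass Cfsg.Agent.Lib.OrthoCount
  Cfsg.Agent.Lib.OrthoChar Cfsg.Agent.Lib.OrthoIndex
open Cfsg Matrix

variable {ι : Type} [Fintype ι] [DecidableEq ι] {F₀ F : Type*} [Field F₀] [Field F]

section basic

variable {f : (ι → F) → F} {q : QuadraticForm F (ι → F)}

lemma nonempty_of_sys (S : Sys f q) : Nonempty ι := by
  by_contra hn
  rw [not_nonempty_iff] at hn
  obtain ⟨fr⟩ := S.fr
  apply fr.h₁.ne_zero_left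
  funext i
  exact hn.elim i

lemma sc_mem_CO (S : Sys f q) (a : Fˣ) : (sc a : GL ι F) ∈ CO f := by
  refine ⟨a * a, fun v => ?_⟩
  rw [sc_mulVec, S.hf, S.hf, Q_sm, Units.val_mul]
  ring

/-- Scalars in the similarity group. -/
noncomputable def scO (S : Sys f q) (a : Fˣ) : CO f := ⟨sc a, sc_mem_CO S a⟩

lemma dl_scO (S : Sys f q) (a : Fˣ) : dl (scO S a) = 1 := by
  rw [← gs_eq_dl, ← gs_one]
  apply gs_congr
  have h1 : ((scO S a : CO f) : GL ι F) = sc a * 1 := by
    rw [mul_one]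
    rfl
  rw [h1, act_sc]

lemma dl_eq_one_iff [Fintype F] (S : Sys f q) (g : CO f) : dl g = 1 ↔ ∃ c : Fˣ, (g : GL ι F) = sc c := by
  constructor
  · intro h
    rw [← gs_eq_dl] at h
    exact scalar_of_gs_eq_one S _ rfl h
  · rintro ⟨c, hc⟩
    have : g = scO S c := Subtype.ext hc
    rw [this, dl_scO]

lemma dl_eq_dl_iff [Fintype F] (S : Sys f q) (g g' : CO f) : dl g = dl g' ↔ ∃ c : Fˣ, (g : GL ι F) = sc c * (g' : GL ι F) := by
  constructor
  · intro h
    have h1 : dl (g * g'⁻¹) = 1 := by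
      rw [dl_mul, dl_inv, h, mul_inv_cancel]
    obtain ⟨c, hc⟩ := (dl_eq_one_iff S _).1 h1
    refine ⟨c, ?_⟩
    rw [← hc]
    change _ = ((g : GL ι F) * (g' : GL ι F)⁻¹) * g'
    group
  · rintro ⟨c, hc⟩
    have : g = scO S c * g' := Subtype.ext hc
    rw [this, dl_mul, dl_scO, one_mul]

variable (hI : FInv f) [Fintype F] (S : Sys f q)

include hI S

lemma commute_dl_fa_iff (u : CO f) (σ : F ≃+* F) :
    Commute (dl u) (fa hI σ) ↔ ∃ c : Fˣ, glMap σ (u : GL ι F) = sc c * (u : GL ι F) := by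
  have key : Commute (dl u) (fa hI σ) ↔ dl (glO hI σ u) = dl u := by
    constructor
    · intro h
      have h1 : dl u * fa hI σ = fa hI σ * dl u := h
      rw [fa_mul_dl] at h1
      exact (mul_right_cancel h1).symm
    · intro h
      change dl u * fa hI σ = fa hI σ * dl u
      rw [fa_mul_dl, h]
  rw [key, dl_eq_dl_iff S]
  rfl

end basic

lemma exists_fixed_of_commute [Fintype F] [Nonempty ι] {σ : F ≃+* F} {r : ℕ} (hr : 0 < r) (hord : orderOf σ = r)
    {u : GL ι F} {c : Fˣ} (hc : glMap σ u = sc c * u) : ∃ d : Fˣ, glMap σ (sc d * u) = sc d * u := by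
  have hσr : σ ^ r = 1 := by rw [← hord]; exact pow_orderOf_eq_one σ
  -- a nonzero entry
  obtain ⟨s, t, hst⟩ : ∃ s t, (u : Matrix ι ι F) s t ≠ 0 := by
    by_contra hcon
    push Not at hcon
    have h0 : (u : Matrix ι ι F) = 0 := by
      ext s t
      exact hcon s t
    have hdet := (Matrix.isUnit_iff_isUnit_det _).1 u.isUnit
    rw [h0, Matrix.det_zero] at hdet
    exact not_isUnit_zero hdet
  have h1 : σ ((u : Matrix ι ι F) s t) = c * (u : Matrix ι ι F) s t := by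
    have h2 := congrArg (fun x : GL ι F => (x : Matrix ι ι F) s t) hc
    simp only [glMap_coe, Units.val_mul, sc_coe] at h2
    rw [Matrix.map_apply] at h2
    rw [h2, Matrix.scalar_apply, Matrix.diagonal_mul]
  have hN := pnorm_eq_one_of_fixed σ hσr hst h1
  obtain ⟨d, hd, hcd⟩ := exists_of_pnorm_eq_one σ hr hord hN
  refine ⟨Units.mk0 d hd, ?_⟩
  rw [map_mul, glMap_sc, hc, ← mul_assoc, ← sc_mul]
  congr 2
  apply Units.ext
  simp only [Units.coe_map, Units.val_mul, Units.val_mk0]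
  rw [mul_comm]
  exact hcd

section descent

variable {j : F₀ →+* F} {σ : F ≃+* F}

lemma glMap_glJ (hfix : ∀ x, σ (j x) = j x) (g : GL ι F₀) : glMap σ (glJ j g) = glJ j g := by
  apply Units.ext
  ext s t
  exact hfix _

/-- A fixed matrix has rational entries. -/
lemma exists_glJ_of_fixed (hran : ∀ y, σ y = y → ∃ x, j x = y) {u : GL ι F} (hu : glMap σ u = u) :
    ∃ u₀ : GL ι F₀, glJ j u₀ = u := by
  classical
  have hent : ∀ s t, ∃ x, j x = (u : Matrix ι ι F) s t := by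
    intro s t
    apply hran
    have := congrArg (fun x : GL ι F => (x : Matrix ι ι F) s t) hu
    exact this
  choose M hM using hent
  have hMmap : (Matrix.of M).map j = (u : Matrix ι ι F) := by
    ext s t
    exact hM s t
  have hdet : (Matrix.of M).det ≠ 0 := by
    intro h0
    have h1 : ((Matrix.of M).map j).det = j (Matrix.of M).det := (RingHom.map_det j _).symm
    rw [hMmap, h0, map_zero] at h1
    exact ((Matrix.isUnit_iff_isUnit_det _).1 u.isUnit).ne_zero h1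
  refine ⟨Matrix.GeneralLinearGroup.mkOfDetNeZero _ hdet, ?_⟩
  apply Units.ext
  exact hMmap

lemma scalar_of_glJ [Nonempty ι] {g : GL ι F₀} {c : Fˣ} (h : glJ j g = sc c) : ∃ c₀ : F₀ˣ, g = sc c₀ := by
  classical
  have hent : ∀ s t, j ((g : Matrix ι ι F₀) s t) = if s = t then (c : F) else 0 := by
    intro s t
    have := congrArg (fun x : GL ι F => (x : Matrix ι ι F) s t) h
    simp only [glJ_coe, Matrix.map_apply, sc_coe] at this
    rw [this, Matrix.scalar_apply, Matrix.diagonal_apply]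
  obtain ⟨i₀⟩ := ‹Nonempty ι›
  have hne : (g : Matrix ι ι F₀) i₀ i₀ ≠ 0 := by
    intro h0
    have := hent i₀ i₀
    rw [h0, map_zero, if_pos rfl] at this
    exact c.ne_zero this.symm
  refine ⟨Units.mk0 _ hne, ?_⟩
  apply Units.ext
  ext s t
  apply j.injective
  rw [hent, sc_coe, Units.val_mk0, Matrix.scalar_apply, Matrix.diagonal_apply]
  by_cases hst : s = t
  · subst hst
    simp only [if_true]
    rw [hent i₀ i₀]
    simp
  · simp [hst]

end descent

section cent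

variable {j : F₀ →+* F} {σ : F ≃+* F} {f₀ : (ι → F₀) → F₀} {f : (ι → F) → F}
  {q₀ : QuadraticForm F₀ (ι → F₀)} {q : QuadraticForm F (ι → F)}

/-- The data relating the forms over the two fields. -/
structure BC (j : F₀ →+* F) (σ : F ≃+* F) (f₀ : (ι → F₀) → F₀) (f : (ι → F) → F)
    (q₀ : QuadraticForm F₀ (ι → F₀)) (q : QuadraticForm F (ι → F)) : Prop where
  comp : Comp j q₀ q
  S₀ : Sys f₀ q₀
  S : Sys f q
  fix : ∀ x, σ (j x) = j x
  ran : ∀ y, σ y = y → ∃ x, j x = y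

lemma BC.exists_val (B : BC j σ f₀ f q₀ q) : ∃ v : ι → F₀, q₀ v ≠ 0 := by
  obtain ⟨fr⟩ := B.S₀.fr
  refine ⟨fr.e₁ + fr.f₁, ?_⟩
  rw [Q_add, fr.h₁.Qe, fr.h₁.Qf, fr.h₁.B]
  simp

/-- A similarity with rational matrix is a rational similarity. -/
lemma BC.mem_CO_of_glJ (B : BC j σ f₀ f q₀ q) {u₀ : GL ι F₀} (hu : glJ j u₀ ∈ CO f) : u₀ ∈ CO f₀ := by
  obtain ⟨c, hc⟩ := hu
  obtain ⟨v₀, hv₀⟩ := B.exists_val
  have hc' : ∀ w, q ((glJ j u₀ : GL ι F).1 *ᵥ w) = (c : F) * q w := by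
    intro w
    rw [← B.S.hf, ← B.S.hf]
    exact hc w
  set c₀ : F₀ := q₀ ((u₀ : Matrix ι ι F₀) *ᵥ v₀) / q₀ v₀ with hc₀
  have hcc : j c₀ = c := by
    have h1 := hc' (mapV j v₀)
    rw [← mapV_glJ, B.comp.map, B.comp.map] at h1
    rw [hc₀, map_div₀, h1]
    have : j (q₀ v₀) ≠ 0 := (map_ne_zero j).2 hv₀
    field_simp
  have hc₀0 : c₀ ≠ 0 := by
    intro h0
    rw [h0, map_zero] at hcc
    exact c.ne_zero hcc.symm
  refine ⟨Units.mk0 c₀ hc₀0, fun v => ?_⟩
  rw [B.S₀.hf, B.S₀.hf, Units.val_mk0]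
  apply sim_of_glJ B.comp
  intro w
  rw [hcc]
  exact hc' w

/-- The centraliser of the field automorphism. -/
theorem cent_equiv [Fintype F] [Fintype F₀] (B : BC j σ f₀ f q₀ q) (hI : FInv f) {r : ℕ} (hr : 0 < r) (hord : orderOf σ = r)
    (A : Subgroup (CO f)) (A₀ : Subgroup (CO f₀))
    (hA : ∀ g : CO f₀, g ∈ A₀ ↔ mapCO B.comp (fun v => B.S₀.hf v) (fun v => B.S.hf v) g ∈ A)
    (hAz : ∀ (g : CO f) (d : Fˣ), scO B.S d * g ∈ A ↔ g ∈ A) :
    Nonempty (↥(A.map (psiO f) ⊓ Subgroup.centralizer {(fa hI σ : MulAut (POmega F f))}) ≃* ↥(A₀.map (psiO f₀))) := by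
  classical
  have hne := nonempty_of_sys B.S
  set e := mapCO (j := j) (f₀ := f₀) (f := f) B.comp (fun v => B.S₀.hf v) (fun v => B.S.hf v) with he
  have hmem : ∀ g : A₀, dl (e g) ∈ A.map (psiO f) ⊓ Subgroup.centralizer {(fa hI σ : MulAut (POmega F f))} := by
    intro g
    refine ⟨⟨e g, (hA g).1 g.2, rfl⟩, ?_⟩
    change dl (e g) ∈ Subgroup.centralizer {(fa hI σ : MulAut (POmega F f))}
    rw [Subgroup.mem_centralizer_singleton_iff]
    refine (commute_dl_fa_iff hI B.S _ σ).2 ⟨1, ?_⟩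
    rw [sc_one, one_mul]
    exact glMap_glJ B.fix _
  let P₁ : A₀ →* ↥(A.map (psiO f) ⊓ Subgroup.centralizer {(fa hI σ : MulAut (POmega F f))}) :=
    ((psiO f).comp (e.comp A₀.subtype)).codRestrict _ hmem
  let P₀ : A₀ →* ↥(A₀.map (psiO f₀)) := (psiO f₀).subgroupMap A₀
  have hP₀ : Function.Surjective P₀ := (psiO f₀).subgroupMap_surjective A₀
  have hP₁ : Function.Surjective P₁ := by
    rintro ⟨β, ⟨u, hu, rfl⟩, hβ⟩
    replace hβ : dl u ∈ Subgroup.centralizer {(fa hI σ : MulAut (POmega F f))} := hβ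
    rw [Subgroup.mem_centralizer_singleton_iff] at hβ
    obtain ⟨c, hc⟩ := (commute_dl_fa_iff hI B.S u σ).1 hβ
    obtain ⟨d, hd⟩ := exists_fixed_of_commute hr hord hc
    obtain ⟨u₀, hu₀⟩ := exists_glJ_of_fixed B.ran hd
    have hu₀CO : u₀ ∈ CO f₀ := B.mem_CO_of_glJ (by
      rw [hu₀]
      exact (CO f).mul_mem (sc_mem_CO B.S d) u.2)
    have hk : e ⟨u₀, hu₀CO⟩ = scO B.S d * u := Subtype.ext hu₀
    have hu₀A : (⟨u₀, hu₀CO⟩ : CO f₀) ∈ A₀ := by
      rw [hA]
      change e ⟨u₀, hu₀CO⟩ ∈ A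
      rw [hk, hAz]
      exact hu
    refine ⟨⟨⟨u₀, hu₀CO⟩, hu₀A⟩, ?_⟩
    apply Subtype.ext
    change dl (e ⟨u₀, hu₀CO⟩) = dl u
    rw [hk, dl_mul, dl_scO, one_mul]
  have hker : P₁.ker = P₀.ker := by
    ext g
    rw [MonoidHom.mem_ker, MonoidHom.mem_ker]
    have h1 : P₁ g = 1 ↔ dl (e g) = 1 := by
      constructor
      · intro h
        exact congrArg Subtype.val h
      · intro h
        exact Subtype.ext h
    have h2 : P₀ g = 1 ↔ dl (g : CO f₀) = 1 := by
      constructor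
      · intro h
        exact congrArg Subtype.val h
      · intro h
        exact Subtype.ext h
    rw [h1, h2, dl_eq_one_iff B.S, dl_eq_one_iff B.S₀]
    constructor
    · rintro ⟨c, hc⟩
      exact scalar_of_glJ hc
    · rintro ⟨c, hc⟩
      refine ⟨Units.map (j : F₀ →* F) c, ?_⟩
      change glJ j ((g : CO f₀) : GL ι F₀) = _
      rw [hc]
      apply Units.ext
      ext s t
      simp [sc_coe, Matrix.scalar_apply, Matrix.diagonal_apply]
      split_ifs <;> simp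
  exact ⟨((QuotientGroup.quotientKerEquivOfSurjective P₁ hP₁).symm.trans
    (QuotientGroup.quotientMulEquivOfEq hker)).trans (QuotientGroup.quotientKerEquivOfSurjective P₀ hP₀)⟩

end cent

end Cfsg.Agent.Lib.AutPOm
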