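import Cfsg.Agent.Lib.AutPOm.Transport

/-!
# The Lang step for forms of minus type
-/

set_option autoImplicit false
set_option linter.unusedSectionVars false
set_option linter.unusedSimpArgs false
set_option linter.unusedVariables false

namespace Cfsg.Agent.Lib.AutPOm

open Module QuadraticMap Cfsg.Agent.Lib.OrthoBasic Cfsg.Agent.Lib.OrthoSiegel Cfsg.Agent.Lib.OrthoGen
  Cfsg.Agent.Lib.OrthoFinal Cfsg.Agent.Lib.PgoPsi Cfsg.Agent.Lib.PgoGroup Cfsg.Agent.Lib.GammaCount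
  Cfsg.Agent.Lib.Hilbert90 Cfsg.Agent.Lib.QuadFF Cfsg.Agent.Lib.QuadClass Cfsg.Agent.Lib.OrthoCount
  Cfsg.Agent.Lib.PgoParity Cfsg.Agent.Lib.PgoClass
open Cfsg Matrix

variable {ι : Type} [Fintype ι] [DecidableEq ι] {F : Type*} [Field F]

section desc

variable {σ : F ≃+* F}

/-- A hyperbolic basis of the descended form gives a totally singular subspace over `F`. -/
lemma exists_ts_of_desc_hyp {q : QuadraticForm F (ι → F)} [Fintype F] {h : GL ι F} {e : Fˣ} {k : ℕ} (hk : 0 < k)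
    (hinv₂ : ∀ v, Q2 q h e (sv σ v) = σ (Q2 q h e v)) (hdim : Fintype.card ι = 2 * k)
    {b' : Basis (Fin k ⊕ Fin k) (fixedF σ) (ι → fixedF σ)} (hb' : IsHypBasis (descQ σ (Q2 q h e) hinv₂) b') :
    ∃ U : Submodule F (ι → F), (∀ v ∈ U, q v = 0) ∧ finrank F U = k := by
  have : Nonempty (Fin k) := ⟨⟨0, hk⟩⟩
  have H : HypData (Q2 q h e) (fun i : Fin k => emb σ (b' (Sum.inl i))) (fun i => emb σ (b' (Sum.inr i))) := by
    refine ⟨fun i => ?_, fun i j => ?_, fun i j => ?_, ?_⟩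
    · rw [← coe_descQ σ _ hinv₂, (hb'.1 i).1]
      rfl
    · rw [← coe_polar_descQ σ _ hinv₂, (hb'.2.2 i j).1]
      rfl
    · rw [← coe_polar_descQ σ _ hinv₂, hb'.2.1 i j]
      split_ifs <;> rfl
    · simp [hdim]
  have hts := H.maxTS.1
  have hfr := HypData.finrank_U₀ H
  refine ⟨H.U₀.map ((glEquiv h : (ι → F) ≃ₗ[F] (ι → F)) : (ι → F) →ₗ[F] (ι → F)), ?_, ?_⟩
  · rintro _ ⟨v, hv, rfl⟩
    have h1 := hts v hv
    rw [Q2_apply] at h1
    exact (mul_eq_zero.1 h1).resolve_left e.ne_zero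
  · rw [LinearEquiv.finrank_map_eq]
    simpa using hfr

end desc

section minus

universe u

variable {F : Type u} [Field F] [Fintype F] {m : ℕ} {a b : F} {σ : F ≃+* F}

lemma aniso_of_map {F₀ : Type*} [Field F₀] (j : F₀ →+* F) {a₀ b₀ : F₀}
    (hab : ∀ z₁ z₂ : F, z₁ ^ 2 + j a₀ * z₁ * z₂ + j b₀ * z₂ ^ 2 = 0 → z₁ = 0 ∧ z₂ = 0) :
    ∀ z₁ z₂ : F₀, z₁ ^ 2 + a₀ * z₁ * z₂ + b₀ * z₂ ^ 2 = 0 → z₁ = 0 ∧ z₂ = 0 := by
  intro z₁ z₂ h
  have h1 := hab (j z₁) (j z₂) (by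
    have := congrArg j h
    simpa using this)
  exact ⟨j.injective (by rw [h1.1, map_zero]), j.injective (by rw [h1.2, map_zero])⟩

/-- The Lang step for the minus form. -/
theorem lang_minus (hm : 2 ≤ m) (hab : ∀ z₁ z₂ : F, z₁ ^ 2 + a * z₁ * z₂ + b * z₂ ^ 2 = 0 → z₁ = 0 ∧ z₂ = 0)
    (ha : σ a = a) (hb : σ b = b) {r : ℕ} (hr : 0 < r) (hord : orderOf σ = r) {g : GL (Ix m) F}
    (hg : IsSemisimilarityPair (quadFormMinus m F a b) g σ) (hy : (gs hg) ^ r = 1) :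
    ∃ (H : CO (quadFormMinus m F a b)) (d : Fˣ), g * glMap σ (H : GL (Ix m) F) = sc d * (H : GL (Ix m) F) := by
  have S := sys_minus hm hab
  have hI : InvAt (quadFormMinus m F a b) σ := invAt_minus ha hb
  obtain ⟨h, d, e, he, hinv⟩ := lang_core S hr hord hI hg hy
  have hinv₂ := Q2_inv_of S.hf hinv
  have hnd := ND_descQ σ _ hinv₂ (ND_Q2 S.hQ h e)
  haveI : Fintype (fixedF σ) := Fintype.ofFinite _
  set a₀ : fixedF σ := ⟨a, ha⟩ with ha₀
  set b₀ : fixedF σ := ⟨b, hb⟩ with hb₀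
  have hab₀ : ∀ z₁ z₂ : fixedF σ, z₁ ^ 2 + a₀ * z₁ * z₂ + b₀ * z₂ ^ 2 = 0 → z₁ = 0 ∧ z₂ = 0 :=
    aniso_of_map (fixedF σ).subtype hab
  have hV : finrank (fixedF σ) (Ix m → fixedF σ) = 2 * (m + 1) := by
    simp
    ring
  have hqK : ∀ v : Ix m → fixedF σ, qMinus m a b (emb σ v) = (quadFormMinus m (fixedF σ) a₀ b₀ v : F) := by
    intro v
    rw [qMinus_apply]
    simp [quadFormMinus, emb, a₀, b₀]
  rcases std_cases hV _ hnd with ⟨b', hb'⟩ | ⟨k, hk, b', ζ, hb'⟩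
  · exfalso
    obtain ⟨U, hU, hUd⟩ := exists_ts_of_desc_hyp (Nat.succ_pos m) hinv₂ (by simp; ring) hb'
    have := finrank_le_of_ts a b hab m U hU
    omega
  · obtain rfl : m = k := by omega
    have hc : (Nat.card {v // descQ σ (Q2 (qMinus m a b) h e) hinv₂ v = 0} : ℤ) ≠ (Fintype.card (fixedF σ) : ℤ) ^ (2 * m + 1) + (Fintype.card (fixedF σ) : ℤ) ^ (m + 1) - (Fintype.card (fixedF σ) : ℤ) ^ m := by
      rw [Cfsg.Agent.Lib.QuadClass2.card_zeros_of_minus hnd hb']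
      exact count_ne m
    obtain ⟨T, hT⟩ := iso_qMinus hV _ hnd hc a₀ b₀ hab₀
    have hP : ∀ v, descQ σ (Q2 (qMinus m a b) h e) hinv₂ (((glOf T.symm : GL (Ix m) (fixedF σ)) : Matrix (Ix m) (Ix m) (fixedF σ)) *ᵥ v)
        = ((1 : (fixedF σ)ˣ) : fixedF σ) * quadFormMinus m (fixedF σ) a₀ b₀ v := by
      intro v
      rw [glOf_mulVec, ← hT, LinearEquiv.apply_symm_apply, Units.val_one, one_mul, qMinus_apply]
    have hmem := co_of_desc S.hf hinv₂ (quadFormMinus m (fixedF σ) a₀ b₀) hqK _ 1 hP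
    refine ⟨⟨_, hmem⟩, d, ?_⟩
    change g * glMap σ (h * glEmb σ (glOf T.symm)) = sc d * (h * glEmb σ (glOf T.symm))
    rw [map_mul, glMap_glEmb, ← mul_assoc, he, mul_assoc]

/-- The base change for the minus form. -/
lemma bc_minus {F₀ : Type*} [Field F₀] [Fintype F₀] (j : F₀ →+* F) (hm : 2 ≤ m) {a₀ b₀ : F₀}
    (hab : ∀ z₁ z₂ : F, z₁ ^ 2 + j a₀ * z₁ * z₂ + j b₀ * z₂ ^ 2 = 0 → z₁ = 0 ∧ z₂ = 0)
    (hfix : ∀ x, σ (j x) = j x) (hran : ∀ y, σ y = y → ∃ x, j x = y) :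
    BC j σ (quadFormMinus m F₀ a₀ b₀) (quadFormMinus m F (j a₀) (j b₀)) (qMinus m a₀ b₀) (qMinus m (j a₀) (j b₀)) :=
  ⟨comp_minus j m a₀ b₀, sys_minus hm (aniso_of_map j hab), sys_minus hm hab, hfix, hran⟩

end minus

section refl

variable {F₀ : Type*} [Field F₀] {j : F₀ →+* F} {σ : F ≃+* F} {f₀ : (ι → F₀) → F₀} {f : (ι → F) → F}
  {q₀ : QuadraticForm F₀ (ι → F₀)} {q : QuadraticForm F (ι → F)}

/-- The reflection as a similarity. -/
lemma exists_refl_CO (S : Sys f q) {x : ι → F} (hx : q x ≠ 0) :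
    ∃ R : CO f, ∀ v, ((R : GL ι F) : Matrix ι ι F) *ᵥ v = reflLin q x v := by
  refine ⟨isoCO f ((isoOG f q S.hf).symm (refl S.hQ hx)), fun v => ?_⟩
  change (((isoOG f q S.hf).symm (refl S.hQ hx) : isometryGroup F f) : GL ι F).1 *ᵥ v = _
  rw [← isoOG_apply f q S.hf, MulEquiv.apply_symm_apply, refl_apply]

/-- A rational reflection. -/
lemma exists_refl_rat (B : BC j σ f₀ f q₀ q) :
    ∃ (R : CO f) (x : ι → F), q x ≠ 0 ∧ (∀ v, ((R : GL ι F) : Matrix ι ι F) *ᵥ v = reflLin q x v) ∧ glMap σ (R : GL ι F) = R := by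
  obtain ⟨x₀, hx₀⟩ := B.exists_val
  obtain ⟨R₀, hR₀⟩ := exists_refl_CO B.S₀ hx₀
  refine ⟨mapCO B.comp (fun v => B.S₀.hf v) (fun v => B.S.hf v) R₀, mapV j x₀, ?_, ?_, ?_⟩
  · rw [B.comp.map]
    exact (map_ne_zero j).2 hx₀
  · exact glJ_reflLin B.comp hR₀
  · exact glMap_glJ B.fix _

end refl

section dichotomy

universe u

variable {F : Type u} [Field F] [Fintype F] {m : ℕ} {a b : F}

/-- Multiplying by a reflection changes the class. -/
theorem inndiag_refl (hm : 2 ≤ m) (hab : ∀ z₁ z₂ : F, z₁ ^ 2 + a * z₁ * z₂ + b * z₂ ^ 2 = 0 → z₁ = 0 ∧ z₂ = 0)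
    (g R : CO (quadFormMinus m F a b)) {x : Ix m → F} (hx : qMinus m a b x ≠ 0)
    (hR : ∀ v, ((R : GL (Ix m) F) : Matrix (Ix m) (Ix m) F) *ᵥ v = reflLin (qMinus m a b) x v) :
    dl g ∈ inndiagPOmegaMinus m F a b ∨ dl (g * R) ∈ inndiagPOmegaMinus m F a b := by
  rcases Nat.even_or_odd (Fintype.card F) with hq | hodd
  · rw [inndiag_minus_char2 hq hm hab]
    obtain ⟨χ, h1, h2⟩ := exists_chi2_minus hm hab
    have key := char2_main hq (sys_minus hm hab) χ h1 h2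
    rw [← key, ← key, map_mul, h1 R x hx hR]
    generalize χ g = z
    revert z
    decide
  · obtain ⟨n, rfl⟩ : ∃ n, m = n + 2 := ⟨m - 2, by omega⟩
    obtain ⟨D, -⟩ := Cfsg.Agent.Lib.PgoInndiag.exists_data_minus hodd a b hab n
    rw [Cfsg.Agent.Lib.PgoInndiag.inndiag_minus a b hab n D]
    have hRd : D.delta R = -1 := by
      have e : R = Cfsg.Agent.Lib.PgoSim.Data.isoC (D.rA hx) := by
        apply Subtype.ext
        apply Units.ext
        ext i k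
        have h1 := hR (Pi.single k 1)
        have h2 := D.rA_apply hx (Pi.single k 1)
        rw [← h2] at h1
        have h3 := congrFun h1 i
        have h4 : ((R : GL (Ix (n + 2)) F) : Matrix (Ix (n + 2)) (Ix (n + 2)) F) i k = (((D.rA hx : isometryGroup F (quadFormMinus (n + 2) F a b)) : GL (Ix (n + 2)) F) : Matrix (Ix (n + 2)) (Ix (n + 2)) F) i k := by
          simpa using h3
        exact h4
      rw [e]
      exact D.delta_rA hx
    rcases D.delta_values g with h | h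
    · left
      exact ⟨g, h, rfl⟩
    · right
      refine ⟨g * R, ?_, rfl⟩
      change D.delta (g * R) = 1
      rw [map_mul, h, hRd]
      simp

/-- The inner-diagonal group consists of actions of similarities. -/
lemma inndiag_le_range : inndiagPOmegaMinus m F a b ≤ (⊤ : Subgroup (CO (quadFormMinus m F a b))).map (psiO (quadFormMinus m F a b)) := by
  rw [← pgoAut_eq]
  apply Subgroup.closure_mono
  rintro β ⟨g, hg, -, hI⟩
  exact ⟨g, hg, hI⟩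

/-- The Lang step in the inner-diagonal group. -/
theorem coset_minus (hm : 2 ≤ m) (hab : ∀ z₁ z₂ : F, z₁ ^ 2 + a * z₁ * z₂ + b * z₂ ^ 2 = 0 → z₁ = 0 ∧ z₂ = 0)
    {σ : F ≃+* F} (ha : σ a = a) (hb : σ b = b) {r : ℕ} (hr : 0 < r) (hord : orderOf σ = r)
    (hI : InvAt (quadFormMinus m F a b) σ)
    (g₀ : CO (quadFormMinus m F a b)) (hy : (dl g₀ * fb hI) ^ r = 1) :
    ∃ H : CO (quadFormMinus m F a b), dl H ∈ inndiagPOmegaMinus m F a b ∧ dl g₀ * fb hI = dl H * fb hI * (dl H)⁻¹ := by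
  classical
  have S := sys_minus hm hab
  rw [dl_mul_fb] at hy
  obtain ⟨H, d, hd⟩ := lang_minus hm hab ha hb hr hord _ hy
  have e1 := lang_conj_at hI (semisim_dl_fb hI g₀) H hd
  rw [← dl_mul_fb hI g₀] at e1
  -- a rational reflection
  haveI : Fintype (fixedF σ) := Fintype.ofFinite _
  have hσfix : ∀ x : fixedF σ, σ ((fixedF σ).subtype x) = (fixedF σ).subtype x := fun x => x.2
  have hσran : ∀ y, σ y = y → ∃ x, (fixedF σ).subtype x = y := fun y hy => ⟨⟨y, hy⟩, rfl⟩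
  have B : BC (fixedF σ).subtype σ (quadFormMinus m (fixedF σ) ⟨a, ha⟩ ⟨b, hb⟩) (quadFormMinus m F a b) (qMinus m ⟨a, ha⟩ ⟨b, hb⟩) (qMinus m a b) :=
    bc_minus (σ := σ) (fixedF σ).subtype hm (a₀ := ⟨a, ha⟩) (b₀ := ⟨b, hb⟩) hab hσfix hσran
  obtain ⟨R, x, hx, hR, hRfix⟩ := exists_refl_rat B
  have hcomm : Commute (dl R) (fb hI) := commute_dl_fb_of_fixed hI S R hRfix
  rcases inndiag_refl hm hab H R hx hR with h | h
  · exact ⟨H, h, e1⟩
  · refine ⟨H * R, h, ?_⟩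
    rw [e1, dl_mul, _root_.mul_inv_rev]
    have : dl R * fb hI * (dl R)⁻¹ = fb hI := by
      rw [hcomm.eq, mul_inv_cancel_right]
    calc dl H * fb hI * (dl H)⁻¹ = dl H * (dl R * fb hI * (dl R)⁻¹) * (dl H)⁻¹ := by rw [this]
      _ = _ := by group

end dichotomy

end Cfsg.Agent.Lib.AutPOm
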