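import Cfsg.Agent.Lib.AutPOm.FieldCent
import Cfsg.Agent.Lib.AutPSL.Split
import Cfsg.Agent.Lib.PgoSim

/-!
# Class counts of field automorphisms in odd dimension
-/

set_option autoImplicit false
set_option linter.unusedSectionVars false
set_option linter.unusedSimpArgs false
set_option linter.unusedVariables false

namespace Cfsg.Agent.Lib.AutPOm

open Module QuadraticMap Cfsg.Agent.Lib.OrthoBasic Cfsg.Agent.Lib.OrthoSiegel Cfsg.Agent.Lib.OrthoGen
  Cfsg.Agent.Lib.OrthoFinal Cfsg.Agent.Lib.PgoPsi Cfsg.Agent.Lib.PgoGroup Cfsg.Agent.Lib.GammaCount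
  Cfsg.Agent.Lib.Hilbert90 Cfsg.Agent.Lib.QuadFF Cfsg.Agent.Lib.QuadClass Cfsg.Agent.Lib.OrthoCount
  Cfsg.Agent.Lib.OrthoChar Cfsg.Agent.Lib.OrthoIndex
open Cfsg Matrix

variable {ι : Type} [Fintype ι] [DecidableEq ι] {F₀ F : Type*} [Field F₀] [Field F]

/-! ### Squares under field extensions -/

section squares

variable [Fintype F₀] [Fintype F] (j : F₀ →+* F)

lemma isSquare_j_of_two (hodd : Odd (Fintype.card F₀)) (hcard : Fintype.card F = Fintype.card F₀ ^ 2) {c : F₀} (hc : c ≠ 0) :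
    IsSquare (j c) := by
  have hF : ringChar F ≠ 2 := by
    intro h
    have h1 := FiniteField.even_card_iff_char_two.1 h
    rw [hcard] at h1
    have h2 : Odd (Fintype.card F₀ ^ 2) := hodd.pow
    rw [Nat.odd_iff] at h2
    omega
  rw [FiniteField.isSquare_iff hF ((map_ne_zero j).2 hc), hcard]
  obtain ⟨k, hk⟩ := hodd
  have e : (Fintype.card F₀) ^ 2 / 2 = (Fintype.card F₀ - 1) * (k + 1) := by
    rw [hk]
    have : (2 * k + 1) ^ 2 = 2 * ((2 * k + 1 - 1) * (k + 1)) + 1 := by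
      have : 2 * k + 1 - 1 = 2 * k := by omega
      rw [this]
      ring
    rw [this]
    omega
  rw [e, pow_mul, ← map_pow, FiniteField.pow_card_sub_one_eq_one c hc]
  simp

lemma not_isSquare_j_of_odd (hodd : Odd (Fintype.card F₀)) {r : ℕ} (hr : Odd r) (hcard : Fintype.card F = Fintype.card F₀ ^ r)
    {ν : F₀} (hν0 : ν ≠ 0) (hν : ¬ IsSquare ν) : ¬ IsSquare (j ν) := by
  have hF₀ : ringChar F₀ ≠ 2 := by
    intro h
    have h1 := FiniteField.even_card_iff_char_two.1 h
    rw [Nat.odd_iff] at hodd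
    omega
  have hF : ringChar F ≠ 2 := by
    intro h
    have h1 := FiniteField.even_card_iff_char_two.1 h
    rw [hcard] at h1
    have h2 : Odd (Fintype.card F₀ ^ r) := hodd.pow
    rw [Nat.odd_iff] at h2
    omega
  rw [FiniteField.isSquare_iff hF ((map_ne_zero j).2 hν0), hcard]
  have h1 : ν ^ (Fintype.card F₀ / 2) = -1 := by
    rcases FiniteField.pow_dichotomy hF₀ hν0 with h | h
    · exact absurd ((FiniteField.isSquare_iff hF₀ hν0).2 h) hν
    · exact h
  have hoddF : Odd (Fintype.card F) := by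
    rw [hcard]
    exact hodd.pow
  obtain ⟨k, hk⟩ := hodd
  set q := Fintype.card F₀ with hq
  set M := ∑ i ∈ Finset.range r, q ^ i with hM
  have hMgeom : M * (2 * k) + 1 = q ^ r := by
    have := geom_sum_mul_add (2 * k) r
    rw [← hk] at this
    exact this
  have hMmod : ∀ n : ℕ, (∑ i ∈ Finset.range n, q ^ i) % 2 = n % 2 := by
    intro n
    induction n with
    | zero => simp
    | succ n ih =>
      rw [Finset.sum_range_succ, Nat.add_mod, ih, ← Nat.add_mod]
      have h4 : q ^ n % 2 = 1 := Nat.odd_iff.mp (Odd.pow ⟨k, hk⟩)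
      omega
  have hModd : Odd M := by
    rw [Nat.odd_iff, hM, hMmod]
    exact Nat.odd_iff.1 hr
  have e1 : q ^ r / 2 = k * M := by
    rw [← hMgeom]
    have : M * (2 * k) + 1 = 2 * (k * M) + 1 := by ring
    rw [this]
    omega
  have e2 : q / 2 = k := by
    rw [hk]
    omega
  rw [e1, pow_mul, ← map_pow, ← e2, h1, map_neg, map_one, hModd.neg_one_pow]
  intro h
  have h5 : (2 : F) = 0 := by linear_combination -h
  exact char_ne_two_of_odd hoddF h5

end squares

/-! ### Odd dimension: the special orthogonal group -/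

section oddDim

variable [Fintype F] {f : (ι → F) → F} {q : QuadraticForm F (ι → F)}

/-- The special orthogonal group. -/
abbrev SOf (f : (ι → F) → F) : Subgroup (GL ι F) := specialIsometryGL F f

lemma so_le_CO : SOf f ≤ CO f := fun _ hg => isometry_le_CO f hg.1

/-- The action of the special orthogonal group. -/
noncomputable def soP (f : (ι → F) → F) : SOf f →* MulAut (POmega F f) :=
  (psiO f).comp (Subgroup.inclusion so_le_CO)

lemma soP_apply (s : SOf f) : soP f s = dl ⟨s.1, so_le_CO s.2⟩ := rfl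

lemma det_sc (a : Fˣ) : Matrix.GeneralLinearGroup.det (sc a : GL ι F) = a ^ Fintype.card ι := by
  apply Units.ext
  change (Matrix.scalar ι (a : F)).det = _
  simp [Matrix.scalar_apply, Matrix.det_diagonal]

variable (hodd : Odd (Fintype.card F)) (S : Sys f q) (hdim : Odd (Fintype.card ι))

include hodd S hdim

lemma exists_value : ∃ v, f v ≠ 0 := by
  obtain ⟨fr⟩ := S.fr
  refine ⟨fr.e₁ + fr.f₁, ?_⟩
  rw [S.hf, Q_add, fr.h₁.Qe, fr.h₁.Qf, fr.h₁.B]
  simp

lemma scalar_in_SO {a : Fˣ} (h : (sc a : GL ι F) ∈ SOf f) : a = 1 := by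
  obtain ⟨v, hv⟩ := exists_value hodd S hdim
  have h1 := ((mem_iso_iff f _).1 h.1) v
  rw [sc_mulVec, S.hf, S.hf, Q_sm] at h1
  have hqv : q v ≠ 0 := by
    rw [← S.hf]
    exact hv
  have h2 : a ^ 2 = 1 := by
    apply Units.ext
    have h3 : ((a : F) ^ 2 - 1) * q v = 0 := by linear_combination h1
    have h4 := (mul_eq_zero.1 h3).resolve_right hqv
    simpa using sub_eq_zero.1 h4
  have h5 : a ^ Fintype.card ι = 1 := by
    rw [← det_sc]
    exact h.2
  obtain ⟨k, hk⟩ := hdim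
  rw [hk, pow_succ, pow_mul, h2, one_pow, one_mul] at h5
  exact h5

/-- Every similarity is a scalar times an element of the special orthogonal group. -/
lemma co_decomp (g : CO f) : ∃ (a : Fˣ) (s : SOf f), (g : GL ι F) = sc a * s.1 := by
  obtain ⟨c, hc⟩ := g.2
  have hc' : ∀ v, q (((g : GL ι F) : Matrix ι ι F) *ᵥ v) = (c : F) * q v := by
    intro v
    rw [← S.hf, ← S.hf]
    exact hc v
  have hd := det_sq_of_sim S.hQ hc'
  obtain ⟨k, hk⟩ := hdim
  set d : Fˣ := Matrix.GeneralLinearGroup.det (g : GL ι F) with hddef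
  have hd' : d ^ 2 = c ^ Fintype.card ι := by
    apply Units.ext
    rw [Units.val_pow_eq_pow_val, Units.val_pow_eq_pow_val]
    exact hd
  set a : Fˣ := d * (c ^ k)⁻¹ with ha
  have ha2 : a ^ 2 = c := by
    rw [ha, mul_pow, hd', hk, inv_pow, ← pow_mul, mul_comm k 2, pow_succ]
    group
  set s : GL ι F := sc a⁻¹ * (g : GL ι F) with hs
  have hmem : s ∈ SOf f := by
    constructor
    · change s ∈ isometryGroup F f
      rw [mem_iso_iff]
      intro v
      rw [hs, Units.val_mul, ← Matrix.mulVec_mulVec, sc_mulVec, S.hf, Q_sm, ← S.hf, hc]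
      have h1 : ((a⁻¹ : Fˣ) : F) ^ 2 * (c : F) = 1 := by
        rw [← ha2]
        simp
      rw [← mul_assoc, h1, one_mul]
    · change Matrix.GeneralLinearGroup.det s = 1
      rw [hs, map_mul, det_sc, inv_pow, ← hddef, inv_mul_eq_iff_eq_mul, mul_one, hk, pow_succ, pow_mul, ha2, ha]
      rw [mul_left_comm, mul_inv_cancel, mul_one]
  refine ⟨a, ⟨s, hmem⟩, ?_⟩
  change (g : GL ι F) = sc a * (sc a⁻¹ * (g : GL ι F))
  rw [← mul_assoc, ← sc_mul, mul_inv_cancel, sc_one, one_mul]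

lemma dl_eq_soP (g : CO f) : ∃ s : SOf f, dl g = soP f s := by
  obtain ⟨a, s, hs⟩ := co_decomp hodd S hdim g
  refine ⟨s, ?_⟩
  rw [soP_apply]
  exact (dl_eq_dl_iff S _ _).2 ⟨a, hs⟩

lemma map_top_eq_range : (⊤ : Subgroup (CO f)).map (psiO f) = (soP f).range := by
  ext β
  constructor
  · rintro ⟨g, -, rfl⟩
    obtain ⟨s, hs⟩ := dl_eq_soP hodd S hdim g
    exact ⟨s, hs.symm⟩
  · rintro ⟨s, rfl⟩
    exact ⟨_, Subgroup.mem_top _, rfl⟩

/-! ### The Siegel group inside -/

lemma detO_iso (a : isometryGroup F f) :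
    detO q (isoOG f q S.hf a) = Matrix.GeneralLinearGroup.det (a : GL ι F) := by
  apply Units.ext
  rw [detO_coe]
  have h1 : (((isoOG f q S.hf a : OG q) : (ι → F) ≃ₗ[F] (ι → F)) : (ι → F) →ₗ[F] (ι → F))
      = Matrix.toLin' ((a : GL ι F) : Matrix ι ι F) := by
    ext1 w
    rfl
  rw [h1, LinearMap.det_toLin']
  rfl

/-- The element of `OG q` given by an element of the special orthogonal group. -/
noncomputable def toO (S : Sys f q) (s : SOf f) : OG q := isoOG f q S.hf ⟨s.1, s.2.1⟩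

lemma detO_toO (s : SOf f) : detO q (toO S s) = 1 := by
  rw [toO, detO_iso hodd S hdim]
  exact s.2.2

/-- The character on the special orthogonal group. -/
noncomputable def chiS (S : Sys f q) : SOf f →* ℤˣ where
  toFun s := chi q (toO S s)
  map_one' := by
    have : toO S (1 : SOf f) = 1 := map_one (isoOG f q S.hf)
    rw [this, map_one]
  map_mul' a b := by
    have : toO S (a * b) = toO S a * toO S b := map_mul (isoOG f q S.hf) (⟨a.1, a.2.1⟩ : isometryGroup F f) ⟨b.1, b.2.1⟩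
    rw [this, map_mul]

lemma chiS_apply (s : SOf f) : chiS S s = chi q (toO S s) := rfl

lemma soP_mem_Inn_iff (s : SOf f) : soP f s ∈ Inn (POmega F f) ↔ chiS S s = 1 := by
  obtain ⟨fr⟩ := S.fr
  have hE := omega_eq_E S.hQ S.hgen fr
  constructor
  · intro h
    rw [Inn_eq] at h
    obtain ⟨t, ⟨a, ha, hat⟩, htP⟩ := h
    -- `t` lies in the special orthogonal group
    have haE := (mem_omega_iff f q S.hf hE a).1 ha
    have hadet : Matrix.GeneralLinearGroup.det (a : GL ι F) = 1 := by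
      rw [← detO_iso hodd S hdim]
      exact hom_E (detO q) S.hQ fr haE
    have hchi : chi q (isoOG f q S.hf a) = 1 := hom_E (chi q) S.hQ fr haE
    have hat' : (a : GL ι F) = (t : GL ι F) := hat
    obtain ⟨c, hc⟩ := (dl_eq_dl_iff S _ _).1 (htP.trans (soP_apply s))
    have hcSO : (sc c : GL ι F) ∈ SOf f := by
      have e1 : (sc c : GL ι F) = (t : GL ι F) * (s.1)⁻¹ := by
        rw [hc]
        group
      rw [e1]
      apply (SOf f).mul_mem _ ((SOf f).inv_mem s.2)
      rw [← hat']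
      exact ⟨a.2, hadet⟩
    have hc1 := scalar_in_SO hodd S hdim hcSO
    rw [hc1, sc_one, one_mul] at hc
    have hst : (⟨s.1, s.2.1⟩ : isometryGroup F f) = a := by
      apply Subtype.ext
      rw [hat']
      exact hc.symm
    rw [chiS_apply hodd S hdim, toO, hst]
    exact hchi
  · intro h
    rw [Inn_eq]
    have hmem : toO S s ∈ siegelE q := (odd_main hodd S.hQ S.hgen fr).2 _ h (detO_toO hodd S hdim s)
    have hom : (⟨s.1, s.2.1⟩ : isometryGroup F f) ∈ Omega F f := (mem_omega_iff f q S.hf hE _).2 hmem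
    exact ⟨⟨s.1, so_le_CO s.2⟩, ⟨_, hom, rfl⟩, rfl⟩

lemma commute_soP_fa_iff (hI : FInv f) (s : SOf f) (σ : F ≃+* F) :
    Commute (soP f s) (fa hI σ) ↔ glMap σ s.1 = s.1 := by
  rw [soP_apply, commute_dl_fa_iff hI S]
  constructor
  · rintro ⟨c, hc⟩
    have hs' : glMap σ s.1 ∈ SOf f := by
      constructor
      · change glMap σ s.1 ∈ isometryGroup F f
        rw [mem_iso_iff]
        intro v
        have h1 := hI σ (((s.1 : GL ι F) : Matrix ι ι F) *ᵥ sv σ.symm v)
        rw [sv_mulVec, sv_symm', (mem_iso_iff f _).1 s.2.1, ← hI σ, sv_symm'] at h1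
        exact h1
      · change Matrix.GeneralLinearGroup.det (glMap σ s.1) = 1
        apply Units.ext
        have h2 : ((Matrix.GeneralLinearGroup.det (glMap σ s.1) : Fˣ) : F) = σ ((s.1 : Matrix ι ι F).det) := by
          change ((s.1 : Matrix ι ι F).map σ).det = _
          exact (RingHom.map_det (σ : F →+* F) _).symm
        have h3 : ((s.1 : Matrix ι ι F).det) = 1 := by
          have := congrArg Units.val s.2.2
          exact this
        rw [h2, h3, map_one]
        rfl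
    have hcSO : (sc c : GL ι F) ∈ SOf f := by
      have e1 : (sc c : GL ι F) = glMap σ s.1 * (s.1)⁻¹ := by
        rw [hc]
        group
      rw [e1]
      exact (SOf f).mul_mem hs' ((SOf f).inv_mem s.2)
    have hc1 := scalar_in_SO hodd S hdim hcSO
    rw [hc1, sc_one, one_mul] at hc
    exact hc
  · intro h
    exact ⟨1, by rw [sc_one, one_mul]; exact h⟩

end oddDim

/-! ### The character on rational elements -/

section chiExt

variable [Fintype F₀] [Fintype F] {j : F₀ →+* F} {q₀ : QuadraticForm F₀ (ι → F₀)} {q : QuadraticForm F (ι → F)}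

/-- If all rational values are squares, the character is trivial on rational elements of determinant one. -/
theorem chi_ext_of_sq (hodd₀ : Odd (Fintype.card F₀)) (h : Comp j q₀ q) (hQ₀ : Nondeg q₀)
    (hgen₀ : genR q₀ = ⊤) (fr₀ : Frame q₀) (hQ : Nondeg q) (fr : Frame q)
    (hsq : ∀ c : F₀, c ≠ 0 → IsSquare (j c)) (a : OG q₀) (ha : detO q₀ a = 1) : chi q (extO h a) = 1 := by
  have h2F₀ := char_ne_two_of_odd hodd₀
  have hx₀ : q₀ (fr₀.e₁ + fr₀.f₁) ≠ 0 := by
    rw [Q_add, fr₀.h₁.Qe, fr₀.h₁.Qf, fr₀.h₁.B]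
    simp
  set r₀ := refl hQ₀ hx₀ with hr₀
  set ε := chi q (extO h r₀) with hε
  have hεε : ε * ε = 1 := Int.units_mul_self ε
  have hinvε : ε⁻¹ = ε := by
    rw [inv_eq_iff_mul_eq_one]
    exact hεε
  have hneg : detO q₀ r₀ = -1 := by
    apply Units.ext
    rw [detO_refl hQ₀ hx₀ h2F₀]
    simp
  have key : ∀ a : OG q₀, (chi q (extO h a) = 1 ∧ detO q₀ a = 1) ∨ (chi q (extO h a) = ε ∧ detO q₀ a = -1) := by
    intro a
    have hmem : a ∈ genR q₀ := by
      rw [hgen₀]
      exact Subgroup.mem_top a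
    induction hmem using Subgroup.closure_induction with
    | mem x hx =>
      rcases hx with ⟨e, y, hs⟩ | ⟨x', hs⟩
      · left
        exact ⟨hom_E (chi q) hQ fr (isSiegel_ext h hs).mem, hom_E (detO q₀) hQ₀ fr₀ hs.mem⟩
      · right
        have hx' := hs.1
        have hxe : x = refl hQ₀ hx' := OG_ext (fun v => hs.2 v)
        constructor
        · have hrat : j (q₀ x') = ((j (q₀ x') / j (q₀ (fr₀.e₁ + fr₀.f₁)))) * j (q₀ (fr₀.e₁ + fr₀.f₁)) := by
            have : j (q₀ (fr₀.e₁ + fr₀.f₁)) ≠ 0 := (map_ne_zero j).2 hx₀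
            field_simp
          have hc0 : q₀ x' / q₀ (fr₀.e₁ + fr₀.f₁) ≠ 0 := div_ne_zero hx' hx₀
          obtain ⟨d, hd⟩ := hsq _ hc0
          have hd0 : d ≠ 0 := by
            rintro rfl
            rw [mul_zero] at hd
            exact (map_ne_zero j).2 hc0 hd
          have hmem := refl_mul_inv_mem hQ fr (isRefl_ext h hs) (isRefl_ext h (refl_isRefl hQ₀ hx₀)) hd0
            (by
              rw [h.map, h.map, hrat, ← map_div₀, hd]
              ring)
          have h5 := hom_E (chi q) hQ fr hmem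
          rw [map_mul, map_inv] at h5
          exact mul_inv_eq_one.1 h5
        · rw [hxe]
          apply Units.ext
          rw [detO_refl hQ₀ hx' h2F₀]
          simp
    | one =>
      left
      simp
    | mul x y _ _ hx hy =>
      have hneg1 : (-1 : F₀ˣ) * (-1) = 1 := by simp
      rcases hx with ⟨h1, h2⟩ | ⟨h1, h2⟩ <;> rcases hy with ⟨h3, h4⟩ | ⟨h3, h4⟩
      · left
        simp [h1, h2, h3, h4]
      · right
        simp [h1, h2, h3, h4]
      · right
        simp [h1, h2, h3, h4]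
      · left
        simp [h1, h2, h3, h4, hεε]
    | inv x _ hx =>
      rcases hx with ⟨h1, h2⟩ | ⟨h1, h2⟩
      · left
        simp [h1, h2]
      · right
        simp [h1, h2, hinvε]
  rcases key a with ⟨h1, -⟩ | ⟨-, h1⟩
  · exact h1
  · exfalso
    rw [ha] at h1
    have h3 := congrArg Units.val h1
    simp only [Units.val_one, Units.val_neg] at h3
    apply h2F₀
    linear_combination h3

/-- A rational element with non-trivial character. -/
theorem exists_chi_neg (hodd : Odd (Fintype.card F)) (hodd₀ : Odd (Fintype.card F₀)) (h : Comp j q₀ q) (hQ₀ : Nondeg q₀)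
    (hgen : genR q = ⊤) (fr₀ : Frame q₀) (hQ : Nondeg q) (fr : Frame q)
    {ν : F₀} (hν0 : ν ≠ 0) (hν : ¬ IsSquare (j ν)) :
    ∃ a : OG q₀, detO q₀ a = 1 ∧ chi q (extO h a) = -1 := by
  have h2F₀ := char_ne_two_of_odd hodd₀
  have hx₁ : q₀ (fr₀.e₁ + fr₀.f₁) = 1 := by
    rw [Q_add, fr₀.h₁.Qe, fr₀.h₁.Qf, fr₀.h₁.B]
    simp
  have hx₂ : q₀ (fr₀.e₁ + ν • fr₀.f₁) = ν := by
    rw [Q_add, Q_smul, fr₀.h₁.Qe, fr₀.h₁.Qf, polar_smul_r, fr₀.h₁.B]
    ring
  have hx₁0 : q₀ (fr₀.e₁ + fr₀.f₁) ≠ 0 := by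
    rw [hx₁]
    exact one_ne_zero
  have hx₂0 : q₀ (fr₀.e₁ + ν • fr₀.f₁) ≠ 0 := by
    rw [hx₂]
    exact hν0
  refine ⟨refl hQ₀ hx₁0 * refl hQ₀ hx₂0, ?_, ?_⟩
  · rw [map_mul]
    have e : ∀ (x : ι → F₀) (hx : q₀ x ≠ 0), detO q₀ (refl hQ₀ hx) = -1 := by
      intro x hx
      apply Units.ext
      rw [detO_refl hQ₀ hx h2F₀]
      simp
    rw [e, e]
    simp
  · have hy₁ : q (mapV j (fr₀.e₁ + fr₀.f₁)) ≠ 0 := by
      rw [h.map]
      exact (map_ne_zero j).2 hx₁0
    have hy₂ : q (mapV j (fr₀.e₁ + ν • fr₀.f₁)) ≠ 0 := by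
      rw [h.map]
      exact (map_ne_zero j).2 hx₂0
    have e1 : extO h (refl hQ₀ hx₁0) = refl hQ hy₁ := OG_ext (fun v => (isRefl_ext h (refl_isRefl hQ₀ hx₁0)).2 v)
    have e2 : extO h (refl hQ₀ hx₂0) = refl hQ hy₂ := OG_ext (fun v => (isRefl_ext h (refl_isRefl hQ₀ hx₂0)).2 v)
    rw [map_mul, e1, e2]
    apply Cfsg.Agent.Lib.PgoSim.chi_refl_mul hodd hQ hgen fr hy₁ hy₂
    rw [h.map, h.map, hx₁, hx₂, map_one, one_mul]
    exact hν

lemma detO_iso' {f : (ι → F) → F} (hf : ∀ v, f v = q v) (a : isometryGroup F f) :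
    detO q (isoOG f q hf a) = Matrix.GeneralLinearGroup.det (a : GL ι F) := by
  apply Units.ext
  rw [detO_coe]
  have h1 : (((isoOG f q hf a : OG q) : (ι → F) ≃ₗ[F] (ι → F)) : (ι → F) →ₗ[F] (ι → F))
      = Matrix.toLin' ((a : GL ι F) : Matrix ι ι F) := by
    ext1 w
    rfl
  rw [h1, LinearMap.det_toLin']
  rfl

end chiExt

section rational

variable [Fintype F₀] [Fintype F] {j : F₀ →+* F} {σ : F ≃+* F} {f₀ : (ι → F₀) → F₀} {f : (ι → F) → F}
  {q₀ : QuadraticForm F₀ (ι → F₀)} {q : QuadraticForm F (ι → F)}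

lemma det_glJ (g : GL ι F₀) : ((Matrix.GeneralLinearGroup.det (glJ j g) : Fˣ) : F) =
    j ((Matrix.GeneralLinearGroup.det g : F₀ˣ) : F₀) := by
  change ((g : Matrix ι ι F₀).map j).det = j (g : Matrix ι ι F₀).det
  exact (RingHom.map_det j _).symm

/-- A fixed element of the special orthogonal group is rational. -/
lemma exists_rational (B : BC j σ f₀ f q₀ q) (S : Sys f q) (u : SOf f) (hu : glMap σ u.1 = u.1) :
    ∃ a : OG q₀, detO q₀ a = 1 ∧ ∀ v, ((extO B.comp a : OG q) : (ι → F) ≃ₗ[F] (ι → F)) v = (u.1 : Matrix ι ι F) *ᵥ v := by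
  obtain ⟨u₀, hu₀⟩ := exists_glJ_of_fixed B.ran hu
  have hiso : ∀ v, q₀ ((u₀ : Matrix ι ι F₀) *ᵥ v) = q₀ v := by
    apply isom_of_glJ B.comp
    intro w
    rw [hu₀, ← S.hf, ← S.hf]
    exact (mem_iso_iff f _).1 u.2.1 w
  let s₀ : isometryGroup F₀ ⇑q₀ := ⟨u₀, (mem_iso_iff _ _).2 hiso⟩
  refine ⟨isoOG ⇑q₀ q₀ (fun _ => rfl) s₀, ?_, ?_⟩
  · rw [detO_iso']
    apply Units.ext
    apply j.injective
    rw [← det_glJ, hu₀]
    have := congrArg Units.val u.2.2
    exact this.trans (by simp)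
  · intro v
    rw [extO_iso, isoOG_apply, extI_coe, hu₀]

/-- A rational element of determinant one lies in the special orthogonal group. -/
lemma exists_of_rational (B : BC j σ f₀ f q₀ q) (S : Sys f q) (a : OG q₀) (ha : detO q₀ a = 1) :
    ∃ u : SOf f, glMap σ u.1 = u.1 ∧ ∀ v, ((extO B.comp a : OG q) : (ι → F) ≃ₗ[F] (ι → F)) v = (u.1 : Matrix ι ι F) *ᵥ v := by
  obtain ⟨s₀, rfl⟩ := (isoOG ⇑q₀ q₀ (fun _ => rfl)).surjective a
  rw [detO_iso'] at ha
  have h1 : glJ j (s₀ : GL ι F₀) ∈ SOf f := by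
    constructor
    · change _ ∈ isometryGroup F f
      rw [mem_iso_iff]
      intro v
      rw [S.hf, S.hf]
      exact isom_glJ B.comp ((mem_iso_iff _ _).1 s₀.2) v
    · change Matrix.GeneralLinearGroup.det _ = 1
      apply Units.ext
      rw [det_glJ, ha]
      simp
  refine ⟨⟨_, h1⟩, glMap_glJ B.fix _, fun v => ?_⟩
  rw [extO_iso, isoOG_apply, extI_coe]

/-- Elements of `OG q` with the same action are equal. -/
lemma toO_eq_extO (B : BC j σ f₀ f q₀ q) (S : Sys f q) {u : SOf f}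
    {a : OG q₀} (h : ∀ v, ((extO B.comp a : OG q) : (ι → F) ≃ₗ[F] (ι → F)) v = (u.1 : Matrix ι ι F) *ᵥ v) :
    toO S u = extO B.comp a := by
  apply OG_ext
  intro v
  rw [h]
  rfl

end rational

section count

variable [Fintype F₀] [Fintype F] {j : F₀ →+* F} {σ : F ≃+* F} {f₀ : (ι → F₀) → F₀} {f : (ι → F) → F}
  {q₀ : QuadraticForm F₀ (ι → F₀)} {q : QuadraticForm F (ι → F)}

/-- An element of the orthogonal group of determinant one comes from `SOf`. -/
lemma exists_toO (S : Sys f q) (a : OG q) (ha : detO q a = 1) : ∃ s : SOf f, toO S s = a := by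
  obtain ⟨a', rfl⟩ := (isoOG f q S.hf).surjective a
  rw [detO_iso' S.hf] at ha
  exact ⟨⟨a'.1, a'.2, ha⟩, rfl⟩

lemma exists_chiS_neg (hodd : Odd (Fintype.card F)) (S : Sys f q) : ∃ s : SOf f, chiS S s = -1 := by
  obtain ⟨fr⟩ := S.fr
  have h2F := char_ne_two_of_odd hodd
  have hch : ringChar F ≠ 2 := by
    intro h
    have h1 := FiniteField.even_card_iff_char_two.1 h
    rw [Nat.odd_iff] at hodd
    omega
  obtain ⟨ν, hν⟩ := FiniteField.exists_nonsquare hch
  have hν0 : ν ≠ 0 := by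
    rintro rfl
    exact hν IsSquare.zero
  have hx₁ : q (fr.e₁ + fr.f₁) = 1 := by
    rw [Q_add, fr.h₁.Qe, fr.h₁.Qf, fr.h₁.B]
    simp
  have hx₂ : q (fr.e₁ + ν • fr.f₁) = ν := by
    rw [Q_add, Q_smul, fr.h₁.Qe, fr.h₁.Qf, polar_smul_r, fr.h₁.B]
    ring
  have hx₁0 : q (fr.e₁ + fr.f₁) ≠ 0 := by
    rw [hx₁]
    exact one_ne_zero
  have hx₂0 : q (fr.e₁ + ν • fr.f₁) ≠ 0 := by
    rw [hx₂]
    exact hν0
  have hdet : detO q (refl S.hQ hx₁0 * refl S.hQ hx₂0) = 1 := by
    rw [map_mul]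
    have e : ∀ (x : ι → F) (hx : q x ≠ 0), detO q (refl S.hQ hx) = -1 := by
      intro x hx
      apply Units.ext
      rw [detO_refl S.hQ hx h2F]
      simp
    rw [e, e]
    simp
  obtain ⟨s, hs⟩ := exists_toO S _ hdet
  refine ⟨s, ?_⟩
  change chi q (toO S s) = -1
  rw [hs]
  apply Cfsg.Agent.Lib.PgoSim.chi_refl_mul hodd S.hQ S.hgen fr hx₁0 hx₂0
  rw [hx₁, hx₂, one_mul]
  exact hν

lemma Inn_le_range (hodd : Odd (Fintype.card F)) (S : Sys f q) (hdim : Odd (Fintype.card ι)) :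
    Inn (POmega F f) ≤ (soP f).range := by
  rw [Inn_eq, ← map_top_eq_range hodd S hdim]
  exact Subgroup.map_mono le_top

/-- Conjugates of inner automorphisms are inner. -/
lemma conj_Inn_mem {G : Type*} [Group G] (φ k : MulAut G) (hk : k ∈ Inn G) : φ * k * φ⁻¹ ∈ Inn G := by
  obtain ⟨a, rfl⟩ := hk
  refine ⟨φ a, ?_⟩
  ext y
  simp [MulAut.mul_apply, MulAut.inv_def]

/-- The number of classes in odd dimension, odd degree. -/
theorem count_odd_deg (hodd₀ : Odd (Fintype.card F₀)) (hdim : Odd (Fintype.card ι)) (B : BC j σ f₀ f q₀ q) (hI : FInv f)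
    {r : ℕ} (hr : Odd r) (hcard : Fintype.card F = Fintype.card F₀ ^ r) :
    splitClassCount ((⊤ : Subgroup (CO f)).map (psiO f)) (Inn (POmega F f)) (fa hI σ) = 1 := by
  have hodd : Odd (Fintype.card F) := by
    rw [hcard]
    exact hodd₀.pow
  have S := B.S
  rw [map_top_eq_range hodd S hdim]
  have := Cfsg.Agent.Lib.AutPSL.split_count (soP f) (Inn (POmega F f)) (fa hI σ) (Inn_le_range hodd S hdim)
    (fun k hk g => conj_Inn_mem _ _ hk) (1 : SOf f →* Unit) (fun _ => ⟨1, rfl⟩) (by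
      intro g
      refine ⟨fun _ => ?_, fun _ => rfl⟩
      rcases Int.units_eq_one_or (chiS S g) with h | h
      · exact ⟨g, 1, (soP_mem_Inn_iff hodd S hdim g).2 h, by rw [map_one]; exact Commute.one_left _, by simp⟩
      · have hch : ringChar F₀ ≠ 2 := by
          intro h
          have h1 := FiniteField.even_card_iff_char_two.1 h
          rw [Nat.odd_iff] at hodd₀
          omega
        obtain ⟨ν, hν⟩ := FiniteField.exists_nonsquare hch
        have hν0 : ν ≠ 0 := by
          rintro rfl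
          exact hν IsSquare.zero
        obtain ⟨fr₀⟩ := B.S₀.fr
        obtain ⟨fr⟩ := S.fr
        obtain ⟨a, ha, hchi⟩ := exists_chi_neg hodd hodd₀ B.comp B.S₀.hQ S.hgen fr₀ S.hQ fr hν0
          (not_isSquare_j_of_odd j hodd₀ hr hcard hν0 hν)
        obtain ⟨u, hu, hact⟩ := exists_of_rational B S a ha
        have hχ : chiS S u = -1 := by
          rw [chiS_apply hodd S hdim, toO_eq_extO B S hact, hchi]
        refine ⟨g * u⁻¹, u, ?_, ?_, by group⟩
        · rw [soP_mem_Inn_iff hodd S hdim, map_mul, map_inv, h, hχ]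
          rfl
        · exact (commute_soP_fa_iff hodd S hdim hI u σ).2 hu)
  rw [this]
  simp

/-- The number of classes in odd dimension, degree two. -/
theorem count_two_deg (hodd₀ : Odd (Fintype.card F₀)) (hdim : Odd (Fintype.card ι)) (B : BC j σ f₀ f q₀ q) (hI : FInv f)
    (hcard : Fintype.card F = Fintype.card F₀ ^ 2) :
    splitClassCount ((⊤ : Subgroup (CO f)).map (psiO f)) (Inn (POmega F f)) (fa hI σ) = 2 := by
  have hodd : Odd (Fintype.card F) := by
    rw [hcard]
    exact hodd₀.pow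
  have S := B.S
  rw [map_top_eq_range hodd S hdim]
  have := Cfsg.Agent.Lib.AutPSL.split_count (soP f) (Inn (POmega F f)) (fa hI σ) (Inn_le_range hodd S hdim)
    (fun k hk g => conj_Inn_mem _ _ hk) (chiS S) (by
      intro y
      rcases Int.units_eq_one_or y with rfl | rfl
      · exact ⟨1, map_one _⟩
      · obtain ⟨s, hs⟩ := exists_chiS_neg hodd S
        exact ⟨s, hs⟩) (by
      intro g
      constructor
      · intro h
        exact ⟨g, 1, (soP_mem_Inn_iff hodd S hdim g).2 h, by rw [map_one]; exact Commute.one_left _, by simp⟩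
      · rintro ⟨k, u, hk, hu, rfl⟩
        rw [map_mul, (soP_mem_Inn_iff hodd S hdim k).1 hk, one_mul]
        have hu' := (commute_soP_fa_iff hodd S hdim hI u σ).1 hu
        obtain ⟨a, ha, hact⟩ := exists_rational B S u hu'
        rw [chiS_apply hodd S hdim, toO_eq_extO B S hact]
        obtain ⟨fr₀⟩ := B.S₀.fr
        obtain ⟨fr⟩ := S.fr
        exact chi_ext_of_sq hodd₀ B.comp B.S₀.hQ B.S₀.hgen fr₀ S.hQ fr
          (fun c hc => isSquare_j_of_two j hodd₀ hcard hc) a ha)
  rw [this]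
  simp

end count

end Cfsg.Agent.Lib.AutPOm
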