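import Cfsg.Agent.Lib.AutPOm.Cls
import Cfsg.Agent.Lib.AutOrthOutMinus
import Cfsg.Agent.S2696

/-!
# Transport of `PΩ` along an isometry of forms
-/

set_option autoImplicit false
set_option linter.unusedSectionVars false
set_option linter.unusedSimpArgs false
set_option linter.unusedVariables false

namespace Cfsg.Agent.Lib.AutPOm

open Module QuadraticMap Cfsg.Agent.Lib.OrthoBasic Cfsg.Agent.Lib.OrthoSiegel Cfsg.Agent.Lib.OrthoGen
  Cfsg.Agent.Lib.OrthoFinal Cfsg.Agent.Lib.PgoPsi Cfsg.Agent.Lib.PgoGroup Cfsg.Agent.Lib.GammaCount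
  Cfsg.Agent.Lib.Hilbert90 Cfsg.Agent.Lib.QuadFF Cfsg.Agent.Lib.QuadClass Cfsg.Agent.Lib.OrthoCount
  Cfsg.Agent.Lib.PgoParity Cfsg.Agent.Lib.PgoClass
open Cfsg Matrix

section abs

variable {X Y : Type*} [Group X] [Group Y]

/-- An isomorphism restricted to the commutator subgroups. -/
def commEquiv (e : X ≃* Y) : commutator X ≃* commutator Y :=
  (e.subgroupMap (commutator X)).trans (MulEquiv.subgroupCongr (map_commutator_equiv e))

lemma commEquiv_coe (e : X ≃* Y) (s : commutator X) : ((commEquiv e s : commutator Y) : Y) = e s := rfl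

/-- An isomorphism on the quotient by the centres. -/
noncomputable def quotCenterEquiv (e : X ≃* Y) : (X ⧸ Subgroup.center X) ≃* (Y ⧸ Subgroup.center Y) :=
  QuotientGroup.congr _ _ e (by
    ext x
    constructor
    · rintro ⟨a, ha, rfl⟩
      rw [SetLike.mem_coe, Subgroup.mem_center_iff] at ha
      rw [Subgroup.mem_center_iff]
      intro b
      obtain ⟨c, rfl⟩ := e.surjective b
      change e c * e a = e a * e c
      rw [← map_mul, ← map_mul, ha]
    · intro hx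
      refine ⟨e.symm x, ?_, by simp⟩
      rw [SetLike.mem_coe, Subgroup.mem_center_iff]
      intro b
      apply e.injective
      rw [map_mul, map_mul, e.apply_symm_apply]
      exact Subgroup.mem_center_iff.1 hx (e b))

lemma quotCenterEquiv_mk (e : X ≃* Y) (x : X) :
    quotCenterEquiv e (x : X ⧸ Subgroup.center X) = ((e x : Y) : Y ⧸ Subgroup.center Y) := rfl

/-- An isomorphism acts on the automorphism groups. -/
def trA (e : X ≃* Y) : MulAut X ≃* MulAut Y where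
  toFun β := (e.symm.trans β).trans e
  invFun β := (e.trans β).trans e.symm
  left_inv β := by
    ext x
    simp
  right_inv β := by
    ext x
    simp
  map_mul' a b := by
    ext x
    simp [MulAut.mul_apply]

lemma trA_apply (e : X ≃* Y) (β : MulAut X) : trA e β = (e.symm.trans β).trans e := rfl

lemma trA_symm_apply (e : X ≃* Y) (β : MulAut Y) : (trA e).symm β = (e.trans β).trans e.symm := rfl

lemma orderOf_trA (e : X ≃* Y) (β : MulAut X) : orderOf (trA e β) = orderOf β :=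
  orderOf_injective (trA e).toMonoidHom (trA e).injective β

/-- Transport of coset statements along an isomorphism. -/
lemma coset_transfer (ψ : X ≃* Y) (G : Subgroup (MulAut X)) (G' : Subgroup (MulAut Y))
    (h1 : ∀ β ∈ G, trA ψ β ∈ G') (h2 : ∀ β ∈ G', (trA ψ).symm β ∈ G) {x δ : MulAut X} {φ : MulAut Y} (hφ : trA ψ x = φ)
    (hδ : δ ∈ G) {r : ℕ} (hkey : ∀ δ' ∈ G', (δ' * φ) ^ r = 1 → ∃ H ∈ G', δ' * φ = H * φ * H⁻¹)
    (hord : orderOf (δ * x) = r) : IsConjUnder G x (δ * x) := by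
  have hy : (trA ψ δ * φ) ^ r = 1 := by
    rw [← hφ, ← map_mul, ← map_pow, ← hord, pow_orderOf_eq_one, map_one]
  obtain ⟨H, hH, hc⟩ := hkey _ (h1 δ hδ) hy
  refine ⟨(trA ψ).symm H, h2 H hH, ?_⟩
  apply (trA ψ).injective
  rw [map_mul, map_mul, map_mul, map_inv, MulEquiv.apply_symm_apply, hφ, hc]

end abs

variable {ι : Type} [Fintype ι] [DecidableEq ι] {F : Type*} [Field F] {f f' : (ι → F) → F}

section tr

variable (θ : GL ι F) (hθ : ∀ v, f ((θ : Matrix ι ι F) *ᵥ v) = f' v)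

include hθ

lemma tr_inv (v : ι → F) : f' (((θ⁻¹ : GL ι F) : Matrix ι ι F) *ᵥ v) = f v := by
  rw [← hθ, Matrix.mulVec_mulVec, ← Units.val_mul, mul_inv_cancel, Units.val_one, Matrix.one_mulVec]

/-- The conjugation of isometry groups. -/
def isoTr : isometryGroup F f' ≃* isometryGroup F f where
  toFun s := ⟨θ * s * θ⁻¹, by
    rw [mem_iso_iff]
    intro u
    rw [Units.val_mul, Units.val_mul, ← Matrix.mulVec_mulVec, ← Matrix.mulVec_mulVec, hθ,
      (mem_iso_iff f' _).1 s.2, tr_inv θ hθ]⟩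
  invFun s := ⟨θ⁻¹ * s * θ, by
    rw [mem_iso_iff]
    intro u
    rw [Units.val_mul, Units.val_mul, ← Matrix.mulVec_mulVec, ← Matrix.mulVec_mulVec, tr_inv θ hθ,
      (mem_iso_iff f _).1 s.2, hθ]⟩
  left_inv s := Subtype.ext (by
    change θ⁻¹ * (θ * (s : GL ι F) * θ⁻¹) * θ = s
    group)
  right_inv s := Subtype.ext (by
    change θ * (θ⁻¹ * (s : GL ι F) * θ) * θ⁻¹ = s
    group)
  map_mul' a b := Subtype.ext (by
    change θ * ((a : GL ι F) * b) * θ⁻¹ = (θ * a * θ⁻¹) * (θ * b * θ⁻¹)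
    group)

lemma isoTr_coe (s : isometryGroup F f') : ((isoTr θ hθ s : isometryGroup F f) : GL ι F) = θ * s * θ⁻¹ := rfl

/-- The transport of `PΩ`. -/
noncomputable def pomegaTr : POmega F f' ≃* POmega F f := quotCenterEquiv (commEquiv (isoTr θ hθ))

lemma pomegaTr_mk (s : Omega F f') :
    pomegaTr θ hθ (s : POmega F f') = ((commEquiv (isoTr θ hθ) s : Omega F f) : POmega F f) := rfl

/-- The conjugation of similarity groups. -/
def coTr : CO f' ≃* CO f where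
  toFun g := ⟨θ * g * θ⁻¹, by
    obtain ⟨c, hc⟩ := g.2
    refine ⟨c, fun u => ?_⟩
    rw [Units.val_mul, Units.val_mul, ← Matrix.mulVec_mulVec, ← Matrix.mulVec_mulVec, hθ,
      hc, tr_inv θ hθ]⟩
  invFun g := ⟨θ⁻¹ * g * θ, by
    obtain ⟨c, hc⟩ := g.2
    refine ⟨c, fun u => ?_⟩
    rw [Units.val_mul, Units.val_mul, ← Matrix.mulVec_mulVec, ← Matrix.mulVec_mulVec, tr_inv θ hθ,
      hc, hθ]⟩
  left_inv s := Subtype.ext (by
    change θ⁻¹ * (θ * (s : GL ι F) * θ⁻¹) * θ = s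
    group)
  right_inv s := Subtype.ext (by
    change θ * (θ⁻¹ * (s : GL ι F) * θ) * θ⁻¹ = s
    group)
  map_mul' a b := Subtype.ext (by
    change θ * ((a : GL ι F) * b) * θ⁻¹ = (θ * a * θ⁻¹) * (θ * b * θ⁻¹)
    group)

lemma coTr_coe (g : CO f') : ((coTr θ hθ g : CO f) : GL ι F) = θ * g * θ⁻¹ := rfl

lemma coTr_symm_coe (g : CO f) : (((coTr θ hθ).symm g : CO f') : GL ι F) = θ⁻¹ * g * θ := rfl

/-- The transport intertwines the actions of similarities. -/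
lemma pomegaTr_dl (g : CO f') (y : POmega F f') :
    pomegaTr θ hθ (dl g y) = dl (coTr θ hθ g) (pomegaTr θ hθ y) := by
  induction y using QuotientGroup.induction_on with
  | H s =>
  change pomegaTr θ hθ (psiO f' g (s : POmega F f')) = psiO f (coTr θ hθ g) (pomegaTr θ hθ (s : POmega F f'))
  rw [psiO_mk, pomegaTr_mk, pomegaTr_mk, psiO_mk]
  congr 1
  apply Subtype.ext
  apply Subtype.ext
  rw [conjOmega_coe]
  change θ * ((conjOmega f' g s : Omega F f') : isometryGroup F f').1 * θ⁻¹ = _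
  rw [conjOmega_coe, coTr_coe]
  change _ = (θ * g * θ⁻¹) * (θ * ((s : isometryGroup F f') : GL ι F) * θ⁻¹) * (θ * g * θ⁻¹)⁻¹
  group

/-- The transport of a product. -/
lemma pomegaTr_symm_dl (g : CO f) (y : POmega F f') :
    (pomegaTr θ hθ).symm (dl g (pomegaTr θ hθ y)) = dl ((coTr θ hθ).symm g) y := by
  rw [MulEquiv.symm_apply_eq, pomegaTr_dl, MulEquiv.apply_symm_apply]

/-- An isomorphism of the groups, composed with the transport to a semisimilarity, acts on similarities. -/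
lemma iso_conj_dl [Fintype F] (ψ : POmega F f ≃* POmega F f') {G : GL ι F} {τ : F ≃+* F} (hG : IsSemisimilarityPair f G τ)
    (hΦ : (ψ.trans (pomegaTr θ hθ) : MulAut (POmega F f)) = gs hG) (g : CO f) :
    ((ψ.symm.trans (dl g)).trans ψ : MulAut (POmega F f')) = dl ((coTr θ hθ).symm (Cfsg.Agent.Lib.AutOrthOut.coConj hG g)) := by
  have hconj : gs hG * dl g * (gs hG)⁻¹ = dl (Cfsg.Agent.Lib.AutOrthOut.coConj hG g) :=
    Cfsg.Agent.Lib.AutOrthOut.psiG_conj_psiO hG g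
  rw [← hΦ] at hconj
  apply MulEquiv.ext
  intro y
  have e1 := DFunLike.congr_fun hconj (pomegaTr θ hθ y)
  rw [← pomegaTr_symm_dl θ hθ _ y, ← e1, MulAut.mul_apply, MulAut.mul_apply]
  change ψ ((dl g) (ψ.symm y)) = _
  have h1 : ((ψ.trans (pomegaTr θ hθ) : MulAut (POmega F f)))⁻¹ (pomegaTr θ hθ y) = ψ.symm y := by
    change (ψ.trans (pomegaTr θ hθ)).symm (pomegaTr θ hθ y) = _
    rw [MulEquiv.symm_apply_eq]
    change _ = pomegaTr θ hθ (ψ (ψ.symm y))
    rw [MulEquiv.apply_symm_apply]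
  rw [h1]
  change _ = (pomegaTr θ hθ).symm (pomegaTr θ hθ (ψ ((dl g) (ψ.symm y))))
  rw [MulEquiv.symm_apply_apply]

end tr

section minus

universe u

variable {F : Type u} [Field F] [Fintype F]

/-- Any two minus forms are isometric. -/
lemma exists_tr {m : ℕ} {a b a' b' : F}
    (hab : ∀ z₁ z₂ : F, z₁ ^ 2 + a * z₁ * z₂ + b * z₂ ^ 2 = 0 → z₁ = 0 ∧ z₂ = 0)
    (hab' : ∀ z₁ z₂ : F, z₁ ^ 2 + a' * z₁ * z₂ + b' * z₂ ^ 2 = 0 → z₁ = 0 ∧ z₂ = 0) :
    ∃ θ : GL (Ix m) F, ∀ v, quadFormMinus m F a b ((θ : Matrix (Ix m) (Ix m) F) *ᵥ v) = quadFormMinus m F a' b' v := by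
  have hV' : finrank F ((Fin m ⊕ Fin m) ⊕ Fin 2 → F) = 2 * (m + 1) := by
    simp
    ring
  have hc : (Nat.card {v // qMinus m a' b' v = 0} : ℤ) ≠ (Fintype.card F : ℤ) ^ (2 * m + 1) + (Fintype.card F : ℤ) ^ (m + 1) - (Fintype.card F : ℤ) ^ m := by
    rw [zeros_minus a' b' hab' m]
    exact count_ne m
  obtain ⟨e, he⟩ := iso_qMinus hV' (qMinus m a' b') (ND_qMinus a' b' hab' m) hc a b hab
  refine ⟨glOf e, fun v => ?_⟩
  rw [glOf_mulVec, ← qMinus_apply, he, qMinus_apply]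

/-- The inner-diagonal group in odd characteristic, in terms of determinants. -/
lemma mem_inndiag_odd_iff' (hodd : Odd (Fintype.card F)) {n : ℕ} {a b : F}
    (hab : ∀ z₁ z₂ : F, z₁ ^ 2 + a * z₁ * z₂ + b * z₂ ^ 2 = 0 → z₁ = 0 ∧ z₂ = 0) (g : CO (quadFormMinus (n + 2) F a b)) (c : Fˣ)
    (hc : ∀ v, quadFormMinus (n + 2) F a b (((g : GL (Ix (n + 2)) F) : Matrix (Ix (n + 2)) (Ix (n + 2)) F) *ᵥ v) = c * quadFormMinus (n + 2) F a b v) :
    dl g ∈ inndiagPOmegaMinus (n + 2) F a b ↔ ((g : GL (Ix (n + 2)) F) : Matrix (Ix (n + 2)) (Ix (n + 2)) F).det = (c : F) ^ (n + 3) := by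
  obtain ⟨D, -⟩ := Cfsg.Agent.Lib.PgoInndiag.exists_data_minus hodd a b hab n
  rw [Cfsg.Agent.Lib.PgoInndiag.inndiag_minus a b hab n D]
  have hm : D.multC g = c := D.multC_eq hc
  have hd := Cfsg.Agent.Lib.PgoInndiag.delta_eq_one_iff D g
  rw [hm] at hd
  rw [← hd]
  constructor
  · rintro ⟨g₁, hg₁, h⟩
    obtain ⟨k, hk⟩ := (D.psiO_eq_iff g₁ g).1 h
    have h1 : D.delta g₁ = 1 := hg₁
    rw [hk, map_mul, D.delta_scalC, mul_one] at h1
    exact h1
  · intro h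
    exact ⟨g, h, rfl⟩

lemma tr_delta (hodd : Odd (Fintype.card F)) {n : ℕ} {a b a' b' : F}
    (hab' : ∀ z₁ z₂ : F, z₁ ^ 2 + a' * z₁ * z₂ + b' * z₂ ^ 2 = 0 → z₁ = 0 ∧ z₂ = 0)
    (D : Cfsg.Agent.Lib.PgoSim.Data (quadFormMinus (n + 2) F a b) (qMinus (n + 2) a b) (n + 3))
    (θ : GL (Ix (n + 2)) F) (hθ : ∀ v, quadFormMinus (n + 2) F a b ((θ : Matrix (Ix (n + 2)) (Ix (n + 2)) F) *ᵥ v) = quadFormMinus (n + 2) F a' b' v)
    (g₁ : CO (quadFormMinus (n + 2) F a b)) (hδ : D.delta g₁ = 1) :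
    dl ((coTr θ hθ).symm g₁) ∈ inndiagPOmegaMinus (n + 2) F a' b' := by
  have hm1 := D.multC_spec g₁
  have h1 := (Cfsg.Agent.Lib.PgoInndiag.delta_eq_one_iff D g₁).1 hδ
  rw [mem_inndiag_odd_iff' hodd hab' _ (D.multC g₁)]
  · rw [coTr_symm_coe]
    have h2 : (((θ⁻¹ * (g₁ : GL (Ix (n + 2)) F) * θ : GL (Ix (n + 2)) F)) : Matrix (Ix (n + 2)) (Ix (n + 2)) F).det =
        ((g₁ : GL (Ix (n + 2)) F) : Matrix (Ix (n + 2)) (Ix (n + 2)) F).det := by
      have h3 : Matrix.GeneralLinearGroup.det (θ⁻¹ * (g₁ : GL (Ix (n + 2)) F) * θ) = Matrix.GeneralLinearGroup.det (g₁ : GL (Ix (n + 2)) F) := by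
        rw [map_mul, map_mul, mul_comm (Matrix.GeneralLinearGroup.det θ⁻¹), mul_assoc, ← map_mul, inv_mul_cancel, map_one, mul_one]
      exact congrArg Units.val h3
    rw [h2]
    exact h1
  · intro v
    rw [coTr_symm_coe, Units.val_mul, Units.val_mul, ← Matrix.mulVec_mulVec, ← Matrix.mulVec_mulVec, tr_inv θ hθ, hm1, hθ]

/-- Isomorphisms of the groups of two minus forms match the inner-diagonal groups. -/
theorem inndiag_transport {m : ℕ} (hm : 3 ≤ m) {a b a' b' : F}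
    (hab : ∀ z₁ z₂ : F, z₁ ^ 2 + a * z₁ * z₂ + b * z₂ ^ 2 = 0 → z₁ = 0 ∧ z₂ = 0)
    (hab' : ∀ z₁ z₂ : F, z₁ ^ 2 + a' * z₁ * z₂ + b' * z₂ ^ 2 = 0 → z₁ = 0 ∧ z₂ = 0)
    (ψ : POmega F (quadFormMinus m F a b) ≃* POmega F (quadFormMinus m F a' b')) (β : MulAut (POmega F (quadFormMinus m F a b)))
    (hβ : β ∈ inndiagPOmegaMinus m F a b) :
    ((ψ.symm.trans β).trans ψ : MulAut (POmega F (quadFormMinus m F a' b'))) ∈ inndiagPOmegaMinus m F a' b' := by
  rcases Nat.even_or_odd (Fintype.card F) with hq | hodd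
  · rw [inndiag_minus_char2 hq (by omega) hab] at hβ
    rw [inndiag_minus_char2 hq (by omega) hab']
    obtain ⟨k, rfl⟩ := hβ
    refine ⟨ψ k, ?_⟩
    ext y
    simp [MulAut.conj_apply]
  · obtain ⟨n, rfl⟩ : ∃ n, m = n + 2 := ⟨m - 2, by omega⟩
    obtain ⟨D, -⟩ := Cfsg.Agent.Lib.PgoInndiag.exists_data_minus hodd a b hab n
    obtain ⟨θ, hθ⟩ := exists_tr (m := n + 2) hab hab'
    -- the automorphism
    have hΦ : ((ψ.trans (pomegaTr θ hθ)) : MulAut (POmega F (quadFormMinus (n + 2) F a b))) ∈ gammaPOmega F (quadFormMinus (n + 2) F a b) := by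
      rw [Cfsg.Agent.S2696.result hm a b hab]
      exact Subgroup.mem_top _
    obtain ⟨G, τ, hG, hΦG⟩ := gs_range _ hΦ
    -- `β`
    have hβ' := hβ
    rw [Cfsg.Agent.Lib.PgoInndiag.inndiag_minus a b hab n D] at hβ'
    obtain ⟨g, hg, rfl⟩ := hβ'
    have hg1 : D.delta g = 1 := hg
    have hδ : D.delta (Cfsg.Agent.Lib.AutOrthOut.coConj hG g) = 1 := by
      rw [Cfsg.Agent.Lib.AutOrthOut.delta_coConj, hg1]
    have e := iso_conj_dl θ hθ ψ hG hΦG g
    have key := tr_delta hodd hab' D θ hθ _ hδ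
    rw [← e] at key
    exact key

end minus

end Cfsg.Agent.Lib.AutPOm
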